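import Cfsg.Agent.Lib.Gag.Rng

/-!
# Identities in characteristic two: `apply z2; simp only [mul_add, add_mul, mul_assoc, ..]; match_scalars <;> decide`
-/

set_option autoImplicit false

namespace CfsgLib.Gag

theorem z2 {M : Type*} [AddCommGroup M] [Module (ZMod 2) M] {a b : M}
    (h : (1 : ZMod 2) • a = (1 : ZMod 2) • b) : a = b := by simpa using h

/-- Turn a relation `a * b = c` into a rewrite rule for right-associated products. -/
theorem assoc_rw {R : Type*} [Semigroup R] {a b c : R} (h : a * b = c) (z : R) :
    a * (b * z) = c * z := by rw [← mul_assoc, h]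

end CfsgLib.Gag
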