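import Cfsg.Agent.Lib.Gag.Bas
import Cfsg.Agent.Lib.Gag.Z2
import Cfsg.Agent.Lib.InvChar.SylowBasic

/-!
# Gagola's theorem: two elements of order three (plans/GAG.md, package ALG)
-/

set_option autoImplicit false
set_option linter.unusedSectionVars false
set_option linter.unusedVariables false

namespace CfsgLib.Gag
open Cfsg Subgroup

section deg
variable {V : Type*} [AddCommGroup V] [Module (ZMod 2) V] [Finite V] {ε : E2 V}

/-- `u` normalises the powers of `ε`. -/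
def Nrm (ε u : E2 V) : Prop := ∀ i : ℕ, ∃ u', u * ε ^ i = ε ^ i * u'

theorem Nrm.of_comm {u : E2 V} (h : u * ε = ε * u) : Nrm ε u :=
  fun i => ⟨u, ((show Commute u ε from h).pow_right i).eq⟩

theorem Nrm.mul {u v : E2 V} (hu : Nrm ε u) (hv : Nrm ε v) : Nrm ε (u * v) := fun i => by
  obtain ⟨u', hu⟩ := hu i
  obtain ⟨v', hv⟩ := hv i
  exact ⟨u' * v', by rw [mul_assoc, hv, ← mul_assoc, hu, mul_assoc]⟩

theorem Nrm.add {u v : E2 V} (hu : Nrm ε u) (hv : Nrm ε v) : Nrm ε (u + v) := fun i => by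
  obtain ⟨u', hu⟩ := hu i
  obtain ⟨v', hv⟩ := hv i
  exact ⟨u' + v', by rw [add_mul, hu, hv, mul_add]⟩

theorem Nrm.one : Nrm ε 1 := Nrm.of_comm (by simp)

theorem Nrm.of_anti {X : E2 V} (h1 : X * ε = ε * (X + 1)) (h2 : (X + 1) * ε = ε * X) :
    Nrm ε X := by
  have : ∀ i : ℕ, ∀ u, u = X ∨ u = X + 1 → ∃ u', (u' = X ∨ u' = X + 1) ∧ u * ε ^ i = ε ^ i * u' := by
    intro i
    induction i with
    | zero => exact fun u hu => ⟨u, hu, by simp⟩
    | succ i ih =>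
      intro u hu
      obtain ⟨u', hu', e⟩ := ih u hu
      rcases hu' with rfl | rfl
      · exact ⟨_, Or.inr rfl, by rw [pow_succ, ← mul_assoc, e, mul_assoc, h1, mul_assoc]⟩
      · exact ⟨_, Or.inl rfl, by rw [pow_succ, ← mul_assoc, e, mul_assoc, h2, mul_assoc]⟩
  exact fun i => let ⟨u', _, e⟩ := this i X (Or.inl rfl); ⟨u', e⟩

theorem Nrm.map {u : E2 V} (hu : Nrm ε u) (hU : IsUnit u) (i : ℕ) :
    (LinearMap.range (ε ^ i)).map u = LinearMap.range (ε ^ i) := by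
  obtain ⟨u', e⟩ := hu i
  have hle : (LinearMap.range (ε ^ i)).map u ≤ LinearMap.range (ε ^ i) := by
    rintro _ ⟨_, ⟨v, rfl⟩, rfl⟩
    exact ⟨u' v, by rw [← Module.End.mul_apply, ← e, Module.End.mul_apply]⟩
  have hinj : Function.Injective u := ((Module.End.isUnit_iff u).1 hU).1
  refine SetLike.coe_injective (Set.eq_of_subset_of_ncard_le hle ?_ (Set.toFinite _))
  rw [Submodule.map_coe, Set.ncard_image_of_injective _ hinj]

theorem Nrm.range_pow {u : E2 V} (hu : Nrm ε u) (hU : IsUnit u) (j m : ℕ) :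
    LinearMap.range ((ε ^ j * u) ^ m) = LinearMap.range (ε ^ (j * m)) := by
  induction m with
  | zero => simp
  | succ m ih =>
    rw [pow_succ', Module.End.mul_eq_comp, LinearMap.range_comp, ih, Module.End.mul_eq_comp,
      Submodule.map_comp, hu.map hU, ← LinearMap.range_comp, ← Module.End.mul_eq_comp, ← pow_add,
      show j + j * m = j * (m + 1) by ring]

theorem range_pow_stab (hn : IsNilpotent ε) {a d : ℕ} (hd : 1 ≤ d)
    (h : LinearMap.range (ε ^ (a + d)) = LinearMap.range (ε ^ a)) : ε ^ a = 0 := by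
  have key : ∀ n : ℕ, LinearMap.range (ε ^ (a + n * d)) = LinearMap.range (ε ^ a) := by
    intro n
    induction n with
    | zero => simp
    | succ n ih =>
      rw [show a + (n + 1) * d = d + (a + n * d) by ring, pow_add, Module.End.mul_eq_comp,
        LinearMap.range_comp, ih, ← LinearMap.range_comp, ← Module.End.mul_eq_comp, ← pow_add,
        add_comm, h]
  obtain ⟨n, hn⟩ := hn
  have := key n
  rw [pow_eq_zero_of_le (by nlinarith : n ≤ a + n * d) hn, LinearMap.range_zero] at this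
  exact LinearMap.range_eq_bot.1 this.symm

theorem range_pow_le (a d : ℕ) : LinearMap.range (ε ^ (a + d)) ≤ LinearMap.range (ε ^ a) := by
  rw [pow_add, Module.End.mul_eq_comp]; exact LinearMap.range_comp_le_range _ _

theorem eq_of_le_card {U U' : Submodule (ZMod 2) V} (h : U ≤ U') (hc : Nat.card U' ≤ Nat.card U) :
    U = U' :=
  SetLike.coe_injective (Set.eq_of_subset_of_ncard_le h hc (Set.toFinite _))

theorem half_ne (nt : ∃ v : V, v ≠ 0) {a : ℕ}
    (ha : Nat.card (LinearMap.range (ε ^ a)) ^ 2 = Nat.card V) : ε ^ a ≠ 0 := by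
  intro h0
  obtain ⟨v, hv⟩ := nt
  haveI : Nontrivial V := ⟨⟨v, 0, hv⟩⟩
  rw [h0, LinearMap.range_zero] at ha
  have : 1 < Nat.card V := Finite.one_lt_card
  simp at ha
  omega

theorem half_uniq (nt : ∃ v : V, v ≠ 0) (hn : IsNilpotent ε) {a b : ℕ}
    (ha : Nat.card (LinearMap.range (ε ^ a)) ^ 2 = Nat.card V)
    (hb : Nat.card (LinearMap.range (ε ^ b)) ^ 2 = Nat.card V) : a = b := by
  wlog hab : a < b generalizing a b
  · rcases Nat.lt_or_ge b a with h | h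
    · exact (this hb ha h).symm
    · omega
  obtain ⟨d, rfl⟩ := Nat.exists_eq_add_of_lt hab
  have hc := (Nat.pow_left_injective two_ne_zero) (ha.trans hb.symm)
  rw [add_assoc] at hc
  exact (half_ne nt ha (range_pow_stab hn (by omega)
    (eq_of_le_card (range_pow_le a (d + 1)) hc.le))).elim

end deg

variable {G V : Type*} [Group G] [Finite G] [AddCommGroup V] [Module (ZMod 2) V] [Finite V]
  {ρ : G →* E2 V} {x y : G}

theorem Hyp.deg (h : Hyp ρ) {ε u : E2 V} (hn : IsNilpotent ε) (hu : Nrm ε u) (hU : IsUnit u)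
    {j : ℕ} (hj : 1 ≤ j) (h0 : ε ^ j ≠ 0) {γ : G} (hγ : ρ γ + 1 = ε ^ j * u) :
    ∃ r : ℕ, Nat.card (LinearMap.range (ε ^ (j * 2 ^ r))) ^ 2 = Nat.card V ∧
      ε ^ (j * 2 ^ (r + 1)) = 0 := by
  classical
  have hp : ∀ r : ℕ, ρ (γ ^ 2 ^ r) + 1 = (ε ^ j * u) ^ 2 ^ r := fun r => by
    rw [← hγ, add_pow_two_pow two_eq (by simp), map_pow, one_pow]
  have hnil : IsNilpotent (ρ γ + 1) := by
    obtain ⟨n, hn⟩ := hn
    refine ⟨n, LinearMap.range_eq_bot.1 ?_⟩
    rw [hγ, hu.range_pow hU, pow_eq_zero_of_le (by nlinarith : n ≤ j * n) hn, LinearMap.range_zero]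
  obtain ⟨k, hk⟩ := h.two_of_nilp hnil
  have hex : ∃ r : ℕ, γ ^ 2 ^ (r + 1) = 1 := ⟨k, by rw [pow_succ, pow_mul, hk, one_pow]⟩
  have h1 := Nat.find_spec hex
  have h2 : γ ^ 2 ^ Nat.find hex ≠ 1 := by
    rcases hr : Nat.find hex with _ | r
    · intro h1
      rw [pow_zero, pow_one] at h1
      rw [h1, map_one, two_eq] at hγ
      exact h0 (hU.mul_right_cancel (by rw [← hγ, zero_mul]))
    · exact Nat.find_min hex (by omega)
  refine ⟨Nat.find hex, ?_, ?_⟩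
  · obtain ⟨c1, c2⟩ := h.card_fix (t := γ ^ 2 ^ Nat.find hex)
      (by rw [← sq, ← pow_mul, ← pow_succ, h1]) h2
    rw [c2, hp, hu.range_pow hU] at c1
    exact c1
  · have := hp (Nat.find hex + 1)
    rw [h1, map_one, two_eq] at this
    rw [← LinearMap.range_eq_bot, ← hu.range_pow hU, ← this, LinearMap.range_zero]

theorem Hyp.xx (h : Hyp ρ) (hx : orderOf x = 3) : ρ x * ρ x = ρ x + 1 :=
  eq_of_add two_eq (by rw [← add_assoc]; exact h.x3 hx)

theorem Hyp.rho_inv (h : Hyp ρ) (hx : orderOf x = 3) : ρ x⁻¹ = ρ x + 1 := by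
  have : x⁻¹ = x * x := by
    rw [inv_eq_iff_mul_eq_one, ← pow_three, ← hx, pow_orderOf_eq_one]
  rw [this, map_mul, h.xx hx]

theorem cc_symm (x y : G) : cc ρ x y = cc ρ y x := by
  rw [cc, cc, add_comm]

theorem Hyp.cc_comm (h : Hyp ρ) (hx : orderOf x = 3) (hy : orderOf y = 3) :
    ρ x * cc ρ x y = cc ρ x y * ρ x ∧ ρ y * cc ρ x y = cc ρ x y * ρ y := by
  have hX := h.xx hx
  have hY := h.xx hy
  constructor <;>
  · apply z2
    simp only [cc, mul_add, add_mul, mul_one, one_mul, mul_assoc, hX, hY, assoc_rw hX, assoc_rw hY]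
    match_scalars <;> decide

theorem Hyp.cc_inv (h : Hyp ρ) (hx : orderOf x = 3) (hy : orderOf y = 3) :
    cc ρ x y⁻¹ = cc ρ x y + 1 := by
  apply z2
  simp only [cc, h.rho_inv hy, mul_add, add_mul, mul_one, one_mul, mul_assoc]
  match_scalars <;> decide

theorem Hyp.rho_mul_inv (h : Hyp ρ) (hx : orderOf x = 3) (hy : orderOf y = 3) :
    ρ (x * y⁻¹) = 1 + ρ x * (ρ x + ρ y) := by
  apply z2
  simp only [map_mul, h.rho_inv hy, mul_add, add_mul, mul_one, one_mul, mul_assoc, h.xx hx]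
  match_scalars <;> decide

theorem Hyp.tr_eq (h : Hyp ρ) (hx : orderOf x = 3) (hy : orderOf y = 3) :
    ρ (x * y⁻¹) + ρ (y * x⁻¹) = cc ρ x y := by
  apply z2
  simp only [cc, map_mul, h.rho_inv hy, h.rho_inv hx, mul_add, add_mul, mul_one, one_mul,
    mul_assoc, h.xx hx, h.xx hy]
  match_scalars <;> decide

/-- `x (δ + c) = (δ + c)(x + 1)` and `(δ + c) x = (x + 1)(δ + c)`. -/
theorem Hyp.anti (h : Hyp ρ) (hx : orderOf x = 3) (hy : orderOf y = 3) :
    ρ x * (ρ x + ρ y + cc ρ x y) = (ρ x + ρ y + cc ρ x y) * (ρ x + 1) ∧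
    (ρ x + ρ y + cc ρ x y) * ρ x = (ρ x + 1) * (ρ x + ρ y + cc ρ x y) := by
  have hX := h.xx hx
  have hY := h.xx hy
  constructor <;>
  · apply z2
    simp only [cc, mul_add, add_mul, mul_one, one_mul, mul_assoc, hX, hY, assoc_rw hX, assoc_rw hY]
    match_scalars <;> decide

theorem Hyp.eps_sq (h : Hyp ρ) (hx : orderOf x = 3) (hy : orderOf y = 3) :
    (ρ x + ρ y + cc ρ x y) * (ρ x + ρ y + cc ρ x y) = cc ρ x y + cc ρ x y * cc ρ x y := by
  obtain ⟨c1, c2⟩ := h.cc_comm hx hy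
  have : (ρ x + ρ y) * cc ρ x y = cc ρ x y * (ρ x + ρ y) := by rw [add_mul, mul_add, c1, c2]
  rw [add_mul, mul_add (ρ x + ρ y), mul_add (cc ρ x y), this, add_assoc, ← add_assoc (cc ρ x y * _),
    two_eq, zero_add]
  rfl

theorem rho_unit (g : G) : IsUnit (ρ g) := (Group.isUnit g).map ρ

/-- If `x y⁻¹` is a `2`-element then `c = 0`. -/
theorem Hyp.l1a (h : Hyp ρ) (hx : orderOf x = 3) (hy : orderOf y = 3) {k : ℕ}
    (hk : (x * y⁻¹) ^ 2 ^ k = 1) : cc ρ x y = 0 := by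
  have hX := h.xx hx
  have hY := h.xx hy
  obtain ⟨a1, a2⟩ := h.anti hx hy
  obtain ⟨c1, c2⟩ := h.cc_comm hx hy
  have es := h.eps_sq hx hy
  have tr := h.tr_eq hx hy
  have hg := h.rho_mul_inv hx hy
  set c := cc ρ x y with hc
  set ε := ρ x + ρ y + c with hε
  have hgi : ρ (x * y⁻¹) * ρ (y * x⁻¹) = 1 := by rw [← map_mul]; simp
  have hgi' : ρ (y * x⁻¹) * ρ (x * y⁻¹) = 1 := by rw [← map_mul]; simp
  have hcn : IsNilpotent c := by
    refine ⟨2 ^ k, ?_⟩
    have h1 : (y * x⁻¹) ^ 2 ^ k = 1 := by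
      rw [show y * x⁻¹ = (x * y⁻¹)⁻¹ by group, inv_pow, hk, inv_one]
    rw [← tr, add_pow_two_pow two_eq (hgi.trans hgi'.symm), ← map_pow, ← map_pow, hk, h1, two_eq]
  obtain ⟨w, hw⟩ := hcn.isUnit_one_add
  have hεc : ε * c = c * ε := by rw [hε, add_mul, add_mul, c1, c2, mul_add, mul_add]
  have hwε : Commute (↑w⁻¹ : E2 V) ε := by
    refine Commute.units_inv_left ?_
    rw [hw]; show _ * _ = _ * _; rw [add_mul 1 c ε, mul_add ε 1 c, hεc, one_mul, mul_one]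
  have hcw : c = ε * ε * ↑w⁻¹ := by
    rw [es, show c + c * c = c * (1 + c) by rw [mul_add, mul_one], ← hw, mul_assoc, w.mul_inv,
      mul_one]
  have hεn : IsNilpotent ε := by
    refine IsNilpotent.of_pow (m := 2) ?_
    rw [sq, es, show c + c * c = c * (1 + c) by rw [mul_add, mul_one]]
    exact (show Commute c (1 + c) from (Commute.one_right c).add_right rfl).isNilpotent_mul_right hcn
  suffices h2 : ε * ε = 0 by rw [hcw, h2, zero_mul]
  by_cases h0 : ε = 0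
  · rw [h0, zero_mul]
  have nX : Nrm ε (ρ x) := Nrm.of_anti a1 a2.symm
  have nw : Nrm ε ↑w⁻¹ := Nrm.of_comm hwε
  have nc : Nrm ε c := Nrm.of_comm hεc.symm
  have nY : Nrm ε (ρ y) := by
    have : ρ y = ρ x + ε + c := by apply z2; rw [hε]; match_scalars <;> decide
    rw [this]; exact (nX.add (Nrm.of_comm rfl)).add nc
  have hδ : ρ x + ρ y = ε + c := by rw [hε, add_assoc, two_eq, add_zero]
  obtain ⟨r, r1, r2⟩ := h.deg (u := (ρ x + 1) * (1 + ε * ↑w⁻¹)) (j := 1) (γ := x * y⁻¹) hεn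
    ((nX.add Nrm.one).mul (Nrm.one.add ((Nrm.of_comm rfl).mul nw)))
    ((h.rho_inv hx ▸ rho_unit _).mul (hwε.symm.isNilpotent_mul_right hεn).isUnit_one_add) le_rfl
    (by rwa [pow_one]) (by
      rw [hg, add_comm, ← add_assoc, two_eq, zero_add, pow_one, ← mul_assoc, ← a1, hδ, mul_assoc,
        mul_add ε, mul_one, ← mul_assoc ε, ← hcw])
  rw [one_mul] at r1 r2
  by_cases h3 : ε ^ 3 = 0
  · have hne := half_ne h.nt r1
    have hr : r = 0 ∨ r = 1 := by
      by_contra hr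
      exact hne (pow_eq_zero_of_le (by
        have : 2 ^ 2 ≤ 2 ^ r := Nat.pow_le_pow_right (by norm_num) (by omega)
        omega) h3)
    rcases hr with rfl | rfl
    · simpa [sq] using r2
    · exfalso
      rw [pow_one] at r1 hne
      have hk := Submodule.card_eq_card_quotient_mul_card (LinearMap.ker (ε ^ 2))
      rw [Nat.card_congr (LinearMap.quotKerEquivRange (ε ^ 2)).toEquiv, ← r1, sq] at hk
      have hk' := Nat.eq_of_mul_eq_mul_right Nat.card_pos hk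
      have l1 : LinearMap.range (ε ^ 1) ≤ LinearMap.ker (ε ^ 2) := by
        rintro _ ⟨v, rfl⟩
        rw [LinearMap.mem_ker, ← Module.End.mul_apply, ← pow_add, h3]; rfl
      have l2 := Nat.card_le_card_of_injective _ (Submodule.inclusion_injective l1)
      have := range_pow_stab hεn le_rfl (eq_of_le_card (range_pow_le 1 1) (by
        rw [← hk'] at l2; exact l2))
      exact h0 (by simpa using this)
  · exfalso
    set g' := x * (x * y⁻¹) * x⁻¹ with hg'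
    have e1 : ρ (x * y⁻¹) * ρ (x * y⁻¹) = 1 + c * ρ (x * y⁻¹) := by
      rw [← tr, add_mul, hgi', add_comm, add_assoc, two_eq, add_zero]
    have e2 : ρ g' * ρ g' = 1 + c * ρ g' := by
      have : g' * g' = x * ((x * y⁻¹) * (x * y⁻¹)) * x⁻¹ := by rw [hg']; group
      rw [← map_mul, this, map_mul, map_mul, map_mul ρ (x * y⁻¹), e1, mul_add, add_mul, mul_one,
        ← map_mul, mul_inv_cancel, map_one, ← mul_assoc, c1, hg']
      simp only [map_mul, mul_assoc]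
    have e3 : ρ (x * y⁻¹) + ρ g' = ε * ρ x := by
      apply z2
      simp only [hg', hε, hc, cc, map_mul, h.rho_inv hx, h.rho_inv hy, mul_add, add_mul, mul_one,
        one_mul, mul_assoc, hX, hY, assoc_rw hX, assoc_rw hY]
      match_scalars <;> decide
    have ng : Nrm ε (ρ g'⁻¹) := by
      have : g'⁻¹ = x * y * x⁻¹ * x⁻¹ := by rw [hg']; group
      rw [this, map_mul, map_mul, map_mul, h.rho_inv hx]
      exact ((nX.mul nY).mul (nX.add Nrm.one)).mul (nX.add Nrm.one)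
    obtain ⟨r', r1', -⟩ := h.deg (u := ↑w⁻¹ * ρ x * (ρ g'⁻¹ * ρ g'⁻¹)) (j := 3)
      (γ := (x * y⁻¹) * (x * y⁻¹) * (g'⁻¹ * g'⁻¹)) hεn ((nw.mul nX).mul (ng.mul ng))
      (((Units.isUnit _).mul (rho_unit _)).mul ((rho_unit _).mul (rho_unit _))) (by norm_num) h3
      (by
        have e4 : (1 : E2 V) = ρ g' * ρ g' * (ρ g'⁻¹ * ρ g'⁻¹) := by
          simp only [← map_mul]; simp
        have e5 : ε ^ 3 * (↑w⁻¹ * ρ x) = c * (ε * ρ x) := by
          rw [hcw, pow_three, mul_assoc (ε * ε), ← mul_assoc (↑w⁻¹ : E2 V), hwε.eq]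
          simp only [mul_assoc]
        rw [← mul_assoc (ε ^ 3), e5, ← e3, map_mul, map_mul ρ (x * y⁻¹), map_mul ρ g'⁻¹]
        nth_rewrite 1 [e4]
        rw [← add_mul, e1, e2]
        congr 1
        apply z2
        simp only [mul_add]
        match_scalars <;> decide)
    have := half_uniq h.nt hεn r1 r1'
    have h3 : 3 ∣ 2 ^ r := ⟨_, this⟩
    have := (Nat.prime_three.dvd_of_dvd_pow h3)
    omega

theorem Hyp.sq_of_cc (h : Hyp ρ) (hx : orderOf x = 3) (hy : orderOf y = 3) (hc : cc ρ x y = 0) :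
    x * y⁻¹ * (x * y⁻¹) = 1 := by
  have := h.inj (eq_of_add two_eq ((h.tr_eq hx hy).trans hc))
  nth_rewrite 2 [this]
  group

theorem Hyp.unit_cc (h : Hyp ρ) (hx : orderOf x = 3) (hy : orderOf y = 3) (hc : cc ρ x y ≠ 0) :
    IsUnit (cc ρ x y) := by
  rw [Module.End.isUnit_iff, ← Finite.injective_iff_bijective, injective_iff_map_eq_zero]
  intro v hv
  by_contra h0
  have e : ρ (x * y⁻¹ * (x * y⁻¹)) = 1 + ρ (x * y⁻¹) * cc ρ x y := by
    rw [← h.tr_eq hx hy, mul_add, ← map_mul, ← map_mul, show x * y⁻¹ * (y * x⁻¹) = 1 by group,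
      map_one, add_comm _ 1, ← add_assoc, two_eq, zero_add]
  obtain ⟨k, hk⟩ := h.sr (x * y⁻¹ * (x * y⁻¹)) v h0 (by
    rw [e, LinearMap.add_apply, Module.End.mul_apply, hv, map_zero, add_zero,
      Module.End.one_apply])
  exact hc (h.l1a hx hy (k := k + 1) (by rw [pow_succ', pow_mul, sq, hk]))

theorem order_conj (g : G) {y : G} (hy : orderOf y = 3) : orderOf (g * y * g⁻¹) = 3 := by
  rw [← hy]; exact (MulAut.conj g).orderOf_eq y

theorem cc_conj (g a b : G) : cc ρ (g * a * g⁻¹) (g * b * g⁻¹) = ρ g * cc ρ a b * ρ g⁻¹ := by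
  have : ρ g⁻¹ * ρ g = 1 := by rw [← map_mul, inv_mul_cancel, map_one]
  simp only [cc, map_mul, mul_add, add_mul, mul_assoc, assoc_rw this, one_mul]

theorem Hyp.two_id (h : Hyp ρ) {y₁ y₂ : G} (hx : orderOf x = 3) (h1 : orderOf y₁ = 3)
    (h2 : orderOf y₂ = 3) (c1 : cc ρ x y₁ = 0) (c2 : cc ρ x y₂ = 0) :
    ∃ P Q : E2 V, P = (ρ x + ρ y₁) * (ρ x + ρ y₂) ∧ cc ρ y₁ y₂ = P + Q ∧
      cc ρ (x * y₁ * x⁻¹) y₂ = (ρ x + 1) * P + ρ x * Q ∧ P * P = P * (P + Q) ∧
      P * P = (ρ x + ρ y₁) * (P + Q) * (ρ x + ρ y₂) := by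
  have hX := h.xx hx
  obtain ⟨-, a1⟩ := h.anti hx h1
  obtain ⟨-, a2⟩ := h.anti hx h2
  rw [c1, add_zero] at a1
  rw [c2, add_zero] at a2
  have e1 : ρ y₁ = ρ x + (ρ x + ρ y₁) := by rw [← add_assoc, two_eq, zero_add]
  have e2 : ρ y₂ = ρ x + (ρ x + ρ y₂) := by rw [← add_assoc, two_eq, zero_add]
  rw [cc] at c1 c2
  refine ⟨_, (ρ x + ρ y₂) * (ρ x + ρ y₁), rfl, ?_⟩
  rw [cc, cc, map_mul, map_mul, h.rho_inv hx]
  generalize ρ x + ρ y₁ = d1 at *
  generalize ρ x + ρ y₂ = d2 at *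
  rw [e1, e2]
  refine ⟨?_, ?_, ?_, ?_⟩ <;>
  · apply z2
    simp only [mul_add, add_mul, mul_one, one_mul, mul_assoc, hX, assoc_rw hX, a1, a2, assoc_rw a1,
      assoc_rw a2, c1, c2, assoc_rw c1, assoc_rw c2, mul_zero, zero_mul]
    match_scalars <;> decide

theorem Hyp.tri (h : Hyp ρ) {y₁ y₂ : G} (hx : orderOf x = 3) (h1 : orderOf y₁ = 3)
    (h2 : orderOf y₂ = 3) (c1 : cc ρ x y₁ = 0) (c2 : cc ρ x y₂ = 0) (c3 : cc ρ y₁ y₂ = 0)
    (c4 : cc ρ (x * y₁ * x⁻¹) y₂ = 0) : (ρ x + ρ y₁) * (ρ x + ρ y₂) = 0 := by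
  obtain ⟨P, Q, hP, e1, e2, -⟩ := h.two_id hx h1 h2 c1 c2
  rw [c3] at e1
  rw [c4, ← eq_of_add two_eq e1.symm, add_mul, one_mul, add_right_comm, two_eq, zero_add] at e2
  rw [← hP, ← e2]

/-- `ρ e + 1` is antilinear with respect to `ρ x`. -/
def An (ρ : G →* E2 V) (x e : G) : Prop := (ρ e + 1) * ρ x = (ρ x + 1) * (ρ e + 1)

theorem Hyp.An_of_cc (h : Hyp ρ) (hx : orderOf x = 3) (hy : orderOf y = 3) (hc : cc ρ x y = 0) :
    An ρ x (x * y⁻¹) := by
  obtain ⟨-, a1⟩ := h.anti hx hy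
  rw [hc, add_zero] at a1
  rw [An, h.rho_mul_inv hx hy, add_right_comm, two_eq, zero_add, mul_assoc, a1, ← mul_assoc,
    ← mul_assoc, mul_add (ρ x) (ρ x) 1, add_mul (ρ x) 1, mul_one, one_mul]

theorem An.delta {e : G} (he : An ρ x e) : ρ x + ρ (e * x * e⁻¹) = ρ e⁻¹ + 1 := by
  have h1 : ρ e * ρ e⁻¹ = 1 := by rw [← map_mul, mul_inv_cancel, map_one]
  have h2 : ρ e * ρ x = ρ x * ρ e + ρ e + 1 := by
    have : ρ e * ρ x = (ρ e + 1) * ρ x + ρ x := by rw [add_mul, one_mul, add_assoc, two_eq, add_zero]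
    rw [this, he]
    apply z2
    simp only [mul_add, add_mul, mul_one, one_mul]
    match_scalars <;> decide
  rw [map_mul, map_mul, h2]
  apply z2
  simp only [mul_add, add_mul, mul_one, one_mul, mul_assoc, h1]
  match_scalars <;> decide

theorem Hyp.An_sub (h : Hyp ρ) (hx : orderOf x = 3) (K : Subgroup G) (S : Set G)
    (hS : ∀ e ∈ K, An ρ x e → e * x * e⁻¹ ∈ S)
    (hδ : ∀ y₁ ∈ S, ∀ y₂ ∈ S, (ρ x + ρ y₁) * (ρ x + ρ y₂) = 0)
    (hn : ∀ g ∈ K, g⁻¹ * x * g ∈ S ∨ (g⁻¹ * x * g)⁻¹ ∈ S) :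
    ∃ E : Subgroup G, (∀ e, e ∈ E ↔ e ∈ K ∧ An ρ x e) ∧ (∀ e ∈ E, e * e = 1) ∧
      ∀ g ∈ K, ∀ e ∈ E, g * e * g⁻¹ ∈ E := by
  have hsq : ∀ e ∈ K, An ρ x e → e⁻¹ = e := by
    intro e he ha
    have := hδ _ (hS e he ha) _ (hS e he ha)
    rw [ha.delta, add_mul, mul_add, mul_add, mul_one, one_mul, one_mul, add_assoc,
      ← add_assoc (ρ e⁻¹), two_eq, zero_add, ← map_mul] at this
    have := h.inj ((eq_of_add two_eq this).trans (map_one ρ).symm)
    rw [← mul_inv_rev, inv_eq_one] at this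
    exact inv_eq_of_mul_eq_one_right this
  have hτ : ∀ e ∈ K, An ρ x e → ∀ y ∈ S,
      (ρ e + 1) * (ρ x + ρ y) = 0 ∧ (ρ x + ρ y) * (ρ e + 1) = 0 := by
    intro e he ha y hy
    have := ha.delta
    rw [show ρ e⁻¹ = ρ e by rw [hsq e he ha]] at this
    rw [← this]
    exact ⟨hδ _ (hS e he ha) _ hy, hδ _ hy _ (hS e he ha)⟩
  let E : Subgroup G :=
    { carrier := {e | e ∈ K ∧ An ρ x e}
      one_mem' := ⟨one_mem _, by rw [An, map_one, two_eq, zero_mul, mul_zero]⟩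
      inv_mem' := fun {e} he => by rw [hsq e he.1 he.2]; exact he
      mul_mem' := fun {a b} ha hb => ⟨mul_mem ha.1 hb.1, by
        have e0 := (hτ a ha.1 ha.2 _ (hS b hb.1 hb.2)).1
        rw [hb.2.delta, hsq b hb.1 hb.2] at e0
        have e1 : ρ (a * b) + 1 = (ρ a + 1) + (ρ b + 1) := by
          rw [← add_zero (ρ a + 1), ← e0, map_mul]
          apply z2
          simp only [mul_add, add_mul, mul_one, one_mul]
          match_scalars <;> decide
        rw [An, e1, add_mul, ha.2, hb.2, ← mul_add]⟩ }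
  refine ⟨E, fun e => Iff.rfl, fun e he => ?_, fun g hg e he => ⟨?_, ?_⟩⟩
  · nth_rewrite 1 [← hsq e he.1 he.2]; exact inv_mul_cancel e
  · exact mul_mem (mul_mem hg he.1) (inv_mem hg)
  · have key : An ρ (g⁻¹ * x * g) e := by
      have ha : (ρ e + 1) * ρ x = (ρ x + 1) * (ρ e + 1) := he.2
      rw [An]
      rcases hn g hg with hy | hy
      · obtain ⟨t1, t2⟩ := hτ e he.1 he.2 _ hy
        rw [mul_add] at t1
        rw [add_mul] at t2
        rw [← eq_of_add two_eq t1, ha, add_mul (ρ (g⁻¹ * x * g)) 1, ← eq_of_add two_eq t2,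
          add_mul (ρ x) 1]
      · obtain ⟨t1, t2⟩ := hτ e he.1 he.2 _ hy
        have := order_conj g⁻¹ hx
        rw [inv_inv] at this
        rw [h.rho_inv this] at t1 t2
        rw [mul_add, mul_add _ _ 1] at t1
        rw [add_mul] at t2
        rw [← eq_of_add two_eq t2]
        rw [ha, add_mul _ 1, one_mul, mul_one, add_comm _ (ρ e + 1), add_add_add_comm,
          add_comm (ρ e + 1), add_assoc, ← add_assoc (ρ e + 1), add_comm (ρ e + 1),
          add_assoc, two_eq, add_zero] at t1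
        exact eq_of_add two_eq t1
    have h1 : ρ g * ρ g⁻¹ = 1 := by rw [← map_mul, mul_inv_cancel, map_one]
    have h2 : ρ g⁻¹ * ρ g = 1 := by rw [← map_mul, inv_mul_cancel, map_one]
    have := congrArg (fun z => ρ g * z * ρ g⁻¹) key
    simp only [map_mul, mul_add, add_mul, mul_one, one_mul, mul_assoc, h1, h2, assoc_rw h1,
      assoc_rw h2] at this
    simp only [An, map_mul, mul_add, add_mul, mul_one, one_mul, mul_assoc, h1, h2, assoc_rw h1,
      assoc_rw h2]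
    exact this

theorem An.eq_one (h : Hyp ρ) {e : G} (he : An ρ x e) (hc : x * e = e * x) : e = 1 := by
  have := he.delta
  rw [← hc, mul_inv_cancel_right, two_eq] at this
  have := h.inj ((eq_of_add two_eq this.symm).trans (map_one ρ).symm)
  exact inv_eq_one.1 this

/-- If `x` acts nontrivially on the `2`-group `D`, it acts nontrivially on `Ω₁ Z(D)`. -/
theorem Hyp.z1 (h : Hyp ρ) (hx : orderOf x = 3) {D : Subgroup G} (hD : IsPGroup 2 D)
    (hn : ∀ d ∈ D, x * d * x⁻¹ ∈ D) (hd : ∃ d ∈ D, x * d ≠ d * x) :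
    ∃ e ∈ D, (∀ d ∈ D, e * d = d * e) ∧ e * e = 1 ∧ x * e ≠ e * x := by
  have hc : ∀ {u v : G}, orderOf u = 3 → orderOf v = 3 → u * v⁻¹ ∈ D → cc ρ u v = 0 := by
    intro u v hu hv huv
    obtain ⟨k, hk⟩ := hD ⟨_, huv⟩
    exact h.l1a hu hv (k := k) (by simpa using congrArg Subtype.val hk)
  have hv : ∀ a ∈ D, x * (a * x * a⁻¹)⁻¹ ∈ D := fun a ha => by
    rw [show x * (a * x * a⁻¹)⁻¹ = x * a * x⁻¹ * a⁻¹ by group]
    exact mul_mem (hn a ha) (inv_mem ha)
  obtain ⟨E, hE, hE2, hEn⟩ := h.An_sub hx D {y | ∃ a ∈ D, y = a * x * a⁻¹}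
    (fun e he _ => ⟨e, he, rfl⟩)
    (by
      rintro _ ⟨a, ha, rfl⟩ _ ⟨b, hb, rfl⟩
      refine h.tri hx (order_conj a hx) (order_conj b hx) (hc hx (order_conj a hx) (hv a ha))
        (hc hx (order_conj b hx) (hv b hb)) (hc (order_conj a hx) (order_conj b hx) ?_)
        (hc (order_conj x (order_conj a hx)) (order_conj b hx) ?_)
      · rw [show a * x * a⁻¹ * (b * x * b⁻¹)⁻¹ = a * (x * (a⁻¹ * b) * x⁻¹) * b⁻¹ by group]
        exact mul_mem (mul_mem ha (hn _ (mul_mem (inv_mem ha) hb))) (inv_mem hb)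
      · rw [show x * (a * x * a⁻¹) * x⁻¹ * (b * x * b⁻¹)⁻¹ =
          x * (a * (x * a⁻¹ * x⁻¹) * b) * x⁻¹ * b⁻¹ by group]
        exact mul_mem (hn _ (mul_mem (mul_mem ha (hn _ (inv_mem ha))) hb)) (inv_mem hb))
    (fun g hg => Or.inl ⟨g⁻¹, inv_mem hg, by rw [inv_inv]⟩)
  haveI : Fact (Nat.Prime 2) := ⟨Nat.prime_two⟩
  obtain ⟨d, hd, hxd⟩ := hd
  obtain ⟨e, he, he1, hec⟩ := InvChar.exists_mem_center_of_normalized hD
    (fun e he => ((hE e).1 he).1) hEn (by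
      intro hb
      have : x * (d * x * d⁻¹)⁻¹ ∈ E := (hE _).2 ⟨hv d hd,
        h.An_of_cc hx (order_conj d hx) (hc hx (order_conj d hx) (hv d hd))⟩
      rw [hb, mem_bot, mul_inv_eq_one, eq_mul_inv_iff_mul_eq] at this
      exact hxd this)
  exact ⟨e, ((hE e).1 he).1, fun d hd => (hec d hd).symm, hE2 e he,
    fun hc => he1 (((hE e).1 he).2.eq_one h hc)⟩

theorem Hyp.exists_pair (h : Hyp ρ) (hx : orderOf x = 3) (h2 : pCore 2 G = ⊥)
    (hn : ¬ (zpowers x).Normal) :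
    ∃ g : G, cc ρ x (g * x * g⁻¹) ≠ 0 ∧ cc ρ x (g * x * g⁻¹) ≠ 1 := by
  by_contra hcon
  push Not at hcon
  have hX := h.xx hx
  have hxi : orderOf x⁻¹ = 3 := by rw [orderOf_inv, hx]
  let T : Set G := {y | ∃ g : G, y = g * x * g⁻¹ ∨ y = g * x⁻¹ * g⁻¹}
  have hT3 : ∀ y ∈ T, orderOf y = 3 := by
    rintro y ⟨g, rfl | rfl⟩
    · exact order_conj g hx
    · exact order_conj g hxi
  have hTc : ∀ g, ∀ y ∈ T, g * y * g⁻¹ ∈ T := by
    rintro g y ⟨a, rfl | rfl⟩
    · exact ⟨g * a, Or.inl (by group)⟩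
    · exact ⟨g * a, Or.inr (by group)⟩
  have hTi : ∀ y ∈ T, y⁻¹ ∈ T := by
    rintro y ⟨a, rfl | rfl⟩
    · exact ⟨a, Or.inr (by group)⟩
    · exact ⟨a, Or.inl (by group)⟩
  have flip : ∀ {u v : G}, orderOf u = 3 → orderOf v = 3 → (cc ρ u v = 0 ∨ cc ρ u v = 1) →
      (cc ρ u v⁻¹ = 0 ∨ cc ρ u v⁻¹ = 1) := by
    intro u v hu hv huv
    rw [h.cc_inv hu hv]
    rcases huv with e | e
    · exact Or.inr (by rw [e, zero_add])
    · exact Or.inl (by rw [e, two_eq])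
  have h0 : ∀ y ∈ T, cc ρ x y = 0 ∨ cc ρ x y = 1 := by
    rintro y ⟨a, rfl | rfl⟩
    · exact or_iff_not_imp_left.2 (hcon a)
    · rw [show a * x⁻¹ * a⁻¹ = (a * x * a⁻¹)⁻¹ by group]
      exact flip hx (order_conj a hx) (or_iff_not_imp_left.2 (hcon a))
  have h1 : ∀ (g : G), ∀ y ∈ T, cc ρ (g * x * g⁻¹) y = 0 ∨ cc ρ (g * x * g⁻¹) y = 1 := by
    intro g y hy
    rw [show y = g * (g⁻¹ * y * g⁻¹⁻¹) * g⁻¹ by group, cc_conj]
    rcases h0 _ (hTc g⁻¹ y hy) with e | e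
    · exact Or.inl (by rw [e, mul_zero, zero_mul])
    · exact Or.inr (by rw [e, mul_one, ← map_mul, mul_inv_cancel, map_one])
  have hall : ∀ u ∈ T, ∀ y ∈ T, cc ρ u y = 0 ∨ cc ρ u y = 1 := by
    rintro u ⟨g, rfl | rfl⟩ y hy
    · exact h1 g y hy
    · rw [show g * x⁻¹ * g⁻¹ = (g * x * g⁻¹)⁻¹ by group, cc_symm]
      exact flip (hT3 y hy) (order_conj g hx) (by rw [cc_symm]; exact h1 g y hy)
  have hidem : ρ x * ρ x ≠ ρ x := fun e => h.one_ne (by
    rw [hX] at e; exact add_left_cancel (e.trans (add_zero _).symm))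
  obtain ⟨E, hE, hE2, hEn⟩ := h.An_sub hx ⊤ {y | y ∈ T ∧ cc ρ x y = 0}
    (fun e _ ha => ⟨⟨e, Or.inl rfl⟩, by
      refine (h0 _ ⟨e, Or.inl rfl⟩).resolve_right fun e1 => ?_
      rw [cc, ha.delta, add_mul, mul_add, mul_add, mul_one, one_mul, one_mul, add_assoc,
        ← add_assoc (ρ e⁻¹), two_eq, zero_add, ← map_mul] at e1
      have := rho_unit (ρ := ρ) (e⁻¹ * e⁻¹)
      rw [add_eq_right.1 e1] at this
      exact h.one_ne (isUnit_zero_iff.1 this).symm⟩)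
    (by
      rintro y₁ ⟨t1, c1⟩ y₂ ⟨t2, c2⟩
      obtain ⟨P, Q, hP, e1, e2, e3, e4⟩ := h.two_id hx (hT3 _ t1) (hT3 _ t2) c1 c2
      rw [← hP]
      have h4 := hall _ (hTc x _ t1) _ t2
      rw [e2] at h4
      rcases hall _ t1 _ t2 with e | e
      · rw [e] at e1
        rw [← e1, mul_zero] at e3
        rw [← eq_of_add two_eq e1.symm, add_mul, one_mul, add_right_comm, two_eq, zero_add] at h4
        refine h4.resolve_right fun e5 => h.one_ne ?_
        rw [← e3, e5, one_mul]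
      · exfalso
        rw [e] at e1
        rw [← e1, mul_one, ← hP] at e4
        have hQ : Q = P + 1 := by rw [e1, ← add_assoc, two_eq, zero_add]
        have e5 : (ρ x + 1) * P + ρ x * Q = ρ x + P := by
          rw [hQ]
          apply z2
          simp only [mul_add, add_mul, mul_one, one_mul]
          match_scalars <;> decide
        rw [e5] at h4
        apply hidem
        rcases h4 with e6 | e6
        · rw [eq_of_add two_eq e6, e4]
        · have : ρ x = P + 1 := by rw [← e6, add_comm, add_assoc, two_eq, add_zero]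
          rw [this, add_mul, mul_add, e4, mul_one, one_mul, two_eq, zero_add])
    (fun g _ => by
      have hy : g⁻¹ * x * g ∈ T := ⟨g⁻¹, Or.inl (by rw [inv_inv])⟩
      rcases h0 _ hy with e | e
      · exact Or.inl ⟨hy, e⟩
      · exact Or.inr ⟨hTi _ hy, by rw [h.cc_inv hx (hT3 _ hy), e, two_eq]⟩)
  have hEb : E = ⊥ := by
    rw [eq_bot_iff, ← h2]
    refine le_sSup ⟨⟨fun e he g => hEn g (mem_top g) e he⟩, fun e => ⟨1, Subtype.ext ?_⟩⟩
    simpa [sq] using hE2 e e.2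
  have hy : ∀ y ∈ T, cc ρ x y = 0 → y = x := by
    intro y hy hc
    have : x * y⁻¹ ∈ E := (hE _).2 ⟨mem_top _, h.An_of_cc hx (hT3 y hy) hc⟩
    rw [hEb, mem_bot, mul_inv_eq_one] at this
    exact this.symm
  refine hn ⟨fun n hn g => ?_⟩
  obtain ⟨k, rfl⟩ := mem_zpowers_iff.1 hn
  rw [← conj_zpow]
  refine zpow_mem ?_ k
  have hT : g * x * g⁻¹ ∈ T := ⟨g, Or.inl rfl⟩
  rcases h0 _ hT with e | e
  · rw [hy _ hT e]; exact mem_zpowers x
  · rw [← inv_mem_iff, hy _ (hTi _ hT) (by rw [h.cc_inv hx (hT3 _ hT), e, two_eq])]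
    exact mem_zpowers x

end CfsgLib.Gag
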