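import Cfsg.Agent.Lib.Gag.Rng
import Cfsg.Agent.Lib.Invol.BaerSuzuki
import Cfsg.Agent.Lib.RealCl.Fld
import Cfsg.Agent.Lib.Tech.SylowIn

/-!
# Gagola's theorem: the quadratic groups A_t (plans/GAG.md, package BAS)
-/

set_option autoImplicit false
set_option linter.unusedSectionVars false
set_option linter.unusedVariables false

namespace CfsgLib.Gag
open Cfsg Subgroup

variable {G V : Type*} [Group G] [Finite G] [AddCommGroup V] [Module (ZMod 2) V] [Finite V]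
  {ρ : G →* E2 V}

theorem vadd_eq_zero {a b : V} : a + b = 0 ↔ a = b :=
  ⟨fun h => by rw [← add_zero a, ← vtwo b, ← add_assoc, h, zero_add], fun h => h ▸ vtwo a⟩

theorem mem_ker1 {f : E2 V} {v : V} : v ∈ LinearMap.ker (f + 1) ↔ f v = v := by
  rw [LinearMap.mem_ker, LinearMap.add_apply, Module.End.one_apply, vadd_eq_zero]

theorem rho_mul (g h : G) (v : V) : ρ (g * h) v = ρ g (ρ h v) := by rw [map_mul]; rfl

theorem rho_inv_apply (g : G) (v : V) : ρ g⁻¹ (ρ g v) = v := by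
  rw [← rho_mul, inv_mul_cancel, map_one]; rfl

theorem rho_apply_inv (g : G) (v : V) : ρ g (ρ g⁻¹ v) = v := by
  rw [← rho_mul, mul_inv_cancel, map_one]; rfl

theorem add_one_sq (f : E2 V) : (f + 1) * (f + 1) = f * f + 1 := by
  rw [add_mul, mul_add, mul_one, one_mul, add_assoc, ← add_assoc f, two_eq, zero_add]

theorem eq_one_of_odd {g : G} {k m : ℕ} (h : g ^ 2 ^ k = 1) (hm : Odd m) (h' : g ^ m = 1) : g = 1 :=
  orderOf_eq_one_iff.1 (Nat.eq_one_of_dvd_coprimes ((Nat.coprime_two_left.2 hm).pow_left k)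
    (orderOf_dvd_of_pow_eq_one h) (orderOf_dvd_of_pow_eq_one h'))

theorem range_le_ker {t : G} (ht : t * t = 1) :
    LinearMap.range (ρ t + 1) ≤ LinearMap.ker (ρ t + 1) :=
  LinearMap.range_le_ker_iff.2 (by
    rw [← Module.End.mul_eq_comp, add_one_sq, ← map_mul, ht, map_one, two_eq])

theorem Hyp.comp (h : Hyp ρ) {K : Type*} [Group K] (f : K →* G) (hf : Function.Injective f) :
    Hyp (ρ.comp f) := by
  refine ⟨h.inj.comp hf, h.nt, fun g v hv e => ?_, fun t ht ht1 => h.fr (f t)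
    (by rw [← map_mul, ht, map_one]) fun e => ht1 (hf (e.trans (map_one f).symm))⟩
  obtain ⟨k, hk⟩ := h.sr (f g) v hv e
  exact ⟨k, hf (by rw [map_pow, hk, map_one])⟩

theorem Hyp.equiv (h : Hyp ρ) {V' : Type*} [AddCommGroup V'] [Module (ZMod 2) V']
    {ρ' : G →* E2 V'} (e : V ≃ₗ[ZMod 2] V') (he : ∀ g v, e (ρ g v) = ρ' g (e v)) : Hyp ρ' := by
  refine ⟨fun g g' k => h.inj (LinearMap.ext fun v => e.injective (by rw [he, he, k])), ?_,
    fun g v hv k => h.sr g (e.symm v) (by simpa) (e.injective (by rw [he, e.apply_symm_apply, k])),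
    fun t ht ht1 v k => ?_⟩
  · obtain ⟨v, hv⟩ := h.nt
    exact ⟨e v, by simpa⟩
  · obtain ⟨u, hu⟩ := h.fr t ht ht1 (e.symm v) (e.injective (by rw [he, e.apply_symm_apply, k]))
    exact ⟨e u, by rw [← he, ← map_add, hu, e.apply_symm_apply]⟩

theorem Aq_equiv {V' : Type*} [AddCommGroup V'] [Module (ZMod 2) V']
    {ρ' : G →* E2 V'} (e : V ≃ₗ[ZMod 2] V') (he : ∀ g v, e (ρ g v) = ρ' g (e v)) (t : G) :
    Aq ρ' t = Aq ρ t := by
  refine Subgroup.ext fun g => ⟨fun k v hv => e.injective ?_, fun k v hv => ?_⟩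
  · rw [he]; exact k _ (by rw [← he, hv])
  · obtain ⟨v, rfl⟩ := e.surjective v
    rw [← he, k v (e.injective (by rw [he, hv]))]

theorem mk_hyp (inj : Function.Injective ρ) (nt : ∃ v : V, v ≠ 0)
    (sr : ∀ (g : G) (v : V), v ≠ 0 → ρ g v = v → ∃ k : ℕ, g ^ 2 ^ k = 1)
    (h2 : pCore 2 G = ⊥) : Hyp ρ := by
  refine ⟨inj, nt, sr, fun t ht ht1 v hv => ?_⟩
  obtain ⟨-, y, -, y1, yo, ty⟩ := Invol.exists_inverted_of_not_mem_pCore ht (by rwa [h2, mem_bot])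
  have hy : Function.Injective (ρ y) := Function.LeftInverse.injective (rho_inv_apply y)
  have h1 : Disjoint (LinearMap.ker (ρ t + 1)) ((LinearMap.ker (ρ t + 1)).map (ρ y)) := by
    rw [Submodule.disjoint_def]
    rintro _ h3 ⟨w, h4, rfl⟩
    rw [SetLike.mem_coe, mem_ker1] at h4
    rw [mem_ker1, ← rho_mul, mul_inv_eq_iff_eq_mul.1 ty, rho_mul, h4] at h3
    by_contra h5
    obtain ⟨k, hk⟩ := sr (y * y) w (fun e => h5 (by rw [e, map_zero]))
      (by rw [rho_mul, ← h3, rho_apply_inv])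
    exact y1 (eq_one_of_odd (k := k + 1) (by rw [pow_succ', pow_mul, sq, hk]) yo (pow_orderOf_eq_one y))
  have h3 := Submodule.finrank_add_finrank_le_of_disjoint h1
  rw [← (Submodule.equivMapOfInjective _ hy _).finrank_eq] at h3
  have h4 := LinearMap.finrank_range_add_finrank_ker (ρ t + 1)
  exact (Submodule.eq_of_le_of_finrank_le (range_le_ker ht) (by omega)).ge (mem_ker1.2 hv)

theorem Hyp.one_ne (h : Hyp ρ) : (1 : E2 V) ≠ 0 := by
  obtain ⟨v, hv⟩ := h.nt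
  exact fun e => hv (LinearMap.congr_fun e v)

theorem Hyp.x3 (h : Hyp ρ) {x : G} (hx : orderOf x = 3) : ρ x * ρ x + ρ x + 1 = 0 := by
  have h3 : ρ x * (ρ x * ρ x) = 1 := by
    rw [← map_mul, ← map_mul, ← pow_three, ← hx, pow_orderOf_eq_one, map_one]
  refine LinearMap.ext fun v => by_contra fun e => ?_
  obtain ⟨k, hk⟩ := h.sr x _ e (by
    rw [← Module.End.mul_apply, mul_add, mul_add, h3, mul_one, add_comm 1, add_right_comm])
  have := eq_one_of_odd hk (by decide : Odd 3) (hx ▸ pow_orderOf_eq_one x)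
  rw [this, orderOf_one] at hx
  omega

theorem Hyp.cyc (h : Hyp ρ) (A : Subgroup G) (hc : ∀ a ∈ A, ∀ b ∈ A, a * b = b * a)
    (ho : Odd (Nat.card A)) : IsCyclic A := by
  refine RealCl.isCyclic_of_fpf (W := V)
    { toFun := fun g => (ρ g).toAddMonoidHom.toIntLinearMap
      map_one' := by rw [map_one]; rfl
      map_mul' := fun a b => by rw [map_mul]; rfl } h.nt A hc fun x hx x1 v e => by_contra fun hv => ?_
  obtain ⟨k, hk⟩ := h.sr x v hv e
  exact x1 (eq_one_of_odd hk ho (orderOf_dvd_iff_pow_eq_one.1 (orderOf_dvd_natCard A hx)))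

theorem Hyp.comm3 (h : Hyp ρ) {x y : G} (hx : orderOf x = 3) (hy : orderOf y = 3)
    (hc : x * y = y * x) : y = x ∨ y = x⁻¹ := by
  have h1 := h.x3 hx
  have h2 := h.x3 hy
  have h3 : ρ x * ρ y = ρ y * ρ x := by rw [← map_mul, hc, map_mul]
  have x3 := hx ▸ pow_orderOf_eq_one x
  by_cases e : ρ x + ρ y + 1 = 0
  · refine Or.inr (eq_inv_of_mul_eq_one_right (h.inj ?_))
    rw [add_right_comm] at e
    rw [map_mul, ← eq_of_add two_eq e, map_one, mul_add, mul_one, eq_of_add two_eq h1]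
  obtain ⟨v, hv⟩ : ∃ v, (ρ x + ρ y + 1) v ≠ 0 := by
    by_contra! k
    exact e (LinearMap.ext k)
  have h4 : (ρ x + ρ y) * (ρ x + ρ y + 1) = 0 := by
    calc _ = ρ x * ρ x + ρ x + 1 + (ρ y * ρ y + ρ y + 1) + (ρ x * ρ y + ρ y * ρ x) - (1 + 1) := by
          noncomm_ring
      _ = 0 := by rw [h1, h2, h3, two_eq (ρ y * ρ x), two_eq 1]; simp
  have h5 := LinearMap.congr_fun h4 v
  rw [Module.End.mul_apply, LinearMap.add_apply, LinearMap.zero_apply, vadd_eq_zero] at h5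
  obtain ⟨k, hk⟩ := h.sr (x⁻¹ * y) _ hv (by rw [rho_mul, ← h5, rho_inv_apply])
  refine Or.inl (inv_mul_eq_one.1 (eq_one_of_odd hk (by decide : Odd 3) ?_)).symm
  rw [(show Commute x y from hc).inv_left.mul_pow, inv_pow, x3, ← hy, pow_orderOf_eq_one, inv_one,
    one_mul]

theorem Hyp.two_of_fix (h : Hyp ρ) {K : Subgroup G} {v : V} (hv : v ≠ 0)
    (hK : ∀ g ∈ K, ρ g v = v) : IsPGroup 2 K := by
  intro g
  obtain ⟨k, hk⟩ := h.sr g v hv (hK g g.2)
  exact ⟨k, Subtype.ext hk⟩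

theorem exists_fix {K : Subgroup G} (hK : IsPGroup 2 K) {U : Submodule (ZMod 2) V} (hU : U ≠ ⊥)
    (hi : ∀ g ∈ K, ∀ u ∈ U, ρ g u ∈ U) : ∃ v ∈ U, v ≠ 0 ∧ ∀ g ∈ K, ρ g v = v := by
  let _ : MulAction K U :=
    { smul := fun g u => ⟨ρ g u, hi g g.2 u u.2⟩
      one_smul := fun u => Subtype.ext (by change ρ 1 (u : V) = u; rw [map_one]; rfl)
      mul_smul := fun g g' u => Subtype.ext (rho_mul _ _ _) }
  obtain ⟨u, hu, u0⟩ := (Submodule.ne_bot_iff U).1 hU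
  have h2 : addOrderOf (⟨u, hu⟩ : U) = 2 :=
    addOrderOf_eq_prime (by rw [two_nsmul]; exact vtwo _) fun e => u0 (congrArg Subtype.val e)
  obtain ⟨b, hb, b0⟩ := hK.exists_fixed_point_of_prime_dvd_card_of_fixed_point U
    (h2.symm.dvd.trans (addOrderOf_dvd_natCard _)) (a := 0) fun g => Subtype.ext (map_zero (ρ g))
  exact ⟨b, b.2, fun e => b0 (Subtype.ext e.symm), fun g hg => congrArg Subtype.val (hb ⟨g, hg⟩)⟩

theorem Hyp.two_of_nilp (h : Hyp ρ) {g : G} (hn : IsNilpotent (ρ g + 1)) :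
    ∃ k : ℕ, g ^ 2 ^ k = 1 := by
  obtain ⟨n, hn⟩ := hn
  have h1 := pow_eq_zero_of_le (Nat.lt_two_pow_self (n := n)).le hn
  rw [add_pow_two_pow two_eq (by rw [mul_one, one_mul]), one_pow, ← map_pow] at h1
  exact ⟨n, h.inj ((eq_of_add two_eq h1).trans (map_one ρ).symm)⟩

theorem self_mem_Aq (t : G) : t ∈ Aq ρ t := fun _ h => h

/-- The fixed space of an involution has half the dimension. -/
theorem Hyp.card_fix (h : Hyp ρ) {t : G} (ht : t * t = 1) (ht1 : t ≠ 1) :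
    Nat.card (LinearMap.ker (ρ t + 1)) ^ 2 = Nat.card V ∧
      LinearMap.ker (ρ t + 1) = LinearMap.range (ρ t + 1) := by
  have h1 : LinearMap.ker (ρ t + 1) = LinearMap.range (ρ t + 1) :=
    le_antisymm (fun v hv => h.fr t ht ht1 v (mem_ker1.1 hv)) (range_le_ker ht)
  refine ⟨?_, h1⟩
  have h2 := Submodule.card_eq_card_quotient_mul_card (LinearMap.ker (ρ t + 1 : E2 V))
  rw [Nat.card_congr (ρ t + 1 : E2 V).quotKerEquivRange.toEquiv, ← h1] at h2
  rw [h2, sq]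

theorem Hyp.fix_of (h : Hyp ρ) {t g : G} (ht : t * t = 1) (ht1 : t ≠ 1) (hg : g ∈ Aq ρ t)
    (gg : g * g = 1) (hg1 : g ≠ 1) {v : V} (hv : ρ g v = v) : ρ t v = v := by
  have h1 := LinearMap.finrank_range_add_finrank_ker (ρ t + 1)
  have h2 := LinearMap.finrank_range_add_finrank_ker (ρ g + 1)
  rw [← (h.card_fix ht ht1).2] at h1
  rw [← (h.card_fix gg hg1).2] at h2
  exact mem_ker1.1 ((Submodule.eq_of_le_of_finrank_le
    (fun w hw => mem_ker1.2 (hg w (mem_ker1.1 hw))) (by omega)).ge (mem_ker1.2 hv))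

theorem Hyp.Aq_sq (h : Hyp ρ) {t g : G} (ht : t * t = 1) (ht1 : t ≠ 1) (hg : g ∈ Aq ρ t) :
    g * g = 1 := by
  obtain ⟨v, hv, v0⟩ : ∃ v ∈ LinearMap.ker (ρ t + 1), v ≠ 0 := (Submodule.ne_bot_iff _).1 fun e => by
    have := (h.card_fix ht ht1).1
    rw [e, Nat.card_unique, one_pow, eq_comm, Nat.card_eq_one_iff_unique] at this
    obtain ⟨v, hv⟩ := h.nt
    exact hv (this.1.elim _ _)
  obtain ⟨k, hk⟩ := h.sr g v v0 (hg v (mem_ker1.1 hv))
  induction k generalizing g with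
  | zero => rw [pow_zero, pow_one] at hk; rw [hk, one_mul]
  | succ k ih =>
    have h1 := ih (mul_mem hg hg) (by rwa [← sq, ← pow_mul, ← pow_succ'])
    by_contra e
    have h2 : ∀ w, (ρ g + 1) ((ρ g + 1) w) = 0 → (ρ g + 1) w = 0 := fun w hw => by
      rw [← Module.End.mul_apply, add_one_sq, ← map_mul] at hw
      exact mem_ker1.2 (hg w (h.fix_of ht ht1 (mul_mem hg hg) h1 e (mem_ker1.1 hw)))
    have h3 : ρ g + 1 = 0 := LinearMap.ext fun w => h2 _ (h2 _ (h2 _ (by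
      rw [← Module.End.mul_apply, ← Module.End.mul_apply (ρ g + 1) (ρ g + 1) w, ← Module.End.mul_apply,
        add_one_sq, add_one_sq, ← map_mul, ← map_mul, h1, map_one, two_eq, LinearMap.zero_apply])))
    rw [h.inj ((eq_of_add two_eq h3).trans (map_one ρ).symm), one_mul] at e
    exact e rfl

theorem Hyp.Aq_eq (h : Hyp ρ) {t g : G} (ht : t * t = 1) (ht1 : t ≠ 1) (hg : g ∈ Aq ρ t)
    (hg1 : g ≠ 1) : Aq ρ g = Aq ρ t := by
  exact Subgroup.ext fun a => ⟨fun k v hv => k v (hg v hv),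
    fun k v hv => k v (h.fix_of ht ht1 hg (h.Aq_sq ht ht1 hg) hg1 hv)⟩

theorem Hyp.Aq_quad (h : Hyp ρ) {t a b : G} (ht : t * t = 1) (ht1 : t ≠ 1) (ha : a ∈ Aq ρ t)
    (hb : b ∈ Aq ρ t) : (ρ a + 1) * (ρ b + 1) = 0 := by
  by_cases e : b = 1
  · rw [e, map_one, two_eq, mul_zero]
  have bb := h.Aq_sq ht ht1 hb
  exact LinearMap.ext fun v => mem_ker1.2 (ha _ (h.fix_of ht ht1 hb bb e
    (mem_ker1.1 (range_le_ker bb ⟨v, rfl⟩))))

theorem Hyp.Aq_comm (h : Hyp ρ) {t a b : G} (ht : t * t = 1) (ht1 : t ≠ 1) (ha : a ∈ Aq ρ t)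
    (hb : b ∈ Aq ρ t) : a * b = b * a := by
  have := eq_inv_of_mul_eq_one_left (h.Aq_sq ht ht1 (mul_mem ha hb))
  rwa [mul_inv_rev, inv_eq_of_mul_eq_one_right (h.Aq_sq ht ht1 ha),
    inv_eq_of_mul_eq_one_right (h.Aq_sq ht ht1 hb)] at this

theorem Hyp.mem_Aq_of_quad (h : Hyp ρ) {a b : G} (ha : a * a = 1) (ha1 : a ≠ 1)
    (hq : (ρ b + 1) * (ρ a + 1) = 0) : b ∈ Aq ρ a := by
  intro v hv
  obtain ⟨u, rfl⟩ := h.fr a ha ha1 v hv
  exact mem_ker1.1 (LinearMap.congr_fun hq u)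

theorem Aq_conj (g t a : G) : g * a * g⁻¹ ∈ Aq ρ (g * t * g⁻¹) ↔ a ∈ Aq ρ t := by
  refine ⟨fun k v hv => ?_, fun k v hv => ?_⟩
  · have := k (ρ g v) (by rw [rho_mul, rho_inv_apply, rho_mul, hv])
    rw [rho_mul, rho_inv_apply, rho_mul] at this
    exact Function.LeftInverse.injective (rho_inv_apply g) this
  · rw [rho_mul, rho_mul] at hv ⊢
    rw [k _ (by nth_rewrite 2 [← hv]; rw [rho_inv_apply]), rho_apply_inv]

theorem conj_mem_Aq {g t a : G} (hg : g * t = t * g) (ha : a ∈ Aq ρ t) : g * a * g⁻¹ ∈ Aq ρ t := by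
  have := (Aq_conj g t a).2 ha
  rwa [hg, mul_inv_cancel_right] at this

theorem Aq_cj (g t : G) : Aq ρ (g * t * g⁻¹) = Tech.cj g (Aq ρ t) := Subgroup.ext fun a => by
  rw [Tech.mem_cj, ← Aq_conj g t (g⁻¹ * a * g)]
  simp [mul_assoc]

/-- If no other conjugate of `A_t` commutes with `A_t`, the conjugates of the fixed space of `t`
form a partial spread. -/
theorem Hyp.wc (h : Hyp ρ) {t : G} (ht : t * t = 1) (ht1 : t ≠ 1)
    (H : ∀ g : G, (∀ a ∈ Aq ρ t, ∀ b ∈ Aq ρ (g * t * g⁻¹), a * b = b * a) →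
      Aq ρ (g * t * g⁻¹) = Aq ρ t)
    (g : G) {v : V} (hv : v ≠ 0) (h1 : ρ t v = v) (h2 : ρ (g * t * g⁻¹) v = v) :
    Aq ρ (g * t * g⁻¹) = Aq ρ t := by
  have key : ∀ g : G, Aq ρ (g * t * g⁻¹) ≤ normalizer (Aq ρ t : Set G) →
      Aq ρ (g * t * g⁻¹) = Aq ρ t := fun g hn => by
    by_contra ne
    have ss : g * t * g⁻¹ * (g * t * g⁻¹) = 1 := by rw [conj_mul, ht, mul_one, mul_inv_cancel]
    have s1 : g * t * g⁻¹ ≠ 1 := by simpa using ht1
    have hc : Nat.card (Aq ρ (g * t * g⁻¹)) = Nat.card (Aq ρ t) := by rw [Aq_cj, Tech.card_cj]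
    refine ne (H g fun a ha b hb => by_contra fun e => ?_)
    generalize g * t * g⁻¹ = s at *
    have h3 : ∀ c ∈ Aq ρ t, ∀ d ∈ Aq ρ s, d ≠ 1 → c * d = d * c → c ∈ normalizer (Aq ρ s : Set G) :=
      fun c _ d hd d1 e => Tech.mem_normalizer_of_forall fun y hy => by
        rw [← h.Aq_eq ss s1 hd d1] at hy ⊢
        exact conj_mem_Aq e hy
    have h4 : a ∉ normalizer (Aq ρ s : Set G) := fun k => e (by
      have h5 : a * b * a⁻¹ * b⁻¹ ∈ Aq ρ s := mul_mem (Tech.conj_mem_of_mem_normalizer k hb) (inv_mem hb)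
      have h6 : a * b * a⁻¹ * b⁻¹ ∈ Aq ρ t := by
        simpa [mul_assoc] using mul_mem ha (Tech.conj_mem_of_mem_normalizer (hn hb) (inv_mem ha))
      by_contra k'
      have h7 : a * b * a⁻¹ * b⁻¹ ≠ 1 := fun k => k' (by rwa [mul_inv_eq_one, mul_inv_eq_iff_eq_mul] at k)
      exact ne ((h.Aq_eq ss s1 h5 h7).symm.trans (h.Aq_eq ht ht1 h6 h7)))
    let f : Aq ρ s → (Aq ρ t ⊓ normalizer (Aq ρ s : Set G) : Subgroup G) := fun d =>
      ⟨a * (d * a * (d : G)⁻¹), (Aq ρ t).mul_mem ha (Tech.conj_mem_of_mem_normalizer (hn d.2) ha), by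
        have h5 := Tech.conj_mem_of_mem_normalizer (hn d.2) ha
        by_cases d1 : (d : G) = 1
        · rw [d1, one_mul, inv_one, mul_one, h.Aq_sq ht ht1 ha]; exact one_mem _
        refine h3 _ (mul_mem ha h5) d d.2 d1 ?_
        nth_rewrite 2 [h.Aq_comm ht ht1 ha h5]
        rw [inv_eq_of_mul_eq_one_right (h.Aq_sq ss s1 d.2)]
        simp [mul_assoc, h.Aq_sq ss s1 d.2, ← mul_assoc (d : G) d]⟩
    have h5 : Function.Injective f := fun d d' k => by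
      have h6 : (d : G) * a * (d : G)⁻¹ = d' * a * (d' : G)⁻¹ := mul_left_cancel (congrArg Subtype.val k)
      by_contra k'
      refine h4 (h3 a ha _ (d'⁻¹ * d).2 (fun e => k' (inv_mul_eq_one.1 (Subtype.ext e)).symm) ?_)
      calc _ = (d' : G)⁻¹ * (d' * a * (d' : G)⁻¹) * d := by simp [mul_assoc]
        _ = _ := by rw [← h6]; simp [mul_assoc]
    have h6 := Nat.card_le_card_of_injective f h5
    exact h4 ((eq_of_le_of_card_ge inf_le_left (hc ▸ h6)).ge ha).2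
  let St : Subgroup G :=
    { carrier := {a | ρ a v = v}
      one_mem' := by rw [Set.mem_ofPred_eq, map_one]; rfl
      mul_mem' := fun ha hb => by rw [Set.mem_ofPred_eq, rho_mul, hb, ha]
      inv_mem' := fun ha => by rw [Set.mem_ofPred_eq, ← ha, rho_inv_apply, ha] }
  have hP : IsPGroup 2 (Aq ρ t ⊔ Aq ρ (g * t * g⁻¹) : Subgroup G) := h.two_of_fix hv fun a ha =>
    (sup_le (fun a ha => ha v h1) (fun a ha => ha v h2) : Aq ρ t ⊔ Aq ρ (g * t * g⁻¹) ≤ St) ha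
  refine key g (le_sup_right.trans (?_ : Aq ρ t ⊔ _ ≤ _))
  by_contra e
  obtain ⟨y, hy, y1, y2⟩ := Tech.exists_mem_normalizer_of_lt hP (inf_lt_left.2 e)
  refine y1 ⟨hy, Tech.mem_normalizer_iff_cj.2 ((Aq_cj y t).symm.trans (key y ?_))⟩
  rw [Aq_cj]
  exact (Tech.cj_mono y (le_inf le_sup_left le_normalizer)).trans
    ((Tech.mem_normalizer_iff_cj.1 y2).le.trans inf_le_right)

end CfsgLib.Gag
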