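import Cfsg.Agent.Lib.Gag.Frm

/-!
# Gagola's theorem: centralisers of A_t; the first non-semisimple case (plans/GAG.md, package C13)
-/

set_option autoImplicit false
set_option linter.unusedSectionVars false
set_option linter.unusedVariables false

namespace CfsgLib.Gag
open Cfsg Subgroup

variable {G W : Type*} [Group G] [Finite G] [AddCommGroup W] [Module (ZMod 2) W] [Finite W]
  {φ : G →* Mx W} {x t : G}

theorem phi_inv {g : G} {M M' : Mx W} (e : φ g = M) (e' : M * M' = 1) : φ g⁻¹ = M' :=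
  left_inv_eq_right_inv (by rw [← e, ← map_mul, inv_mul_cancel, map_one]) e'

theorem Fr.c3' (hF : Fr φ x t) (hg : Good φ) {y : G} (hy : orderOf y = 3) :
    ¬ ∀ a ∈ Aq (rep φ) t, y * a = a * y := fun hc => by
  obtain ⟨β, hβ, h1, hs⟩ := hg
  have yt := hc t (self_mem_Aq t)
  have y3 : y ^ 3 = 1 := hy ▸ pow_orderOf_eq_one y
  obtain ⟨m, θ, hm, e⟩ := hF.cent yt
  obtain ⟨m', -, hm'⟩ := isUnit_iff_exists.1 hm
  have mc : ∀ α, InA φ α → m * α = α * m := by
    rintro α ⟨a, ha⟩
    have := congrArg φ (hc a (hF.memA.2 ⟨α, ha⟩))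
    rw [map_mul, map_mul, e, ha, uM, m2mul, m2mul] at this
    simpa [add_comm] using (m2inj this).2.1
  have key : ∀ l ∈ Rg β, ∀ l', l * l' = 1 → l' * l = 1 →
      l * θ * l = θ ∧ ∃ g, φ g = dM l l' ∧ g * y = y * g := fun l hl l' e1 e2 => by
    obtain ⟨g, hg⟩ := (hF.torA hβ hs).2 l hl l' e1 e2
    have c1 := mc l ((hF.torA hβ hs).1 l hl)
    have h2 : φ (g * y * g⁻¹) = !![m, l * θ * l; 0, m] := by
      rw [map_mul, map_mul, phi_inv hg (M' := dM l' l) (by rw [dM_mul, e1, e2, dM_one]), hg, e]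
      have c2 : l * m * l' = m := by rw [← c1, mul_assoc, e1, mul_one]
      have c3 : l' * m * l = m := by rw [mul_assoc, c1, ← mul_assoc, e2, one_mul]
      simp [dM, c2, c3]
    have h3 : φ (g * y * g⁻¹ * y⁻¹) = uM ((l * θ * l + θ) * m') := by
      refine (IsUnit.map φ (Group.isUnit y)).mul_right_cancel ?_
      rw [← map_mul, inv_mul_cancel_right, h2, e]
      simp [uM, mul_assoc, hm', add_comm θ, add_assoc, two_eq]
    have h4 := hF.memA.2 ⟨_, h3⟩
    have h5 : g * y * g⁻¹ * y⁻¹ = 1 := eq_one_of_odd (k := 1)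
      (by rw [pow_one, sq, hF.hyp.Aq_sq hF.tt hF.t_ne h4]) (by decide : Odd 3) (by
        have := (show Commute y _ from hc _ h4).symm.mul_pow 3
        rwa [inv_mul_cancel_right, conj_pow, y3, mul_one, mul_inv_cancel, mul_one, eq_comm] at this)
    rw [mul_inv_eq_one] at h5
    rw [h5, e] at h2
    exact ⟨(m2inj h2).2.1.symm, g, hg, mul_inv_eq_iff_eq_mul.1 h5⟩
  obtain ⟨β', -, e1, e2, -⟩ := hs.inv
  obtain ⟨k1, g, hg, gy⟩ := key β (self_mem_Rg β) β' e1 e2
  obtain ⟨l', e3, e4⟩ := isUnit_iff_exists.1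
    (hF.unit (hβ.add hF.inA_one) fun e => h1 (eq_of_add two_eq e))
  have k2 := (key _ (add_mem (self_mem_Rg β) (one_mem _)) l' e3 e4).1
  have k3 : β * θ = θ + θ * β := by
    rw [add_mul, one_mul, mul_add, add_mul, k1, mul_one, ← add_assoc, add_eq_right] at k2
    exact (eq_of_add two_eq k2).symm
  have k4 : θ * (1 + β + β * β) = 0 := by
    rw [k3, add_mul] at k1
    rw [mul_add, mul_add, mul_one, ← mul_assoc, add_assoc, k1, two_eq]
  have nc : ∀ g : G, orderOf g = 3 → g * y = y * g → g * t = t * g := fun g h3 k => by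
    rcases hF.hyp.comm3 h3 hy k with rfl | rfl
    · exact yt
    · exact Commute.inv_left_iff.1 yt
  by_cases k : 1 + β + β * β = 0
  · have b3 : β ^ 3 = 1 := by
      have : β * β = 1 + β := (eq_of_add two_eq k).symm
      rw [pow_three, this, mul_add, mul_one, this, ← add_assoc, add_add_cancel two_eq]
    have b3' : β' ^ 3 = 1 := by
      have := (show Commute β' β from e2.trans e1.symm).mul_pow 3
      rw [e2, one_pow, b3, mul_one] at this
      exact this.symm
    have := congrArg φ (nc g (orderOf_eq_prime (hF.inj (by rw [map_pow, hg, dM_pow, b3, b3', dM_one, map_one]))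
      fun k => h1 (m2inj ((hg.symm.trans (k ▸ map_one φ)).trans m2one)).1) gy)
    rw [map_mul, map_mul, hg, hF.ht, dM, uM, m2mul, m2mul] at this
    have k5 : β = β' := by simpa using (m2inj this).2.1
    rw [← k5] at e1
    rw [pow_three, e1, mul_one] at b3
    exact h1 b3
  · have k5 : θ = 0 := (hF.unit ((hF.torA hβ hs).1 _ (add_mem (add_mem (one_mem _) (self_mem_Rg β))
      (mul_mem (self_mem_Rg β) (self_mem_Rg β)))) k).mul_left_eq_zero.1 k4
    have := congrArg φ (nc x hF.ord (hF.inj (by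
      rw [map_mul, map_mul, e, hF.hx, k5]; simp [xM])))
    rw [map_mul, map_mul, hF.hx, hF.ht, xM, uM, m2mul, m2mul] at this
    exact hF.one_ne (by simpa using (m2inj this).1.symm)

theorem Fr.c3 (hF : Fr φ x t) (hg : Good φ) {y : G} (hy : orderOf y = 3) (g : G) :
    ¬ ∀ a ∈ Aq (rep φ) (g * t * g⁻¹), y * a = a * y := fun hc =>
  hF.c3' hg (y := g⁻¹ * y * g) (by rw [← hy, ← (MulAut.conj g⁻¹).orderOf_eq y]; simp) fun a ha => by
    calc _ = g⁻¹ * (y * (g * a * g⁻¹)) * g := by group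
      _ = _ := by rw [hc _ ((Aq_conj g t a).2 ha)]; group

section alg
variable {R : Type*} [Ring R] {η l m : R}

/-- annihilated by `η` on both sides -/
def II (η a : R) : Prop := a * η = 0 ∧ η * a = 0

theorem II.add {a b : R} (ha : II η a) (hb : II η b) : II η (a + b) :=
  ⟨by rw [add_mul, ha.1, hb.1, add_zero], by rw [mul_add, ha.2, hb.2, add_zero]⟩

theorem II.left {a c : R} (ha : II η a) (hc : c * η = η * c) : II η (c * a) :=
  ⟨by rw [mul_assoc, ha.1, mul_zero], by rw [← mul_assoc, ← hc, mul_assoc, ha.2, mul_zero]⟩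

theorem II.right {a c : R} (ha : II η a) (hc : c * η = η * c) : II η (a * c) :=
  ⟨by rw [mul_assoc, hc, ← mul_assoc, ha.1, zero_mul], by rw [← mul_assoc, ha.2, zero_mul]⟩

theorem odd_act (hl : l * η = η * l) (hm : m * η = η * m) (sl : SS l) (sm : SS m)
    (h1 : ∀ a, II η a → l * (m * a) = m * (l * a)) (h2 : ∀ a, II η a → a * l * m = a * m * l) :
    ∃ k, Odd k ∧ ∀ a, II η a → (m * l) ^ k * a = a ∧ a * (m * l) ^ k = a := by
  have cl : ∀ n : ℕ, l ^ n * η = η * l ^ n := fun n => (show Commute l η from hl).pow_left n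
  have cm : ∀ n : ℕ, m ^ n * η = η * m ^ n := fun n => (show Commute m η from hm).pow_left n
  have a1 : ∀ n : ℕ, ∀ a, II η a → l ^ n * (m * a) = m * (l ^ n * a) := fun n a ha => by
    induction n with
    | zero => simp
    | succ n ih => rw [pow_succ', mul_assoc, ih, h1 _ (ha.left (cl n)), mul_assoc]
  have a2 : ∀ n : ℕ, ∀ a, II η a → a * l * m ^ n = a * m ^ n * l := fun n a ha => by
    induction n with
    | zero => simp
    | succ n ih => rw [pow_succ, ← mul_assoc, ih, h2 _ (ha.right (cm n)), mul_assoc a]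
  have a3 : ∀ n : ℕ, ∀ a, II η a → (m * l) ^ n * a = m ^ n * (l ^ n * a) := fun n => by
    induction n with
    | zero => simp
    | succ n ih =>
      intro a ha
      rw [pow_succ, mul_assoc, mul_assoc, ih _ ((ha.left hl).left hm), a1 n _ (ha.left hl), pow_succ,
        pow_succ, mul_assoc, mul_assoc]
  have a4 : ∀ n : ℕ, ∀ a, II η a → a * (m * l) ^ n = a * m ^ n * l ^ n := fun n => by
    induction n with
    | zero => simp
    | succ n ih =>
      intro a ha
      rw [pow_succ', ← mul_assoc, ← mul_assoc, ih _ ((ha.right hm).right hl), a2 n _ (ha.right hm),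
        pow_succ', pow_succ', ← mul_assoc, ← mul_assoc]
  obtain ⟨k, hk, ek⟩ := sl
  obtain ⟨j, hj, ej⟩ := sm
  have e1 : l ^ (k * j) = 1 := by rw [pow_mul, ek, one_pow]
  have e2 : m ^ (k * j) = 1 := by rw [mul_comm, pow_mul, ej, one_pow]
  exact ⟨k * j, hk.mul hj, fun a ha => ⟨by rw [a3 _ a ha, e1, e2, one_mul, one_mul],
    by rw [a4 _ a ha, e1, e2, mul_one, mul_one]⟩⟩

theorem der_zero (h2 : ∀ a : R, a + a = 0) {κ b : R} {k : ℕ} (hk : Odd k) (hu : IsUnit κ)
    (e : κ ^ k * b = b * κ ^ k) (hc : κ * (κ * b + b * κ) = (κ * b + b * κ) * κ) : κ * b + b * κ = 0 := by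
  have h1 : κ * κ * b = b * (κ * κ) := by
    rw [mul_add, add_mul, ← mul_assoc κ b, add_comm, mul_assoc b, ← mul_assoc κ κ] at hc
    exact add_left_cancel hc
  obtain ⟨n, rfl⟩ := hk
  rw [pow_succ', pow_mul, sq, mul_assoc, (show Commute (κ * κ) b from h1).pow_left n, ← mul_assoc,
    ← mul_assoc] at e
  rw [((hu.mul hu).pow n).mul_right_cancel e, h2]

theorem eta_comm (hl : l * η = η * l) (hm : m * η = η * m) (h : η * (l * m) = η * (m * l)) {a : R}
    (ha : a ∈ Subring.closure {l, m}) :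
    a * η = η * a ∧ η * a * l = η * l * a ∧ η * a * m = η * m * a := by
  induction ha using Subring.closure_induction with
  | mem x hx =>
    rcases hx with rfl | rfl
    · exact ⟨hl, rfl, by rw [mul_assoc, mul_assoc, h]⟩
    · exact ⟨hm, by rw [mul_assoc, mul_assoc, h], rfl⟩
  | zero => simp
  | one => simp
  | add x y _ _ ihx ihy => simp only [add_mul, mul_add, ihx.1, ihx.2.1, ihx.2.2, ihy.1, ihy.2.1, ihy.2.2, and_self]
  | neg x _ ih => simp only [neg_mul, mul_neg, ih.1, ih.2.1, ih.2.2, and_self]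
  | mul x y _ _ ihx ihy =>
    have k : ∀ c, η * x * c = η * c * x → η * y * c = η * c * y → η * (x * y) * c = η * c * (x * y) :=
      fun c h1 h2 => by
        rw [← mul_assoc, ← mul_assoc, ← h1, ← ihx.1, mul_assoc x, mul_assoc x, h2, mul_assoc x, mul_assoc x]
    exact ⟨by rw [mul_assoc, ihy.1, ← mul_assoc, ihx.1, mul_assoc], k l ihx.2.1 ihy.2.1, k m ihx.2.2 ihy.2.2⟩

/-- the final computation -/
theorem fin_alg (h2 : ∀ a : R, a + a = 0) (hl : l * η = η * l) (hm : m * η = η * m) (sl : SS l)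
    (sm : SS m) (hI : ∀ a b, II η a → II η b → a * b = 0) (hχ : II η (l * m + m * l)) {w : R}
    (hw : II η w) (wl : l * w = w * l) (wm : m * w = w * m)
    (h : l * (m * (l * l) * m + l * (m * m) * l + w) * l = m * (l * l) * m + l * (m * m) * l + w) :
    w * (l * l + 1) = 0 := by
  let _ := mod2 h2
  have h3 : ∀ a, II η a → l * (m * a) = m * (l * a) := fun a ha => eq_of_add h2 (by
    rw [← mul_assoc, ← mul_assoc, ← add_mul, hI _ _ hχ ha])
  have h4 : ∀ a, II η a → a * l * m = a * m * l := fun a ha => eq_of_add h2 (by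
    rw [mul_assoc, mul_assoc, ← mul_add, hI _ _ ha hχ])
  obtain ⟨k, hk, e⟩ := odd_act hl hm sl sm h3 h4
  obtain ⟨χ, eχ⟩ : ∃ χ, χ = l * m + m * l := ⟨_, rfl⟩
  rw [← eχ] at hχ
  have hb := ((hχ.left hl).right hl).add hχ
  have h5 : m * l * (l * χ * l + χ) + (l * χ * l + χ) * (m * l) = w * (l * l + 1) := by
    have e1 : m * (l * l) * m + l * (m * m) * l = m * l * χ + χ * (m * l) := by
      rw [eχ]; apply z2; simp only [mul_add, add_mul, mul_assoc]; match_scalars <;> decide
    have e2 := h3 _ ((hχ.left hl).right hl)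
    have e3 := h4 _ (hχ.left hl)
    rw [e1] at h
    have e4 : l * w * l + w = l * (m * l * χ + χ * (m * l)) * l + (m * l * χ + χ * (m * l)) := by
      have := congrArg (· + (l * (m * l * χ + χ * (m * l)) * l + w)) h
      refine Eq.trans ?_ (this.trans ?_) <;> apply z2 <;> simp only [mul_add, add_mul, mul_assoc] <;>
        match_scalars <;> decide
    rw [wl, mul_assoc w, ← mul_add_one] at e4
    rw [e4]
    simp only [mul_add, add_mul, mul_assoc] at e2 e3 ⊢
    rw [e2, ← mul_assoc l m l] 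
    have e5 : l * (χ * (l * (m * l))) = l * (χ * (m * (l * l))) := by
      simpa only [mul_assoc] using congrArg (· * l) e3
    rw [mul_assoc l m l, e5]
    abel
  rw [← h5]
  refine der_zero h2 hk (sm.isUnit.mul sl.isUnit) ((e _ hb).1.trans (e _ hb).2.symm) ?_
  rw [h5]
  have e2 := h4 _ (hw.right hl)
  rw [h4 w hw] at e2
  rw [← mul_assoc, mul_assoc m l w, wl, ← mul_assoc, wm]
  simp only [mul_add, add_mul, mul_one, ← mul_assoc, e2]

theorem b1_mat (h2 : ∀ a : R, a + a = 0) {B m' : R} (sq : η * η = 0) (hB : B * η = η * B)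
    (hm : m * η = η * m) (hm' : m' * η = η * m') (e1 : m * m' = 1) (e2 : m' * m = 1)
    (c : η * m * B = η * B * m) :
    pM η * dM m m' * pM η * uM B * (pM η * dM m' m * pM η) =
      !![1 + η * (B + m * B * m), m * B * m; 0, 1 + η * (B + m * B * m)] := by
  let _ := mod2 h2
  have c1 : m * (1 + η * B) * m' = 1 + η * B := by
    rw [mul_add, add_mul, mul_one, e1, ← mul_assoc, hm, c, mul_assoc, e1, mul_one]
  have c2 : m' * (1 + η * B) * m = 1 + η * B := by
    rw [mul_add, add_mul, mul_one, e2, mul_assoc, ← c, ← hm, mul_assoc m, ← mul_assoc, e2, one_mul]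
  calc _ = pM η * (dM m m' * (pM η * uM B * pM η) * dM m' m) * pM η := by simp only [mul_assoc]
    _ = pM η * !![1 + η * B, m * (B + η * B) * m; 0, 1 + η * B] * pM η := by
      rw [pM_uM h2 sq hB]; simp [dM, c1, c2]
    _ = _ := by
      simp only [pM, m2mul]
      refine m2ext ?_ ?_ ?_ ?_ <;> apply z2 <;> simp only [mul_add, add_mul, mul_one, one_mul, mul_zero,
        add_zero, mul_assoc, sq, hB, hm, assoc_rw sq, assoc_rw hB, assoc_rw hm, zero_mul] <;>
        match_scalars <;> decide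

end alg

theorem conjP_back {η : E2 W} (h : η * η = 0) {g : G} {M : Mx W} :
    conjP φ h g = M ↔ φ g = pM η * M * pM η := by
  have e := pM_sq two_eq h
  constructor
  · rintro rfl
    simp only [conjP_apply, mul_assoc, e, assoc_rw e, one_mul, mul_one]
  · intro k
    simp only [conjP_apply, k, mul_assoc, e, assoc_rw e, one_mul, mul_one]

theorem Fr.c1 (hF : Fr φ x t) {β α s η : E2 W} (hβ : InA φ β) (h1 : β ≠ 1) (hs : SS β)
    (hα : InA φ α) (hT : TG φ α s η) (hc : β * η = η * β) : η = 0 := by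
  by_contra h0
  obtain ⟨z, hz⟩ := hT.z
  have sq := hT.sq
  have hv : ∀ v : E2 W, v * v = 0 → (1 + v) * (1 + v) = 1 := fun v h => by
    rw [add_mul, mul_add, mul_add, h, one_mul, one_mul, mul_one, add_zero, add_assoc, two_eq, add_zero]
  have zz : z * z = 1 := hF.inj (by rw [map_mul, hz, dM_mul, hv η sq, dM_one, map_one])
  have zt : z ∉ Aq (rep φ) t := fun k => by
    obtain ⟨a, e⟩ := hF.memA.1 k
    exact h0 (by simpa using (m2inj (hz.symm.trans e)).1)
  have z1 : z ≠ 1 := fun e => zt (e ▸ one_mem _)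
  have hI : ∀ a b, II η a → II η b → a * b = 0 := fun a b ha hb => end_eq fun w => by
    have k : η (b w) = 0 := congrArg (fun g : E2 W => g w) hb.2
    obtain ⟨u, hu⟩ := hF.hyp.fr z zz z1 ![b w, 0] (funext (Fin.forall_fin_two.2
      ⟨by simp [rep_apply, toE_apply, hz, dM, k], by simp [rep_apply, toE_apply, hz, dM]⟩))
    have k1 : u 0 + η (u 0) + u 0 = b w := by simpa [rep_apply, toE_apply, hz, dM] using congrFun hu 0
    rw [add_right_comm, vtwo, zero_add] at k1
    rw [Module.End.mul_apply, ← k1]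
    exact congrArg (fun g : E2 W => g (u 0)) ha.1
  obtain ⟨μ, hμ, μμ⟩ := SS.sqrt two_eq hT.ss (self_mem_Rg s)
  have sμ := SS.of_unit two_eq hT.ss hμ ((Commute.refl μ).isUnit_mul_iff.1 (μμ ▸ hT.ss.isUnit)).1
  obtain ⟨μ', hμ', m1, m2, -⟩ := sμ.inv
  obtain ⟨β', hβ', e1, e2, -⟩ := hs.inv
  have cμ : μ * η = η * μ := Rg_comm (Rg_le hT.s_mem hμ) hT.η_mem
  have cμ' : μ' * η = η * μ' := (comm_Rg cμ.symm hμ').symm
  have tA := (hF.frP sq hz).torA (hT.u.imp fun g => (conjP_back sq).2) hT.ss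
  have ηI : ∀ a, a * η = η * a → II η (η * a) := fun a h =>
    ⟨by rw [mul_assoc, h, ← mul_assoc, sq, zero_mul], by rw [← mul_assoc, sq, zero_mul]⟩
  have c0 : η * (β * μ + μ * β) = 0 := by
    obtain ⟨g, hg⟩ := tA.1 μ hμ
    rw [conjP_back, pM_uM two_eq sq cμ] at hg
    have k := hv _ (hI _ _ (ηI μ cμ) (ηI μ cμ))
    have k1 := (hF.conjA hg k k hβ).add hβ
    have k2 : (1 + η * μ) * β * (1 + η * μ) + β = η * (β * μ + μ * β) := by
      apply z2
      simp only [mul_add, add_mul, mul_one, one_mul, mul_assoc, assoc_rw hc, assoc_rw cμ, assoc_rw sq,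
        zero_mul]
      match_scalars <;> decide
    rw [k2] at k1
    by_contra k3
    exact h0 ((hF.unit k1 k3).mul_left_eq_zero.1 (by rw [← mul_assoc, sq, zero_mul]))
  have hχ : II η (β * μ + μ * β) := ⟨by
    rw [← c0]; simp only [mul_add, add_mul, mul_assoc, hc, cμ, assoc_rw hc, assoc_rw cμ], c0⟩
  have ec := fun a => eta_comm (a := a) hc cμ (eq_of_add two_eq (mul_add η _ _ ▸ c0))
  have sβ : β ∈ Subring.closure {β, μ} := Subring.subset_closure (by simp)
  have sm : μ ∈ Subring.closure {β, μ} := Subring.subset_closure (by simp)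
  have sB := mul_mem sβ sβ
  have sN := mul_mem (mul_mem sm sB) sm
  have ss := mul_mem sm sm
  obtain ⟨a, ha⟩ := hα
  obtain ⟨h, hh⟩ := (hF.torA hβ hs).2 β (self_mem_Rg β) β' e1 e2
  have hh' := phi_inv hh (M' := dM β' β) (by rw [dM_mul, e1, e2, dM_one])
  obtain ⟨b, hb⟩ := (hF.torA hβ hs).1 _ (mul_mem (self_mem_Rg β) (self_mem_Rg β))
  obtain ⟨g, hg⟩ := tA.2 μ hμ μ' m1 m2
  have hg' := phi_inv hg (M' := dM μ' μ) (by rw [dM_mul, m1, m2, dM_one])
  rw [conjP_back] at hg hg'
  obtain ⟨ϑ, eϑ⟩ : ∃ ϑ, ϑ = β * (μ * μ + μ * μ * (μ * μ)) * β +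
    β * (μ * μ) * β * (β * β + μ * (β * β) * μ) := ⟨_, rfl⟩
  have sϑ : ϑ ∈ Subring.closure {β, μ} := eϑ ▸ add_mem (mul_mem (mul_mem sβ (add_mem ss (mul_mem ss ss))) sβ)
    (mul_mem (mul_mem (mul_mem sβ ss) sβ) (add_mem sB sN))
  obtain ⟨v, ev⟩ : ∃ v, v = η * (β * β + μ * (β * β) * μ) := ⟨_, rfl⟩
  obtain ⟨T, eT⟩ : ∃ T, T = μ * (β * β) * μ + β * (μ * μ) * β + η * ϑ := ⟨_, rfl⟩
  have vI : II η v := ev ▸ ηI _ (ec _ (add_mem sB sN)).1
  have wI := ηI _ (ec _ sϑ).1
  have TI : II η T := by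
    have : μ * (β * β) * μ + β * (μ * μ) * β = μ * β * (β * μ + μ * β) + (β * μ + μ * β) * (μ * β) := by
      apply z2; simp only [mul_add, add_mul, mul_assoc]; match_scalars <;> decide
    have k := (ec _ (mul_mem sm sβ)).1
    rw [eT, this]
    exact ((hχ.left k).add (hχ.right k)).add wI
  have hd : φ (h * a * h⁻¹ * (g * b * g⁻¹)) = !![1 + v, T; 0, 1 + v] := by
    rw [map_mul, map_mul, map_mul, map_mul, map_mul, hh, ha, hh', dM_uM_dM _ _ _ _ _ e1 e2, hg, hb, hg',
      b1_mat two_eq sq (ec _ sB).1 cμ cμ' m1 m2 (ec _ sB).2.2.symm, ← ev, uM, m2mul]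
    refine m2ext (by simp) ?_ (by simp) (by simp)
    rw [eT, eϑ, ev, hT.eq, ← μμ]
    apply z2
    simp only [mul_add, add_mul, mul_one, one_mul, mul_assoc, assoc_rw hc, assoc_rw cμ, assoc_rw sq,
      zero_mul]
    match_scalars <;> decide
  generalize h * a * h⁻¹ * (g * b * g⁻¹) = d at hd
  have dz : d ∈ Aq (rep φ) z := hF.hyp.mem_Aq_of_quad zz z1 (by
    rw [rep_apply, rep_apply, ← map_one toE, ← map_add, ← map_add, ← map_mul, hd, hz, ← map_zero toE]
    congr 1
    simp [dM, m2one, m2zero, add_add_cancel two_eq, vI.1, TI.1])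
  have vβ : β * v = v * β := by rw [ev, (ec _ (add_mem sB sN)).2.1, ← mul_assoc, hc]
  have hf : φ (h * d * h⁻¹ * d) = uM (T + β * T * β) := by
    have c1 : β * (1 + v) * β' = 1 + v := by rw [mul_add, mul_one, vβ, add_mul, mul_assoc, e1, mul_one]
    have c2 : β' * (1 + v) * β = 1 + v := by
      rw [mul_assoc, add_mul, one_mul, ← vβ, mul_add, ← mul_assoc, e2, one_mul]
    rw [map_mul, map_mul, map_mul, hh, hd, hh']
    simp only [dM, uM, m2mul, mul_zero, zero_mul, add_zero, zero_add, c1, c2, hv v (hI _ _ vI vI)]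
    simp [add_mul, mul_add, hI _ _ vI TI, hI _ _ ((TI.left hc).right hc) vI]
  have fz : h * d * h⁻¹ * d ∈ Aq (rep φ) z := mul_mem (conj_mem_Aq (hF.inj (by
    rw [map_mul, map_mul, hh, hz, dM_mul, dM_mul, mul_add, mul_add, add_mul, add_mul, hc,
      comm_Rg hc.symm hβ']; simp)) dz) dz
  have f1 : h * d * h⁻¹ * d = 1 := by
    by_contra k
    exact zt (((hF.hyp.Aq_eq zz z1 fz k).symm.trans
      (hF.hyp.Aq_eq hF.tt hF.t_ne (hF.memA.2 ⟨_, hf⟩) k)).le (self_mem_Aq z))
  rw [f1, map_one, ← uM_zero] at hf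
  have k := (eq_of_add two_eq (uM_inj hf).symm).symm
  rw [eT] at k
  have k1 := fin_alg two_eq hc cμ hs sμ hI hχ wI (by rw [(ec _ sϑ).2.1, ← mul_assoc, hc])
    (by rw [(ec _ sϑ).2.2, ← mul_assoc, cμ]) k
  have k2 : η * ϑ = η * (β * β * (μ * μ + μ * μ * (μ * μ)) * (β * β + 1)) := by
    have r : ∀ a ∈ Subring.closure {β, μ}, η * (a * β) = β * (η * a) := fun a ha => by
      rw [← mul_assoc, (ec a ha).2.1, ← hc, mul_assoc]
    have r2 : η * (μ * (μ * β)) = β * (η * (μ * μ)) := by simpa only [mul_assoc] using r _ ss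
    have r4 : η * (μ * (μ * (μ * (μ * β)))) = β * (η * (μ * (μ * (μ * μ)))) := by
      simpa only [mul_assoc] using r _ (mul_mem ss ss)
    have r2' : ∀ y, η * (μ * (μ * (β * y))) = β * (η * (μ * (μ * y))) := fun y => by
      simpa only [mul_assoc] using congrArg (· * y) r2
    have r3' : ∀ y, η * (μ * (μ * (μ * (β * y)))) = β * (η * (μ * (μ * (μ * y)))) := fun y => by
      simpa only [mul_assoc] using congrArg (· * y) (r _ (mul_mem sm ss))
    have r4' : ∀ y, η * (μ * (μ * (μ * (μ * (β * y))))) = β * (η * (μ * (μ * (μ * (μ * y))))) := fun y => by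
      simpa only [mul_assoc] using congrArg (· * y) r4
    rw [eϑ]
    simp only [mul_add, add_mul, mul_one, mul_assoc, assoc_rw hc.symm, r2, r4, r2', r3', r4']
    abel
  have u1 : IsUnit (β + 1) := hF.unit (hβ.add hF.inA_one) fun e => h1 (eq_of_add two_eq e)
  have u2 : IsUnit (β * β + 1) := by
    have := u1.mul u1
    rwa [add_mul, mul_add, mul_add, one_mul, one_mul, mul_one, add_assoc, ← add_assoc β, two_eq, zero_add] at this
  rw [k2, mul_assoc] at k1
  exact h0 (((((hs.isUnit.mul hs.isUnit).mul (μμ ▸ hT.un)).mul u2).mul u2).mul_left_eq_zero.1 k1)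

end CfsgLib.Gag
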