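import Cfsg.Agent.Lib.Gag.Irr
import Cfsg.Agent.S3359
import Cfsg.Agent.Lib.Classical.SmallIso

/-!
# Gagola's theorem: the exceptional cases (plans/GAG.md, package COP)
-/

set_option autoImplicit false
set_option linter.unusedSectionVars false
set_option linter.unusedVariables false

namespace CfsgLib.Gag
open Cfsg Subgroup

universe u
variable {p : ℕ} [hp : Fact p.Prime] {H : Type u} [Group H] [Finite H] {V : Type*} [AddCommGroup V]
  [Module (ZMod p) V] [Finite V] {ρ : H →* Module.End (ZMod p) V}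

theorem Cop.perfect {X Y : Type*} [Group X] [Group Y] (e : X ≃* Y) (h : commutator Y = ⊤) :
    commutator X = ⊤ := by
  have := map_commutator_eq (f := e.symm.toMonoidHom)
  rw [h, MonoidHom.range_eq_top.2 e.symm.surjective, ← MonoidHom.range_eq_map,
    MonoidHom.range_eq_top.2 e.symm.surjective] at this
  exact this.symm

theorem Cop.not_comm {X : Type*} [Group X] {F : Type} [Field F]
    (e : X ≃* Matrix.SpecialLinearGroup (Fin 2) F) : ¬ IsMulCommutative X := fun hc => by
  have := congrArg (fun M : Matrix.SpecialLinearGroup (Fin 2) F => M 0 0)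
    (congrArg e (hc.is_comm.comm (e.symm (SL2.uu 1)) (e.symm (SL2.ll 1))))
  simp [SL2.mul_ap] at this

theorem Tr.five (h : Tr p ρ) (S : Subgroup H) {F : Type} [Field F]
    [Fintype F] (e : S ≃* Matrix.SpecialLinearGroup (Fin 2) F) (h3 : 3 < Fintype.card F)
    (hd : ¬ p ∣ Nat.card S) : Fintype.card F = 5 := by
  obtain ⟨v, hv⟩ := h.nt
  have : Nontrivial V := ⟨v, 0, hv⟩
  have : Nontrivial S := by
    by_contra k
    have := not_nontrivial_iff_subsingleton.1 k
    exact Cop.not_comm e ⟨⟨fun a b => Subsingleton.elim _ _⟩⟩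
  let σ : S →* AddMonoid.End V :=
    { toFun := fun a => (ρ a).toAddMonoidHom
      map_one' := AddMonoidHom.ext fun w => by rw [coe_one, map_one]; rfl
      map_mul' := fun a b => AddMonoidHom.ext fun w => Red1.app_mul (σ := ρ) a b w }
  obtain ⟨e'⟩ := (FrobCompl.hasFree_of_module (ZMod p) σ
    fun g hg w hw => h.fpf (fun h3 => hd (h3.trans ((orderOf_coe g).dvd.trans
      (orderOf_dvd_natCard g)))) (fun e => hg (Subtype.ext e)) hw).equiv_SL25_of_perfect
    (Cop.perfect e (Classical.sl_fin_commutator_eq_top 2 le_rfl fun _ => h3))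
  have k := (Nat.card_congr (e.symm.trans e').toEquiv).trans FrobCompl.card_SL25
  rw [SL2.card_SL2] at k
  generalize Fintype.card F = q at k h3
  have : q ≤ 5 := by
    by_contra k1
    have : 36 ≤ q ^ 2 := by nlinarith
    have : 6 * 35 ≤ q * (q ^ 2 - 1) := Nat.mul_le_mul (by omega) (by omega)
    omega
  interval_cases q <;> simp_all

theorem Cop.arith {p k d n m i : ℕ} (hp : p.Prime) (h7 : ¬ p ∣ 120) (hd : 2 ≤ d) (hn : 1 ≤ n)
    (e : k ^ d = p ^ n) (h : 120 * m * i = k ^ d - 1) (hi : i ∣ 2) (hm : 2 * m ∣ k - 1)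
    (hc : m.Coprime 30) : i = 1 ∧ (p = 11 ∧ m = 1 ∨ p = 29 ∧ m = 7 ∨ p = 59 ∧ m = 29) := by
  have pk : p ∣ k := hp.dvd_of_dvd_pow (e ▸ dvd_pow_self p (by omega))
  have p7 : 7 ≤ p := by
    have := hp.two_le
    by_contra k
    interval_cases p <;> simp_all (config := { decide := true })
  have k0 : k ≠ 0 := by
    rintro rfl
    rw [zero_pow (by omega)] at e
    exact (pow_pos hp.pos n).ne e
  have k7 := p7.trans (Nat.le_of_dvd (by omega) pk)
  have m1 := Nat.le_of_dvd (by omega) hm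
  have i2 := Nat.le_of_dvd two_pos hi
  have b1 : k ^ d - 1 ≤ 120 * (k - 1) := by rw [← h]; nlinarith
  obtain rfl : d = 2 := by
    by_contra k1
    have a1 : k ^ 3 ≤ k ^ d := Nat.pow_le_pow_right (by omega) (by omega)
    have a2 : k ≤ 10 := by
      by_contra k2
      have : 121 * k ≤ k ^ 3 := by rw [pow_succ]; exact Nat.mul_le_mul_right _ (by nlinarith)
      omega
    obtain rfl : k = 7 := by
      have := Nat.le_of_dvd (by omega) pk
      interval_cases k <;> interval_cases p <;> simp_all (config := { decide := true })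
    rcases (by omega : d = 3 ∨ 4 ≤ d) with rfl | k2
    · rw [mul_assoc] at h; omega
    · have : 7 ^ 4 ≤ 7 ^ d := Nat.pow_le_pow_right (by omega) k2
      omega
  have a2 : k < 120 := by
    by_contra k2
    have : 120 * k ≤ k ^ 2 := by rw [sq]; exact Nat.mul_le_mul_right _ (by omega)
    omega
  have key : ∀ k ∈ List.range 120, ∀ m ∈ List.range 60, ∀ i ∈ List.range 3, (120 * m * i = k ^ 2 - 1 ∧ 2 * m ∣ k - 1 ∧ Nat.gcd m 30 = 1) →
      k < 7 ∨ (k, i, m) ∈ [(119, 2, 59), (11, 1, 1), (29, 1, 7), (59, 1, 29)] := by decide +kernel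
  have pr : ∀ {q : ℕ}, q.Prime → q ∣ k → p = q := fun hq hk =>
    ((Nat.prime_dvd_prime_iff_eq hq hp).1 (hq.dvd_of_dvd_pow (e ▸ dvd_pow hk two_ne_zero))).symm
  have k1 := (key k (List.mem_range.2 a2) m (List.mem_range.2 (by omega)) i (List.mem_range.2 (by omega))
    ⟨h, hm, hc⟩).resolve_left (by omega)
  simp only [List.mem_cons, Prod.mk.injEq, List.not_mem_nil, or_false] at k1
  rcases k1 with ⟨rfl, -⟩ | ⟨rfl, a, b⟩ | ⟨rfl, a, b⟩ | ⟨rfl, a, b⟩
  · exact absurd ((pr (q := 7) (by norm_num) (by norm_num)).symm.trans (pr (q := 17) (by norm_num) (by norm_num)))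
      (by norm_num)
  · exact ⟨a, .inl ⟨pr (by norm_num) dvd_rfl, b⟩⟩
  · exact ⟨a, .inr (.inl ⟨pr (by norm_num) dvd_rfl, b⟩)⟩
  · exact ⟨a, .inr (.inr ⟨pr (by norm_num) dvd_rfl, b⟩)⟩

theorem Cop.prod {S M : Subgroup H} (hc : ∀ h ∈ S, ∀ k ∈ M, h * k = k * h) (hd : S ⊓ M = ⊥)
    (hs : S ⊔ M = ⊤) : Nonempty (H ≃* S × M) := by
  have comm : ∀ (m : S) (n : M), Commute (S.subtype m) (M.subtype n) := fun m n => hc m m.2 n n.2
  refine ⟨(MulEquiv.ofBijective (MonoidHom.noncommCoprod S.subtype M.subtype comm) ⟨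
    (MonoidHom.noncommCoprod_injective _ _ comm).2 ⟨S.subtype_injective, M.subtype_injective, by
      rwa [range_subtype, range_subtype, disjoint_iff]⟩, MonoidHom.range_eq_top.1 ?_⟩).symm⟩
  rw [MonoidHom.noncommCoprod_range, range_subtype, range_subtype, hs]

theorem Tr.not_dvd_cent (h : Tr p ρ) {c k d : ℕ} (hV : Nat.card V = k ^ d) (hc : c ∣ k - 1) : ¬ p ∣ c :=
  fun e => h.not_dvd (hV ▸ (e.trans hc).trans (by simpa using Nat.sub_dvd_pow_sub_pow k 1 d))

theorem Tr.cop (h : Tr p ρ) (S : Subgroup H) [S.Normal] {F : Type} [Field F]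
    [Fintype F] (e : S ≃* Matrix.SpecialLinearGroup (Fin 2) F) (h5 : Fintype.card F = 5)
    (hd : ¬ p ∣ Nat.card S) : Concl p H := by
  have : Fact (Nat.Prime 5) := ⟨by norm_num⟩
  let e' : S ≃* FrobCompl.SL25 :=
    e.trans (Classical.slMapEquiv (FiniteField.ringEquivOfCardEq (h5.trans (ZMod.card 5).symm)))
  have hS : Nat.card S = 120 := (Nat.card_congr e'.toEquiv).trans FrobCompl.card_SL25
  obtain ⟨k, d, hd2, hV, hcy, hC⟩ := h.irr S (Cop.not_comm e)
  have hi := index_dvd_two S e (by omega) (by rw [h5]; norm_num)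
  have hK := (card_sup_cent S e (by rw [h5]; decide)).2
  have pH : ¬ p ∣ Nat.card H := fun k => by
    rw [← (S ⊔ centralizer (S : Set H)).card_mul_index] at k
    rcases hp.out.dvd_mul.1 k with k | k
    · exact (hp.out.dvd_mul.1 (hK ▸ k.mul_right 2)).elim hd (h.not_dvd_cent hV hC)
    · exact hd (hS ▸ (k.trans hi).trans (by norm_num))
  have hr : (S.subtype.comp e'.symm.toMonoidHom).range = S := by
    rw [MonoidHom.range_comp, MonoidHom.range_eq_top.2 e'.symm.surjective, ← MonoidHom.range_eq_map,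
      range_subtype]
  have : (S.subtype.comp e'.symm.toMonoidHom).range.Normal := hr.symm ▸ inferInstance
  obtain ⟨M, hM, m1, m2, -, m4, m5⟩ := FrobCompl.exists_complement_centralizer
    ((h.pqCond ⊤ (by rwa [card_top])).of_injective (topEquiv (G := H)).symm.toMonoidHom topEquiv.symm.injective)
    (φ := S.subtype.comp e'.symm.toMonoidHom) (S.subtype_injective.comp e'.symm.injective)
  have m6 := FrobCompl.sup_eq_sup_centralizer m1 m5
  rw [hr] at m1 m4 m6
  have m7 := Core.card_sup_mul_card_inf_of_normal S M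
  rw [m4, card_bot, mul_one, m6, hS] at m7
  rw [hS] at hK
  obtain ⟨j, hj⟩ := h.card
  obtain rfl : j = 0 := by
    by_contra k
    exact pH (hj ▸ (dvd_pow_self p k).mul_left _)
  obtain ⟨n, hn, hn'⟩ := h.card_V
  rw [← (S ⊔ centralizer (S : Set H)).card_mul_index, m7, pow_zero, mul_one, hV] at hj
  obtain ⟨a1, a2⟩ := Cop.arith hp.out (hS ▸ hd) hd2 hn (hV.symm.trans hn') hj hi
    (by rwa [show 2 * Nat.card M = Nat.card (centralizer (S : Set H)) by omega]) m2
  obtain ⟨f⟩ := Cop.prod (fun s hs x hx => m1 hx s hs) m4 (m6.trans (index_eq_one.1 a1))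
  have cy : IsCyclic M := isCyclic_of_injective (inclusion m1) (inclusion_injective m1)
  obtain ⟨g, hg⟩ := cy.exists_generator
  rcases a2 with ⟨a, b⟩ | ⟨a, b⟩ | ⟨a, b⟩
  · rw [card_eq_one.1 b, sup_bot_eq] at m6
    exact .inr (.inr (.inr (.inl ⟨a, ⟨(topEquiv.symm.trans
      (MulEquiv.subgroupCongr (m6.trans (index_eq_one.1 a1)).symm)).trans e'⟩⟩)))
  · exact .inr (.inr (.inr (.inr (.inl ⟨a, ⟨f.trans (e'.prodCongr (zmodMulEquivOfGenerator hg b).symm)⟩⟩))))
  · exact .inr (.inr (.inr (.inr (.inr ⟨a, ⟨f.trans (e'.prodCongr (zmodMulEquivOfGenerator hg b).symm)⟩⟩))))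

theorem Tr.fin3 (h : Tr p ρ) (h3 : p = 3) (S : Subgroup H) [S.Normal] {F : Type} [Field F]
    [Fintype F] (e : S ≃* Matrix.SpecialLinearGroup (Fin 2) F)
    (hc : (Fintype.card F = 5 ∧ Nat.card V = 81) ∨ (Fintype.card F = 13 ∧ Nat.card V = 729)) :
    Concl p H := by
  subst h3
  have ho : Odd (Fintype.card F) := by rcases hc with ⟨a, -⟩ | ⟨a, -⟩ <;> rw [a] <;> decide
  obtain ⟨k, d, hd2, hV, hcy, hC⟩ := h.irr S (Cop.not_comm e)
  have c3 := h.not_dvd_cent hV hC
  have hi := index_dvd_two S e (by omega) (by rcases hc with ⟨a, -⟩ | ⟨a, -⟩ <;> rw [a] <;> norm_num)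
  obtain ⟨hZ, hK⟩ := card_sup_cent S e ho
  have hS : Nat.card S = Fintype.card F * (Fintype.card F ^ 2 - 1) := by
    rw [Nat.card_congr e.toEquiv, SL2.card_SL2]
  have zC : (center S).map S.subtype ≤ centralizer (S : Set H) := by
    rintro _ ⟨y, hy, rfl⟩ s hs
    exact congrArg Subtype.val (mem_center_iff.1 hy ⟨s, hs⟩)
  have c2 := card_dvd_of_le zC
  rw [Core.card_map_subtype, hZ] at c2
  obtain ⟨j, hj⟩ := h.card
  have hH := (S ⊔ centralizer (S : Set H)).card_mul_index
  have hH' := S.card_mul_index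
  have hci : Nat.card S * (Nat.card (centralizer (S : Set H)) * (S ⊔ centralizer (S : Set H)).index) =
      2 * Nat.card H := by rw [← mul_assoc, ← hK, ← hH]; ring
  have j1 : ∀ a : ℕ, 3 * (Nat.card (centralizer (S : Set H)) * (S ⊔ centralizer (S : Set H)).index) = a * 3 ^ j →
      ¬ 3 ∣ a → Nat.card (centralizer (S : Set H)) * (S ⊔ centralizer (S : Set H)).index = a := fun a k k1 => by
    rcases j with _ | _ | j
    · exact absurd ⟨_, by simpa using k.symm⟩ k1
    · omega
    · refine absurd (Nat.prime_three.dvd_mul.1 ⟨a * 3 ^ j, ?_⟩) (not_or.2 ⟨c3, fun k => absurd (k.trans hi) (by decide)⟩)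
      rw [pow_succ, pow_succ] at k
      linarith
  rcases hc with ⟨a, b⟩ | ⟨a, b⟩
  · have : Fact (Nat.Prime 5) := ⟨by norm_num⟩
    let e' : S ≃* FrobCompl.SL25 :=
      e.trans (Classical.slMapEquiv (FiniteField.ringEquivOfCardEq (a.trans (ZMod.card 5).symm)))
    rw [a] at hS
    rw [b] at hj
    rw [hS] at hci hH'
    have k1 := j1 4 (by omega) (by decide)
    obtain ⟨z, hz, -, hz'⟩ := h.inv (by decide)
    obtain ⟨s, hs⟩ : ∃ s : S, orderOf s = 4 := ⟨e'.symm FrobCompl.slI, by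
      rw [MulEquiv.orderOf_eq, FrobCompl.orderOf_slI]⟩
    have sq : ∀ g : H, orderOf g = 4 → g * g = z := fun g hg => (hz' _ (by
      rw [← pow_two g, ← pow_add]; exact orderOf_dvd_iff_pow_eq_one.1 hg.dvd)).resolve_left fun k =>
        absurd (hg ▸ orderOf_dvd_of_pow_eq_one (n := 2) (by rw [sq, k])) (by decide)
    have zS : z ∈ S := sq s (by rw [orderOf_coe, hs]) ▸ mul_mem s.2 s.2
    have k2 : Nat.card (centralizer (S : Set H)) = 2 := by
      by_contra k2
      obtain ⟨g, hg⟩ := hcy.exists_ofOrder_eq_natCard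
      have k3 : orderOf (g : H) = 4 := by
        rcases (Nat.dvd_prime Nat.prime_two).1 hi with k3 | k3 <;> rw [k3] at k1
        · rw [orderOf_coe, hg, ← k1, mul_one]
        · omega
      have k4 : (s : H) * g ∈ S := by
        rcases hz' (s * g) (by
          rw [(show Commute (s : H) g from g.2 s s.2).symm.mul_mul_mul_comm, sq _ k3, sq s (by rw [orderOf_coe, hs]),
            ← pow_two, ← hz, pow_orderOf_eq_one]) with k4 | k4 <;> rw [k4]
        exacts [one_mem _, zS]
      have k5 := orderOf_dvd_natCard (G := center S)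
        ⟨⟨g, (mul_mem_cancel_left s.2).1 k4⟩, mem_center_iff.2 fun y => Subtype.ext (g.2 y y.2)⟩
      rw [hZ, ← orderOf_coe, ← orderOf_coe] at k5
      exact absurd (k3 ▸ k5) (by decide)
    refine .inr (.inl ⟨rfl, S, inferInstance, by omega, ⟨e'⟩,
      (eq_of_le_of_card_ge zC (by rw [k2, Core.card_map_subtype, hZ])).symm, fun K hK' => ?_⟩)
    have k3 := hK'.card_mul_card
    rw [hS] at k3
    have : Fact (Nat.Prime 2) := ⟨Nat.prime_two⟩
    obtain ⟨t, ht⟩ := exists_prime_orderOf_dvd_card' (G := K) 2 (show Nat.card K = 2 by omega).symm.dvd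
    rw [← orderOf_coe] at ht
    have t1 : (t : H) ≠ 1 := fun k => by rw [k, orderOf_one] at ht; omega
    rcases hz' t (by rw [← pow_two, ← ht, pow_orderOf_eq_one]) with k4 | k4
    · exact t1 k4
    · exact t1 (disjoint_def.1 hK'.disjoint (k4 ▸ zS) t.2)
  · have : Fact (Nat.Prime 13) := ⟨by norm_num⟩
    rw [a] at hS
    rw [b] at hj
    rw [hS] at hci hH'
    have k1 := j1 2 (by omega) (by decide)
    exact .inr (.inr (.inl ⟨rfl, ⟨(topEquiv.symm.trans (MulEquiv.subgroupCongr
      (index_eq_one.1 (by omega)).symm)).trans (e.trans (Classical.slMapEquiv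
        (FiniteField.ringEquivOfCardEq (a.trans (ZMod.card 13).symm))))⟩⟩))

end CfsgLib.Gag
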