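import Cfsg.Agent.Lib.Gag.Irr
import Cfsg.Agent.Lib.Classical.SL2Sylow
import Cfsg.Agent.Lib.SL2.Basic
import Cfsg.Agent.Lib.PSL2Rec.Fix2

/-!
# Gagola's theorem: defining characteristic (plans/GAG.md, package DEF)
-/

set_option autoImplicit false
set_option linter.unusedSectionVars false
set_option linter.unusedVariables false

namespace CfsgLib.Gag
open Cfsg Subgroup

universe u
variable {p : ℕ} [hp : Fact p.Prime] {H : Type u} [Group H] [Finite H] {V : Type*} [AddCommGroup V]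
  [Module (ZMod p) V] [Finite V] {ρ : H →* Module.End (ZMod p) V}

theorem DefCh.arith {p a c n : ℕ} (hp : p.Prime) (ha : 1 ≤ a) (hc : 1 ≤ c)
    (h : p ^ n - 1 = (p ^ a + 1) * (p ^ c - 1)) : p ^ n = (p ^ a) ^ 2 := by
  have h1 : 1 ≤ p ^ n := Nat.one_le_pow _ _ hp.pos
  have h2 : 1 ≤ p ^ c := Nat.one_le_pow _ _ hp.pos
  have h3 : p ^ n + p ^ a = p ^ a * p ^ c + p ^ c := by
    obtain ⟨x, hx⟩ := Nat.exists_eq_add_of_le h1
    obtain ⟨y, hy⟩ := Nat.exists_eq_add_of_le h2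
    rw [hx, hy] at h
    rw [hx, hy]
    simp only [Nat.add_sub_cancel_left] at h
    rw [h]; ring
  have hpc : 2 ≤ p ^ c := le_trans hp.two_le (by simpa using Nat.pow_le_pow_right hp.pos hc)
  have hpa : 0 < p ^ a := pow_pos hp.pos a
  have hnc : c < n := by
    have : p ^ c < p ^ n := by nlinarith
    exact (Nat.pow_lt_pow_iff_right hp.one_lt).1 this
  have key : ∀ m : ℕ, ¬ p ^ (m + 1) ∣ p ^ m := fun m hm => by
    have := (Nat.pow_dvd_pow_iff_le_right hp.one_lt).1 hm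
    omega
  have hac : c = a := by
    rcases lt_trichotomy c a with hlt | heq | hgt
    · exfalso
      apply key c
      have d1 : p ^ (c + 1) ∣ p ^ n + p ^ a :=
        dvd_add (pow_dvd_pow p (by omega)) (pow_dvd_pow p (by omega))
      rw [h3] at d1
      exact (Nat.dvd_add_right (by rw [← pow_add]; exact pow_dvd_pow p (by omega))).1 d1
    · exact heq
    · exfalso
      apply key a
      have d1 : p ^ (a + 1) ∣ p ^ a * p ^ c + p ^ c :=
        dvd_add (by rw [← pow_add]; exact pow_dvd_pow p (by omega)) (pow_dvd_pow p (by omega))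
      rw [← h3] at d1
      exact (Nat.dvd_add_right (pow_dvd_pow p (by omega))).1 d1
  subst hac
  nlinarith

theorem DefCh.not_comm {F : Type*} [Field F] :
    ¬ IsMulCommutative (Matrix.SpecialLinearGroup (Fin 2) F) := by
  intro hc
  let A : Matrix.SpecialLinearGroup (Fin 2) F := ⟨!![1, 1; 0, 1], by simp [Matrix.det_fin_two]⟩
  let B : Matrix.SpecialLinearGroup (Fin 2) F := ⟨!![1, 0; 1, 1], by simp [Matrix.det_fin_two]⟩
  have h := congrArg (fun M : Matrix.SpecialLinearGroup (Fin 2) F => M.1 0 0) (hc.is_comm.comm A B)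
  simp only [Matrix.SpecialLinearGroup.coe_mul] at h
  simp [A, B, Matrix.mul_apply, Fin.sum_univ_two] at h

theorem DefCh.mem_of_pow {G : Type*} [Group G] {S : Subgroup G} {g : G} {m n : ℕ}
    (hmn : Nat.Coprime m n) (hm : g ^ m ∈ S) (hn : g ^ n ∈ S) : g ∈ S := by
  have h1 : (m : ℤ) * Nat.gcdA m n + n * Nat.gcdB m n = 1 := by
    rw [← Nat.gcd_eq_gcd_ab, hmn]; rfl
  have : g = (g ^ m) ^ Nat.gcdA m n * (g ^ n) ^ Nat.gcdB m n := by
    rw [← zpow_natCast, ← zpow_natCast, ← zpow_mul, ← zpow_mul, ← zpow_add, h1, zpow_one]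
  rw [this]
  exact S.mul_mem (S.zpow_mem hm _) (S.zpow_mem hn _)

theorem Tr.defch (h : Tr p ρ) (S : Subgroup H) [S.Normal] {F : Type} [Field F] [Fintype F]
    (e : S ≃* Matrix.SpecialLinearGroup (Fin 2) F) {a : ℕ} (ha : Fintype.card F = p ^ a)
    (h4 : 4 ≤ Fintype.card F) : Concl p H := by
  have hpp := hp.out
  have ha1 : 1 ≤ a := by
    rcases Nat.eq_zero_or_pos a with h0 | h0
    · subst h0; rw [ha] at h4; simp at h4
    · exact h0
  haveI : CharP F p := charP_of_card_eq_prime_pow ha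
  have hnS : Nat.card (Sylow p S) = p ^ a + 1 := by
    rw [← ha, ← CfsgLib.Classical.sl2_card_sylow_char (F := F) p]
    symm
    refine CfsgLib.PSL2Rec.card_sylow_of_surjective (f := e.toMonoidHom) e.surjective ?_
    intro P
    have : e.toMonoidHom.ker = ⊥ := (MonoidHom.ker_eq_bot_iff _).2 e.injective
    rw [this]; exact bot_le
  obtain ⟨n, hn1, hn⟩ := h.card_V
  obtain ⟨P⟩ : Nonempty (Sylow p S) := inferInstance
  obtain ⟨c, hc1, -, hc⟩ := h.count S P
  rw [hnS, hn] at hc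
  have hV : Nat.card V = (p ^ a) ^ 2 := by rw [hn]; exact DefCh.arith hpp ha1 hc1 hc
  obtain ⟨k, hk⟩ := h.card
  have hS : Nat.card S = p ^ a * ((p ^ a) ^ 2 - 1) := by
    rw [Nat.card_congr e.toEquiv, CfsgLib.SL2.card_SL2, ha]
  have hq2 : 0 < (p ^ a) ^ 2 - 1 := by
    rw [← ha]
    have : 16 ≤ Fintype.card F ^ 2 := by nlinarith
    omega
  obtain ⟨j, hj⟩ : ∃ j, S.index = p ^ j := by
    have h1 := S.card_mul_index
    rw [hS, hk, hV] at h1
    have h2 : p ^ a * S.index = p ^ k := by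
      apply Nat.eq_of_mul_eq_mul_left hq2
      rw [← h1]; ring
    have h3 : S.index ∣ p ^ k := ⟨p ^ a, by rw [← h2]; ring⟩
    obtain ⟨j, -, hj⟩ := (Nat.dvd_prime_pow hpp).1 h3
    exact ⟨j, hj⟩
  have hpow : ∀ g : H, g ^ p ^ j ∈ S := fun g => by rw [← hj]; exact S.pow_index_mem g
  have hnc : ¬ IsMulCommutative S := fun hc => DefCh.not_comm (F := F) ⟨⟨fun x y => by
    obtain ⟨x, rfl⟩ := e.surjective x
    obtain ⟨y, rfl⟩ := e.surjective y
    rw [← map_mul, ← map_mul, hc.is_comm.comm x y]⟩⟩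
  obtain ⟨k', d, hd, hkd, -, hdvd⟩ := h.irr S hnc
  have hpk : p ∣ k' := by
    apply hpp.dvd_of_dvd_pow (n := d)
    rw [← hkd, hn]
    exact dvd_pow_self p (by omega)
  have hk'0 : 1 ≤ k' := by
    rcases Nat.eq_zero_or_pos k' with h0 | h0
    · exfalso
      subst h0
      rw [zero_pow (by omega)] at hkd
      exact Nat.card_pos.ne' hkd
    · exact h0
  have hcop : Nat.Coprime (p ^ j) (Nat.card (centralizer (S : Set H))) := by
    apply Nat.Coprime.pow_left
    rw [hpp.coprime_iff_not_dvd]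
    intro hd'
    have h1 : p ∣ k' - 1 := hd'.trans hdvd
    have h2 : p ∣ k' - (k' - 1) := Nat.dvd_sub hpk h1
    rw [show k' - (k' - 1) = 1 by omega] at h2
    exact hpp.one_lt.ne' (Nat.dvd_one.1 h2)
  have hCS : centralizer (S : Set H) ≤ S := fun g hg => by
    refine DefCh.mem_of_pow hcop (hpow g) ?_
    rw [CfsgLib.PSL2Rec.pow_card_eq_one_of_mem hg]
    exact S.one_mem
  obtain ⟨ψ, hψ⟩ := out_hom S e h4
  rw [sup_eq_left.2 hCS] at hψ
  obtain ⟨φ, -, -, hφ⟩ := Cfsg.Agent.S2602.result (F := F) (p := p) (f := a) ha1 ha (ha ▸ h4)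
  have hker : ∀ g : H, φ (ψ g) = 1 → g ∈ S := fun g hg => by
    have hco : Nat.Coprime (p ^ j) (Nat.card φ.ker) := by
      apply Nat.Coprime.pow_left
      rw [hpp.coprime_iff_not_dvd, hφ]
      intro hd'
      have h1 : p ∣ p ^ a - 1 := hd'.trans (Nat.gcd_dvd_right _ _)
      have h2 : p ∣ p ^ a - (p ^ a - 1) := Nat.dvd_sub (dvd_pow_self p (by omega)) h1
      have h3 : 1 ≤ p ^ a := Nat.one_le_pow _ _ hpp.pos
      rw [show p ^ a - (p ^ a - 1) = 1 by omega] at h2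
      exact hpp.one_lt.ne' (Nat.dvd_one.1 h2)
    refine DefCh.mem_of_pow hco (hpow g) ?_
    rw [← hψ, MonoidHom.mem_ker, map_pow]
    exact CfsgLib.PSL2Rec.pow_card_eq_one_of_mem (H := φ.ker) hg
  left
  refine ⟨F, inferInstance, inferInstance, ⟨a, ha⟩, by omega, S, inferInstance, ⟨e⟩, ⟨j, hj⟩, ?_, ?_⟩
  · haveI : NeZero a := ⟨by omega⟩
    obtain ⟨⟨_, g0, rfl⟩, hg0⟩ := IsCyclic.exists_generator (α := (φ.comp ψ).range)
    refine ⟨g0, eq_top_iff.2 fun g _ => ?_⟩
    obtain ⟨m, hm⟩ := hg0 ⟨(φ.comp ψ) g, g, rfl⟩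
    have hm' : (φ.comp ψ) g0 ^ m = (φ.comp ψ) g := congrArg Subtype.val hm
    have h1 : g * (g0 ^ m)⁻¹ ∈ S := by
      apply hker
      change (φ.comp ψ) (g * (g0 ^ m)⁻¹) = 1
      rw [map_mul, map_inv, map_zpow, hm', mul_inv_cancel]
    have h2 : g = g * (g0 ^ m)⁻¹ * g0 ^ m := by group
    rw [h2]
    exact mul_mem (mem_sup_left h1) (mem_sup_right (zpow_mem_zpowers _ _))
  · ext g
    constructor
    · intro hg
      refine ⟨⟨g, hCS hg⟩, ?_, rfl⟩
      rw [SetLike.mem_coe, mem_center_iff]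
      intro s
      exact Subtype.ext (hg s s.2)
    · rintro ⟨z, hz, rfl⟩ s hs
      exact congrArg Subtype.val (mem_center_iff.1 hz ⟨s, hs⟩)

end CfsgLib.Gag
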