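import Cfsg.Agent.Lib.Gag.Bas
import Cfsg.Agent.Lib.Gag.Z2

/-!
# Gagola's theorem: frames, tori, spread sets (plans/GAG.md, package FRM)
-/

set_option autoImplicit false
set_option linter.unusedSectionVars false
set_option linter.unusedVariables false

namespace CfsgLib.Gag
open Cfsg Subgroup

universe v

section alg
variable {R : Type*} [Ring R]

theorem m2ext {p q r s p' q' r' s' : R} (h1 : p = p') (h2 : q = q') (h3 : r = r') (h4 : s = s') :
    !![p, q; r, s] = !![p', q'; r', s'] := by rw [h1, h2, h3, h4]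

theorem m2inj {p q r s p' q' r' s' : R} (h : !![p, q; r, s] = !![p', q'; r', s']) :
    p = p' ∧ q = q' ∧ r = r' ∧ s = s' :=
  ⟨congrFun (congrFun h 0) 0, congrFun (congrFun h 0) 1, congrFun (congrFun h 1) 0, congrFun (congrFun h 1) 1⟩

theorem m2add (p q r s p' q' r' s' : R) :
    !![p, q; r, s] + !![p', q'; r', s'] = !![p + p', q + q'; r + r', s + s'] := by
  ext i j; fin_cases i <;> fin_cases j <;> rfl

theorem m2mul (p q r s p' q' r' s' : R) : !![p, q; r, s] * !![p', q'; r', s'] =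
    !![p * p' + q * r', p * q' + q * s'; r * p' + s * r', r * q' + s * s'] := Matrix.mul_fin_two ..

theorem m2one : (1 : Matrix (Fin 2) (Fin 2) R) = !![1, 0; 0, 1] := Matrix.one_fin_two

theorem m2zero : (0 : Matrix (Fin 2) (Fin 2) R) = !![0, 0; 0, 0] := by
  ext i j; fin_cases i <;> fin_cases j <;> rfl

theorem m2ex (M : Matrix (Fin 2) (Fin 2) R) : ∃ p q r s, M = !![p, q; r, s] := ⟨_, _, _, _, Matrix.eta_fin_two M⟩

theorem m2two (h2 : ∀ a : R, a + a = 0) (M : Matrix (Fin 2) (Fin 2) R) : M + M = 0 := by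
  ext i j; exact h2 _

/-- the `𝔽₂`-structure of a ring with `a + a = 0` -/
@[reducible] def mod2 (h2 : ∀ a : R, a + a = 0) : Module (ZMod 2) R :=
  AddCommGroup.zmodModule fun a => by rw [two_nsmul, h2]

theorem dM_pow (a b : R) (n : ℕ) : dM a b ^ n = dM (a ^ n) (b ^ n) := by
  induction n with
  | zero => simp [dM_one]
  | succ n ih => rw [pow_succ, ih, dM_mul, pow_succ, pow_succ]

theorem dM_add (a b c d : R) : dM a b + dM c d = dM (a + c) (b + d) := by
  simp only [dM, m2add, add_zero]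

theorem SS.dM {a : R} (h : SS a) : SS (dM a a) :=
  let ⟨k, hk, e⟩ := h
  ⟨k, hk, by rw [dM_pow, e, dM_one]⟩

theorem scalar_of_comm {M : Matrix (Fin 2) (Fin 2) R} (h1 : xM * M = M * xM)
    (h2 : uM 1 * M = M * uM 1) : ∃ a, M = dM a a := by
  obtain ⟨p, q, r, s, rfl⟩ := m2ex M
  simp only [xM, uM, m2mul, mul_one, one_mul, mul_zero, zero_mul, add_zero, zero_add] at h1 h2
  obtain ⟨e1, -, -, -⟩ := m2inj h1
  obtain ⟨e2, e3, -, -⟩ := m2inj h2
  have e4 : r = 0 := by simpa using e2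
  rw [add_comm] at e3
  exact ⟨p, m2ext rfl (e1 ▸ e4) e4 (add_right_cancel e3)⟩

theorem scalar_Rg {S : Type*} [Ring S] (Φ : S →+* Matrix (Fin 2) (Fin 2) R) {c : S} {c₀ : R}
    (hc : Φ c = dM c₀ c₀) :
    (∀ a ∈ Rg c, ∃ a₀ ∈ Rg c₀, Φ a = dM a₀ a₀) ∧ ∀ a₀ ∈ Rg c₀, ∃ a ∈ Rg c, Φ a = dM a₀ a₀ := by
  have z : (0 : Matrix (Fin 2) (Fin 2) R) = dM 0 0 := m2zero
  have ng : ∀ a : R, -dM a a = dM (-a) (-a) := fun a =>
    neg_eq_of_add_eq_zero_right (by rw [dM_add, add_neg_cancel, z])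
  refine ⟨fun a ha => ?_, fun a ha => ?_⟩
  · induction ha using Subring.closure_induction with
    | mem x hx => exact ⟨c₀, self_mem_Rg _, hx ▸ hc⟩
    | zero => exact ⟨0, zero_mem _, by rw [map_zero, z]⟩
    | one => exact ⟨1, one_mem _, by rw [map_one, dM_one]⟩
    | add x y _ _ ih ih' =>
      obtain ⟨a, ha, e⟩ := ih
      obtain ⟨b, hb, e'⟩ := ih'
      exact ⟨_, add_mem ha hb, by rw [map_add, e, e', dM_add]⟩
    | neg x _ ih =>
      obtain ⟨a, ha, e⟩ := ih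
      exact ⟨_, neg_mem ha, by rw [map_neg, e, ng]⟩
    | mul x y _ _ ih ih' =>
      obtain ⟨a, ha, e⟩ := ih
      obtain ⟨b, hb, e'⟩ := ih'
      exact ⟨_, mul_mem ha hb, by rw [map_mul, e, e', dM_mul]⟩
  · induction ha using Subring.closure_induction with
    | mem x hx => exact ⟨c, self_mem_Rg _, hx ▸ hc⟩
    | zero => exact ⟨0, zero_mem _, by rw [map_zero, z]⟩
    | one => exact ⟨1, one_mem _, by rw [map_one, dM_one]⟩
    | add x y _ _ ih ih' =>
      obtain ⟨a, ha, e⟩ := ih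
      obtain ⟨b, hb, e'⟩ := ih'
      exact ⟨_, add_mem ha hb, by rw [map_add, e, e', dM_add]⟩
    | neg x _ ih =>
      obtain ⟨a, ha, e⟩ := ih
      exact ⟨_, neg_mem ha, by rw [map_neg, e, ng]⟩
    | mul x y _ _ ih ih' =>
      obtain ⟨a, ha, e⟩ := ih
      obtain ⟨b, hb, e'⟩ := ih'
      exact ⟨_, mul_mem ha hb, by rw [map_mul, e, e', dM_mul]⟩

theorem xM_mul_inv (h2 : ∀ a : R, a + a = 0) :
    (xM : Matrix (Fin 2) (Fin 2) R) * (xM + 1) = 1 ∧ (xM + 1 : Matrix (Fin 2) (Fin 2) R) * xM = 1 := by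
  constructor <;> simp [xM, m2one, m2add, m2mul, h2]

theorem xM_uM (h2 : ∀ a : R, a + a = 0) : (xM : Matrix (Fin 2) (Fin 2) R) * uM 1 = wM := by
  simp [xM, uM, wM, m2mul, h2]

theorem pM_sq (h2 : ∀ a : R, a + a = 0) {η : R} (h : η * η = 0) : pM η * pM η = 1 := by
  letI := mod2 h2
  rw [pM, m2mul, m2one]
  refine m2ext ?_ ?_ ?_ ?_ <;> apply z2 <;> simp only [mul_add, add_mul, mul_one, one_mul, h] <;>
    match_scalars <;> decide

theorem pM_xM (η : R) : pM η * xM = xM * pM η := by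
  simp only [pM, xM, m2mul]
  refine m2ext ?_ ?_ ?_ ?_ <;> noncomm_ring

theorem pM_dM {η a : R} (h : a * η = η * a) : pM η * dM a a = dM a a * pM η := by
  simp [pM, dM, m2mul, h, mul_add, add_mul]

theorem pM_uM (h2 : ∀ a : R, a + a = 0) {η σ : R} (h : η * η = 0) (hc : σ * η = η * σ) :
    pM η * uM σ * pM η = !![1 + η * σ, σ + η * σ; 0, 1 + η * σ] := by
  letI := mod2 h2
  simp only [pM, uM, m2mul]
  refine m2ext ?_ ?_ ?_ ?_ <;> apply z2 <;> simp only [mul_add, add_mul, mul_one, one_mul, mul_zero, add_zero,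
    mul_assoc, h, hc, assoc_rw h, zero_mul] <;> match_scalars <;> decide

theorem xM_sq (h2 : ∀ a : R, a + a = 0) : (xM : Matrix (Fin 2) (Fin 2) R) * xM = xM + 1 := by
  simp [xM, m2one, m2add, m2mul, h2]

theorem uM_sq (h2 : ∀ a : R, a + a = 0) (a : R) : uM a * uM a = 1 := by rw [uM_mul, h2, uM_zero]

theorem add_add_cancel (h2 : ∀ a : R, a + a = 0) (a b : R) : a + b + a = b := by
  rw [add_right_comm, h2, zero_add]

theorem xM_conj (h2 : ∀ a : R, a + a = 0) (a : R) : xM * uM a * (xM + 1) = !![1, 0; a, 1] := by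
  simp [xM, uM, m2one, m2add, h2, ← add_assoc, add_add_cancel h2]

theorem tor_root [Finite R] (h2 : ∀ a : R, a + a = 0) {Γ : Submonoid (Matrix (Fin 2) (Fin 2) R)}
    (hx : xM ∈ Γ) (ht : uM 1 ∈ Γ) {γ : R} (hγ : uM γ ∈ Γ) (hs : SS γ) :
    ∃ b ∈ Rg γ, ∃ c, b * b = γ ∧ b * c = 1 ∧ c * b = 1 ∧ dM b c ∈ Γ ∧ dM c b ∈ Γ := by
  set u : Matrix (Fin 2) (Fin 2) R := !![1, 0; 1, 1] with hu
  have hu' : u ∈ Γ := hu ▸ xM_conj h2 (1 : R) ▸ mul_mem (mul_mem hx ht) (xM_sq h2 ▸ mul_mem hx hx)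
  have uu : u * u = 1 := by simp [hu, m2one, h2]
  have vv := uM_sq h2 γ
  have e1 : u * uM γ * (uM γ * u) = 1 := by rw [mul_assoc, assoc_rw vv, one_mul, uu]
  have e2 : uM γ * u * (u * uM γ) = 1 := by rw [mul_assoc, assoc_rw uu, one_mul, vv]
  obtain ⟨n, hn, e3⟩ := exists_pow_eq_one (IsUnit.of_mul_eq_one _ e1)
  obtain ⟨k, ⟨m, rfl⟩, e4⟩ := odd_of_tr (m2two h2) e1 e2 (c := dM γ γ)
    (by simp [hu, uM, dM, h2, ← add_assoc, add_comm γ 1, add_add_cancel h2]) hs.dM hn e3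
  have ent : ∀ n i j, ((u * uM γ) ^ n) i j ∈ Rg γ := fun n => by
    have h0 : ∀ i j, (u * uM γ) i j ∈ Rg γ := fun i j => by
      fin_cases i <;> fin_cases j <;> simp [hu, uM, one_mem, self_mem_Rg, add_mem]
    induction n with
    | zero => intro i j; fin_cases i <;> fin_cases j <;> simp [one_mem, zero_mem]
    | succ n ih =>
      exact fun i j => by rw [pow_succ, Matrix.mul_apply]; exact sum_mem fun l _ => mul_mem (ih _ _) (h0 _ _)
  have sw : ∀ n, (u * uM γ) ^ n * u * (u * uM γ) ^ n = u := fun n => by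
    induction n with
    | zero => simp
    | succ n ih =>
      calc _ = u * uM γ * ((u * uM γ) ^ n * u * (u * uM γ) ^ n) * (u * uM γ) := by
            nth_rewrite 1 [pow_succ']; rw [pow_succ]; simp only [mul_assoc]
        _ = u := by rw [ih]; simp only [mul_assoc, assoc_rw uu, one_mul, vv, mul_one]
  have e6 : (u * uM γ) ^ m * (u * uM γ) * (u * uM γ) ^ m = 1 := by
    rw [← pow_succ, ← pow_add, ← e4]; congr 1; ring
  have e7 := sw m
  have e8 := ent m
  have hj : (u * uM γ) ^ m * u ∈ Γ := mul_mem (pow_mem (mul_mem hu' hγ) m) hu'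
  generalize (u * uM γ) ^ m = g at e6 e7 e8 hj
  have jj : g * u * (g * u) = 1 := by rw [← mul_assoc, e7, uu]
  have j1 : g * u * uM γ = u * (g * u) := by
    have a1 : u * (g * u) * g = 1 := by rw [mul_assoc, e7, uu]
    rw [left_inv_eq_right_inv a1 (mul_assoc g _ g ▸ e6), mul_assoc,
      left_inv_eq_right_inv e6 (mul_assoc g _ g ▸ e6)]
  have j2 : g * u * u = uM γ * (g * u) := by
    calc g * u * u = g * u * (u * (g * u)) * (g * u) := by rw [mul_assoc _ (u * _), mul_assoc u, jj, mul_one]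
      _ = _ := by rw [← j1, ← mul_assoc (g * u), jj, one_mul]
  have e9 : (g * u) 0 1 ∈ Rg γ := by simpa [hu, Matrix.mul_apply] using e8 0 1
  generalize g * u = j at hj jj j1 j2 e9
  obtain ⟨p, q, r, s, rfl⟩ := m2ex j
  simp only [hu, uM, m2mul, m2one, mul_one, one_mul, mul_zero, zero_mul, add_zero, zero_add] at jj j1 j2
  obtain rfl : p = 0 := hs.isUnit.mul_left_eq_zero.1 (by simpa using (m2inj j1).2.1)
  obtain rfl : s = 0 := by simpa using (m2inj j2).2.2.1
  have a1 : q * r = 1 := by simpa using (m2inj jj).1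
  have a2 : r * q = 1 := by simpa using (m2inj jj).2.2.2
  have a3 : q = γ * r := by simpa using (m2inj j2).1
  have hw : wM ∈ Γ := xM_uM h2 ▸ mul_mem hx ht
  refine ⟨q, e9, r, by nth_rewrite 1 [a3]; rw [mul_assoc, a2, mul_one], a1, a2, ?_, ?_⟩
  · simpa [wM, dM] using mul_mem hj hw
  · simpa [wM, dM] using mul_mem hw hj

/-- The torus lemma. -/
theorem tor [Finite R] (h2 : ∀ a : R, a + a = 0) {Γ : Submonoid (Matrix (Fin 2) (Fin 2) R)}
    (hx : xM ∈ Γ) (ht : uM 1 ∈ Γ) {β : R} (hβ : uM β ∈ Γ) (hs : SS β) :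
    (∀ σ ∈ Rg β, uM σ ∈ Γ) ∧
      ∀ μ ∈ Rg β, ∀ μ' : R, μ * μ' = 1 → μ' * μ = 1 → dM μ μ' ∈ Γ := by
  have k : ∀ σ ∈ Rg β, uM σ ∈ Γ := by
    obtain ⟨b, hb, c, e1, e2, e3, h1, h1'⟩ := tor_root h2 hx ht hβ hs
    have key : ∀ a ∈ Rg β, ∀ σ ∈ Rg β, uM σ ∈ Γ → uM (a * σ) ∈ Γ := fun a ha => by
      induction ha using Subring.closure_induction with
      | mem x hx =>
        intro σ hσ h
        have := mul_mem (mul_mem h1 h) h1'
        rwa [dM_uM_dM _ _ _ _ _ e2 e3, mul_assoc, Rg_comm hσ hb, ← mul_assoc, e1, ← hx] at this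
      | zero => exact fun σ _ _ => by rw [zero_mul, uM_zero]; exact one_mem _
      | one => exact fun σ _ h => by rwa [one_mul]
      | add x y _ _ ih ih' => exact fun σ hσ h => by rw [add_mul, ← uM_mul]; exact mul_mem (ih σ hσ h) (ih' σ hσ h)
      | neg x _ ih => exact fun σ hσ h => by rw [← eq_of_add h2 (add_neg_cancel x)]; exact ih σ hσ h
      | mul x y _ hy ih ih' => exact fun σ hσ h => by rw [mul_assoc]; exact ih _ (mul_mem hy hσ) (ih' σ hσ h)
    exact fun σ hσ => mul_one σ ▸ key σ hσ 1 (one_mem _) ht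
  refine ⟨k, fun μ hμ μ' h1 h1' => ?_⟩
  have hu : IsUnit μ := IsUnit.of_mul_eq_one _ h1
  obtain ⟨b, hb, c, e1, e2, e3, h3, -⟩ := tor_root h2 hx ht (k _ (mul_mem hμ hμ))
    (hs.of_unit h2 (mul_mem hμ hμ) (hu.mul hu))
  have hb' := Rg_le (mul_mem hμ hμ) hb
  obtain rfl : b = μ := eq_of_add h2 (hs.eq_zero h2 (add_mem hb' hμ) ⟨2, by
    rw [sq, add_mul, mul_add, mul_add, e1, Rg_comm hb' hμ, add_assoc, ← add_assoc (μ * b), h2, zero_add, h2]⟩)
  rwa [← left_inv_eq_right_inv e3 h1]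

/-- An invariant additive set of matrices without elements `(0 θ; 0 0)` is centralised by `x`. -/
theorem bc (h2 : ∀ a : R, a + a = 0) {𝓔 : AddSubgroup (Matrix (Fin 2) (Fin 2) R)} {μ μ' : R}
    (h1 : μ * μ' = 1) (h1' : μ' * μ = 1) (hu : IsUnit (1 + μ * μ))
    (it : ∀ D ∈ 𝓔, uM 1 * D * uM 1 ∈ 𝓔) (ix : ∀ D ∈ 𝓔, xM * D * (xM + 1) ∈ 𝓔)
    (iu : ∀ D ∈ 𝓔, uM μ * D * uM μ ∈ 𝓔) (ih : ∀ D ∈ 𝓔, dM μ μ' * D * dM μ' μ ∈ 𝓔)
    (hK : ∀ θ : R, !![0, θ; 0, 0] ∈ 𝓔 → θ = 0) : ∀ D ∈ 𝓔, xM * D = D * xM := by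
  letI := mod2 h2
  have key : ∀ p q r s : R, !![p, q; r, s] ∈ 𝓔 → p + s + r = 0 := fun p q r s hD => by
    have d1 := add_mem hD (it _ hD)
    have d3 := add_mem (ix _ d1) (ix _ (ix _ d1))
    have e : xM * (!![p, q; r, s] + uM 1 * !![p, q; r, s] * uM 1) * (xM + 1) +
        xM * (xM * (!![p, q; r, s] + uM 1 * !![p, q; r, s] * uM 1) * (xM + 1)) * (xM + 1) =
          !![p + s + r, p + s + r; 0, p + s + r] := by
      simp only [xM, uM, m2one, m2add, m2mul]
      refine m2ext ?_ ?_ ?_ ?_ <;> apply z2 <;> simp only [mul_add, add_mul, mul_one, one_mul, mul_zero, zero_mul] <;>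
        match_scalars <;> decide
    rw [e] at d3
    generalize p + s + r = θ at d3
    have e1 := hK (θ * μ + μ * θ) (by
      convert add_mem d3 (iu _ d3) using 1
      simp only [uM, m2add, m2mul]
      refine m2ext ?_ ?_ ?_ ?_ <;> apply z2 <;> simp only [mul_add, add_mul, mul_one, one_mul, mul_zero, zero_mul] <;>
        match_scalars <;> decide)
    have e2 := eq_of_add h2 e1
    refine hu.mul_right_eq_zero.1 (hK _ ?_)
    convert add_mem d3 (ih _ d3) using 1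
    simp only [dM, m2add, m2mul, mul_zero, zero_mul, add_zero, zero_add]
    refine m2ext ?_ ?_ rfl ?_
    · rw [← e2, mul_assoc, h1, mul_one, h2]
    · rw [add_mul, one_mul, mul_assoc, mul_assoc, e2]
    · rw [mul_assoc, e2, assoc_rw h1', one_mul, h2]
  intro D hD
  obtain ⟨p, q, r, s, rfl⟩ := m2ex D
  have e1 := key _ _ _ _ hD
  have e2 := key s r q p (by
    convert ix _ (it _ hD) using 1
    simp only [xM, uM, m2one, m2add, m2mul]
    refine m2ext ?_ ?_ ?_ ?_ <;> apply z2 <;> simp only [mul_add, add_mul, mul_one, one_mul, mul_zero, zero_mul] <;>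
      match_scalars <;> decide)
  rw [← eq_of_add h2 e1, ← eq_of_add h2 e2]
  simp only [xM, m2mul]
  refine m2ext ?_ ?_ ?_ ?_ <;> apply z2 <;> simp only [mul_add, add_mul, mul_one, one_mul, mul_zero, zero_mul] <;>
    match_scalars <;> decide

end alg

theorem exists_frame {V : Type v} [AddCommGroup V] [Module (ZMod 2) V] [Finite V] {X T : E2 V}
    (hX : X * X + X + 1 = 0) (hT : T * T = 1) (hTX : T * X = (X + 1) * T) :
    ∃ (W : Type v) (_ : AddCommGroup W) (_ : Module (ZMod 2) W) (_ : Finite W)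
      (e : V ≃ₗ[ZMod 2] (Fin 2 → W)) (Φ : E2 V ≃+* Mx W),
      (∀ f v, e (f v) = toE (Φ f) (e v)) ∧ Φ X = xM ∧ Φ T = uM 1 := by
  have hX' : X * X = X + 1 := eq_of_add two_eq (add_assoc _ X 1 ▸ hX)
  let W := LinearMap.ker (T + 1)
  have hW : ∀ w : W, T w = w := fun w => by
    have h : T w + w = 0 := w.2
    rw [← add_zero (T w), ← vtwo (w : V), ← add_assoc, h, zero_add]
  let f : (Fin 2 → W) →ₗ[ZMod 2] V := W.subtype ∘ₗ LinearMap.proj 0 + X ∘ₗ W.subtype ∘ₗ LinearMap.proj 1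
  have hf : ∀ w, f w = w 0 + X (w 1) := fun _ => rfl
  have tx : ∀ w : W, T (X w) = X w + w := fun w => by
    rw [← Module.End.mul_apply, hTX, Module.End.mul_apply, hW]; rfl
  have xx : ∀ v, X (X v) = X v + v := fun v => by rw [← Module.End.mul_apply, hX']; rfl
  have mem : ∀ v, (T + 1) v ∈ W := fun v => by
    rw [LinearMap.mem_ker, ← Module.End.mul_apply, add_mul, mul_add, mul_add, hT, mul_one, one_mul, one_mul,
      add_comm 1 T, two_eq]; rfl
  have bij : Function.Bijective f := by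
    refine ⟨(injective_iff_map_eq_zero f).2 fun w h => ?_, fun v => ⟨![⟨_, mem ((X * (T + 1) * (X + 1)) v)⟩,
      ⟨_, mem (((X + 1) * (T + 1)) v)⟩], ?_⟩⟩
    · have h1 := congrArg T h
      rw [hf] at h
      rw [hf, map_add, hW, tx, map_zero, ← add_assoc, h, zero_add] at h1
      rw [h1, map_zero, add_zero] at h
      exact funext (Fin.forall_fin_two.2 ⟨Subtype.ext h, Subtype.ext h1⟩)
    · have e : (T + 1) * (X * (T + 1) * (X + 1)) + X * ((T + 1) * ((X + 1) * (T + 1))) = 1 := by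
        apply z2
        simp only [mul_add, add_mul, mul_one, one_mul, mul_assoc, hX', assoc_rw hX', hT, assoc_rw hT, hTX,
          assoc_rw hTX]
        match_scalars <;> decide
      exact congrArg (fun g : E2 V => g v) e
  let e := (LinearEquiv.ofBijective f bij).symm
  have he : ∀ g v, e (g v) = toE (toE.symm (e.conjRingEquiv g)) (e v) := fun g v => by
    rw [RingEquiv.apply_symm_apply]; simp
  have key : ∀ (g : E2 V) (M : Mx W), (∀ w, g (f w) = f (toE M w)) → toE.symm (e.conjRingEquiv g) = M := fun g M h =>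
    toE.symm_apply_eq.2 (LinearMap.ext fun w => e.symm.injective (by
      have h' : g (e.symm w) = e.symm (toE M w) := h w
      simpa using h'))
  refine ⟨W, inferInstance, inferInstance, inferInstance, e, e.conjRingEquiv.trans toE.symm, he,
    key _ _ fun w => ?_, key _ _ fun w => ?_⟩
  · simp [hf, toE_apply, xM, xx]; abel
  · simp [hf, toE_apply, uM, tx, hW]; abel

variable {G : Type*} [Group G] [Finite G]

theorem Hyp.exists_fr {V : Type v} [AddCommGroup V] [Module (ZMod 2) V] [Finite V]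
    {ρ : G →* E2 V} (h : Hyp ρ) {x t : G} (hx : orderOf x = 3) (ht : t * t = 1)
    (hi : t * x * t⁻¹ = x⁻¹) :
    ∃ (W : Type v) (_ : AddCommGroup W) (_ : Module (ZMod 2) W) (_ : Finite W)
      (Φ : E2 V ≃+* Mx W), Fr (Φ.toMonoidHom.comp ρ) x t ∧
        ∀ s, Aq (rep (Φ.toMonoidHom.comp ρ)) s = Aq ρ s := by
  have hX := h.x3 hx
  have x3 : x * x * x = 1 := by rw [← pow_three', ← hx, pow_orderOf_eq_one]
  have e : ρ x⁻¹ = ρ x + 1 := by
    rw [← eq_inv_of_mul_eq_one_left x3, map_mul]; exact eq_of_add two_eq (add_assoc _ (ρ x) 1 ▸ hX)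
  obtain ⟨W, _, _, _, e, Φ, he, h1, h2⟩ := exists_frame hX (T := ρ t) (by rw [← map_mul, ht, map_one])
    (by rw [← e, ← map_mul, ← map_mul, ← hi, inv_mul_cancel_right])
  exact ⟨W, _, _, ‹_›, Φ, ⟨h.equiv e fun g v => he _ v, h1, h2⟩, Aq_equiv e fun g v => he _ v⟩

variable {W : Type*} [AddCommGroup W] [Module (ZMod 2) W] [Finite W] {φ : G →* Mx W} {x t : G}

instance finite_E2 : Finite (E2 W) := Finite.of_injective _ DFunLike.coe_injective

theorem Fr.inj (hF : Fr φ x t) : Function.Injective φ := fun _ _ e => hF.hyp.inj (congrArg toE e)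

theorem Fr.one_ne (hF : Fr φ x t) : (1 : E2 W) ≠ 0 := fun e => by
  obtain ⟨v, hv⟩ := hF.hyp.nt
  exact hv (funext fun i => congrArg (fun g : E2 W => g (v i)) e)

theorem Fr.ord (hF : Fr φ x t) : orderOf x = 3 := by
  haveI : Fact (Nat.Prime 3) := ⟨by norm_num⟩
  refine orderOf_eq_prime (hF.inj ?_) fun e => hF.one_ne ?_
  · rw [map_pow, hF.hx, pow_succ, sq, xM_sq two_eq, (xM_mul_inv two_eq).2, map_one]
  · have := hF.hx
    rw [e, map_one, m2one] at this
    exact (m2inj this).1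

theorem Fr.tt (hF : Fr φ x t) : t * t = 1 := hF.inj (by rw [map_mul, hF.ht, uM_sq two_eq, map_one])

theorem Fr.t_ne (hF : Fr φ x t) : t ≠ 1 := fun e => hF.one_ne (uM_inj (by rw [← hF.ht, e, map_one, uM_zero]))

theorem Fr.x_inv (hF : Fr φ x t) : φ x⁻¹ = xM + 1 :=   left_inv_eq_right_inv (by rw [← hF.hx, ← map_mul, inv_mul_cancel, map_one]) (xM_mul_inv two_eq).1

theorem quadM (h : Hyp (rep φ)) {s a b : G} (hs : s * s = 1) (hs1 : s ≠ 1) (ha : a ∈ Aq (rep φ) s)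
    (hb : b ∈ Aq (rep φ) s) : (φ a + 1) * (φ b + 1) = 0 :=
  toE.injective (by rw [map_mul, map_add, map_add, map_one, map_zero]; exact h.Aq_quad hs hs1 ha hb)

theorem end_eq {a b : E2 W} (h : ∀ w, a w = b w) : a = b := LinearMap.ext h

theorem Fr.memA (hF : Fr φ x t) {g : G} : g ∈ Aq (rep φ) t ↔ ∃ α, φ g = uM α := by
  refine ⟨fun hg => ?_, fun ⟨α, e⟩ v hv => ?_⟩
  · have q := quadM hF.hyp hF.tt hF.t_ne (self_mem_Aq t) hg
    have fx : ∀ w : W, toE (φ g) ![w, 0] = ![w, 0] := fun w => hg _ (funext (Fin.forall_fin_two.2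
      ⟨by simp [rep_apply, toE_apply, hF.ht, uM], by simp [rep_apply, toE_apply, hF.ht, uM]⟩))
    obtain ⟨p, θ, r, s, e⟩ := m2ex (φ g)
    rw [e] at q fx
    have e1 : p = 1 := end_eq fun w => by simpa [toE_apply] using congrFun (fx w) 0
    have e2 : r = 0 := end_eq fun w => by simpa [toE_apply] using congrFun (fx w) 1
    simp only [hF.ht, uM, m2one, m2add, m2mul, m2zero, two_eq, zero_mul, add_zero, one_mul, zero_add] at q
    exact ⟨θ, by rw [e, e1, e2, eq_of_add two_eq (m2inj q).2.1]; rfl⟩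
  · have h1 : v 1 = 0 := by simpa [rep_apply, toE_apply, hF.ht, uM] using congrFun hv 0
    exact funext (Fin.forall_fin_two.2 ⟨by simp [rep_apply, toE_apply, e, uM, h1],
      by simp [rep_apply, toE_apply, e, uM]⟩)

theorem InA.zero : InA φ 0 := ⟨1, by rw [map_one, uM_zero]⟩

theorem Fr.inA_one (hF : Fr φ x t) : InA φ 1 := ⟨t, hF.ht⟩

theorem InA.add {α β : E2 W} (ha : InA φ α) (hb : InA φ β) : InA φ (α + β) :=   let ⟨a, ha⟩ := ha
  let ⟨b, hb⟩ := hb
  ⟨a * b, by rw [map_mul, ha, hb, uM_mul]⟩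

theorem Fr.unit (hF : Fr φ x t) {α : E2 W} (ha : InA φ α) (h0 : α ≠ 0) : IsUnit α := by
  obtain ⟨g, e⟩ := ha
  have e1 := hF.hyp.Aq_eq hF.tt hF.t_ne (hF.memA.2 ⟨α, e⟩) fun e' => h0 (uM_inj (by rw [← e, e', map_one, uM_zero]))
  refine (Module.End.isUnit_iff α).2 (Finite.injective_iff_bijective.1 ((injective_iff_map_eq_zero α).2 fun w hw => ?_))
  have := (e1.ge (self_mem_Aq t)) ![0, w] (funext (Fin.forall_fin_two.2
    ⟨by simp [rep_apply, toE_apply, e, uM, hw], by simp [rep_apply, toE_apply, e, uM]⟩))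
  simpa [rep_apply, toE_apply, hF.ht, uM] using congrFun this 0

theorem Fr.cent (hF : Fr φ x t) {g : G} (hg : g * t = t * g) :
    ∃ m θ : E2 W, IsUnit m ∧ φ g = !![m, θ; 0, m] := by
  have key : ∀ {g : G}, g * t = t * g → ∃ m θ : E2 W, φ g = !![m, θ; 0, m] := fun {g} hg => by
    have e := congrArg φ hg
    obtain ⟨p, q, r, s, e1⟩ := m2ex (φ g)
    simp only [map_mul, hF.ht, e1, uM, m2mul, mul_one, one_mul, mul_zero, zero_mul, add_zero, zero_add] at e
    obtain ⟨e2, e3, -, -⟩ := m2inj e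
    rw [add_comm] at e3
    exact ⟨p, q, e1.trans (m2ext rfl rfl (by simpa using e2) (add_left_cancel e3).symm)⟩
  obtain ⟨m, θ, e⟩ := key hg
  obtain ⟨m', θ', e'⟩ := key (show Commute g t from hg).inv_left.eq
  have e1 : φ g * φ g⁻¹ = 1 := by rw [← map_mul, mul_inv_cancel, map_one]
  rw [e, e', m2mul, m2one] at e1
  exact ⟨m, θ, IsUnit.of_mul_eq_one m' (by simpa using (m2inj e1).1), e⟩

theorem Fr.conjA (hF : Fr φ x t) {g : G} {m m' θ α : E2 W} (hg : φ g = !![m, θ; 0, m])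
    (h1 : m * m' = 1) (h1' : m' * m = 1) (ha : InA φ α) : InA φ (m * α * m') := by
  obtain ⟨a, ha⟩ := ha
  refine ⟨g * a * g⁻¹, (IsUnit.map φ (Group.isUnit g)).mul_right_cancel ?_⟩
  rw [← map_mul, inv_mul_cancel_right, map_mul, hg, ha]
  simp [uM, mul_assoc, h1', add_comm]

theorem Fr.torA (hF : Fr φ x t) {β : E2 W} (hβ : InA φ β) (hs : SS β) :
    (∀ σ ∈ Rg β, InA φ σ) ∧
      ∀ μ ∈ Rg β, ∀ μ' : E2 W, μ * μ' = 1 → μ' * μ = 1 → ∃ g, φ g = dM μ μ' :=   tor two_eq (Γ := MonoidHom.mrange φ) ⟨x, hF.hx⟩ ⟨t, hF.ht⟩ hβ hs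

/-- `x` centralises `A_b` for a scalar involution `b` commuting with a good element. -/
theorem Fr.cent_Aq (hF : Fr φ x t) {β m : E2 W} (hβ : InA φ β) (h1 : β ≠ 1) (hs : SS β) {b : G}
    (hb : b * b = 1) (hb1 : b ≠ 1) (hm : φ b = dM m m) (hc : m * β = β * m) :
    ∀ b' ∈ Aq (rep φ) b, x * b' = b' * x := by
  let 𝓔 : AddSubgroup (Mx W) :=
    { carrier := {D | ∃ a ∈ Aq (rep φ) b, D = φ a + 1}
      zero_mem' := ⟨1, one_mem _, by rw [map_one, mtwo]⟩
      add_mem' := by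
        rintro _ _ ⟨a, ha, rfl⟩ ⟨a', ha', rfl⟩
        refine ⟨a * a', mul_mem ha ha', ?_⟩
        rw [← add_zero (φ a + 1 + _), ← quadM hF.hyp hb hb1 ha ha', map_mul]
        apply z2
        simp only [mul_add, add_mul, mul_one, one_mul]
        match_scalars <;> decide
      neg_mem' := fun {D} hD => by rwa [← eq_of_add mtwo (add_neg_cancel D)] }
  have cj : ∀ {g : G} {M M' : Mx W}, φ g = M → M * M' = 1 → dM m m * M = M * dM m m →
      ∀ D ∈ 𝓔, M * D * M' ∈ 𝓔 := by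
    rintro g M M' e e' hc _ ⟨a, ha, rfl⟩
    have e2 : φ g⁻¹ = M' := left_inv_eq_right_inv (by rw [← e, ← map_mul, inv_mul_cancel, map_one]) e'
    exact ⟨_, conj_mem_Aq (g := g) (hF.inj (by rw [map_mul, map_mul, e, hm, hc])) ha,
      by rw [map_mul, map_mul, e, e2, mul_add, add_mul, mul_one, e']⟩
  obtain ⟨β', hβ', e1, e2, -⟩ := hs.inv
  obtain ⟨g, hg⟩ := (hF.torA hβ hs).2 β (self_mem_Rg β) β' e1 e2
  obtain ⟨u, hu⟩ := hβ
  have hu1 : IsUnit (1 + β) := hF.unit (hF.inA_one.add ⟨u, hu⟩) fun e => h1 (eq_of_add two_eq e).symm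
  have key := bc two_eq (𝓔 := 𝓔) e1 e2 (by
      have := hu1.mul hu1
      rwa [add_mul, mul_add, mul_add, one_mul, one_mul, mul_one, add_assoc, ← add_assoc β, two_eq, zero_add] at this)
    (cj hF.ht (uM_sq two_eq 1) (by simp [dM, uM])) (cj hF.hx (xM_mul_inv two_eq).1 (by simp [dM, xM]))
    (cj hu (uM_sq two_eq β) (by simp [dM, uM, hc])) (cj hg (by rw [dM_mul, e1, e2, dM_one])
      (by rw [dM_mul, dM_mul, hc, comm_Rg hc hβ'])) (by
      rintro θ ⟨a, ha, e⟩
      by_contra h0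
      have e3 : φ a = uM θ := by
        rw [← add_zero (φ a), ← mtwo 1, ← add_assoc, ← e]; simp [uM, m2one]
      have a1 : a ≠ 1 := fun e' => h0 (uM_inj (by rw [← e3, e', map_one, uM_zero]))
      obtain ⟨α, e4⟩ := hF.memA.1 (((hF.hyp.Aq_eq hb hb1 ha a1).symm.trans
        (hF.hyp.Aq_eq hF.tt hF.t_ne (hF.memA.2 ⟨θ, e3⟩) a1)).le (self_mem_Aq b))
      exact hb1 (hF.inj (by rw [hm, (m2inj (hm.symm.trans e4)).1, dM_one, map_one])))
  refine fun b' hb' => hF.inj ?_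
  have := key _ ⟨b', hb', rfl⟩
  rw [mul_add, add_mul, mul_one, one_mul] at this
  rw [map_mul, map_mul, hF.hx, add_right_cancel this]

/-- Change of frame by `1 + η x`. -/
def conjP (φ : G →* Mx W) {η : E2 W} (h : η * η = 0) : G →* Mx W where
  toFun g := pM η * φ g * pM η
  map_one' := by rw [map_one, mul_one, pM_sq two_eq h]
  map_mul' a b := by
    rw [map_mul]
    calc pM η * (φ a * φ b) * pM η = pM η * φ a * (pM η * pM η) * φ b * pM η := by
          rw [pM_sq two_eq h]; noncomm_ring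
      _ = _ := by noncomm_ring

theorem conjP_apply {η : E2 W} (h : η * η = 0) (g : G) : conjP φ h g = pM η * φ g * pM η := rfl

/-- the change of basis `1 + η x` -/
def eqP {η : E2 W} (h : η * η = 0) : (Fin 2 → W) ≃ₗ[ZMod 2] (Fin 2 → W) :=
  LinearEquiv.ofLinear (toE (pM η)) (toE (pM η))
    (by rw [← Module.End.mul_eq_comp, ← map_mul, pM_sq two_eq h, map_one]; rfl)
    (by rw [← Module.End.mul_eq_comp, ← map_mul, pM_sq two_eq h, map_one]; rfl)

theorem eqP_rep {η : E2 W} (h : η * η = 0) (g : G) (v : Fin 2 → W) :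
    eqP h (rep φ g v) = rep (conjP φ h) g (eqP h v) := by
  change (toE (pM η) * toE (φ g)) v = (toE (pM η * φ g * pM η) * toE (pM η)) v
  rw [← map_mul, ← map_mul, mul_assoc, pM_sq two_eq h, mul_one]

theorem Aq_conjP {η : E2 W} (h : η * η = 0) (s : G) : Aq (rep (conjP φ h)) s = Aq (rep φ) s := Aq_equiv (eqP h) (eqP_rep h) s

theorem Fr.frP (hF : Fr φ x t) {η : E2 W} (h : η * η = 0) {z : G}
    (hz : φ z = dM (1 + η) (1 + η)) : Fr (conjP φ h) x (z * t) := by
  refine ⟨hF.hyp.equiv (eqP h) (eqP_rep h), ?_, ?_⟩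
  · rw [conjP_apply, hF.hx, pM_xM, mul_assoc, pM_sq two_eq h, mul_one]
  · have e : (1 + η) * (1 + η) = 1 := by
      rw [add_mul, mul_add, mul_add, h, one_mul, one_mul, mul_one, add_zero, add_assoc, two_eq, add_zero]
    rw [conjP_apply, map_mul, hz, hF.ht, ← mul_assoc, pM_dM (by rw [add_mul, mul_add, one_mul, mul_one]),
      mul_assoc, mul_assoc, ← mul_assoc (pM η), pM_uM two_eq h (by simp)]
    simp [dM, uM, e]

/-- The data attached to `α ∈ 𝒜 \ {0, 1}` by the two-generator theorem. -/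
structure TG (φ : G →* Mx W) (α s η : E2 W) : Prop where
  s_mem : s ∈ Rg α
  η_mem : η ∈ Rg α
  ss : SS s
  un : IsUnit (s + s * s)
  sq : η * η = 0
  eq : α = s + (s + s * s) * η
  z : ∃ z, φ z = dM (1 + η) (1 + η)
  u : ∃ g, φ g = pM η * uM s * pM η

end CfsgLib.Gag
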