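import Cfsg.Agent.Lib.Gag.Frm

/-!
# Gagola's theorem: two elements of order three, semisimple case (plans/GAG.md, package SS0)
-/

set_option autoImplicit false
set_option linter.unusedSectionVars false
set_option linter.unusedVariables false

namespace CfsgLib.Gag
open Cfsg Subgroup

theorem ss0M {R : Type*} [Ring R] [Finite R] (h2 : ∀ a : R, a + a = 0) {Γ : Submonoid (Matrix (Fin 2) (Fin 2) R)}
    {κ d : R} (hx : xM ∈ Γ) (hy : uM κ * xM * uM κ ∈ Γ) (hu : ∀ γ ∈ Γ, uM 1 * γ * uM 1 ∈ Γ) (hs : SS κ)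
    (hd : d ∈ Rg κ) (hd1 : (κ * κ + 1) * d = 1) : ∀ σ ∈ Rg κ, uM σ ∈ Γ := by
  have uu := uM_sq h2 (1 : R)
  have kk := uM_sq h2 κ
  let Δ : Submonoid (Matrix (Fin 2) (Fin 2) R) :=
    { carrier := {g | g ∈ Γ ∨ g * uM 1 ∈ Γ}
      one_mem' := Or.inl (one_mem _)
      mul_mem' := by
        rintro a b (ha | ha) (hb | hb)
        · exact Or.inl (mul_mem ha hb)
        · exact Or.inr (mul_assoc a b _ ▸ mul_mem ha hb)
        · exact Or.inr (by simpa only [mul_assoc, assoc_rw uu, one_mul] using mul_mem ha (hu b hb))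
        · exact Or.inl (by simpa only [mul_assoc, assoc_rw uu, one_mul, uu, mul_one] using mul_mem ha (hu _ hb)) }
  have sq : ∀ g ∈ Δ, g * g ∈ Γ := by
    rintro g (h | h)
    · exact mul_mem h h
    · simpa only [mul_assoc, assoc_rw uu, one_mul, uu, mul_one] using mul_mem h (hu _ h)
  have x1 : xM ∈ Δ := Or.inl hx
  have u1 : uM 1 ∈ Δ := Or.inr (uu ▸ one_mem _)
  have y1 : uM κ * xM * uM κ ∈ Δ := Or.inl hy
  set u : Matrix (Fin 2) (Fin 2) R := xM * uM 1 * (xM + 1) with hu'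
  have t1 : u ∈ Δ := mul_mem (mul_mem x1 u1) (xM_sq h2 ▸ mul_mem x1 x1)
  have tt : u * u = 1 := by rw [hu', xM_conj h2]; simp [m2one, h2]
  have e1 : u * uM κ * (uM κ * u) = 1 := by rw [mul_assoc, assoc_rw kk, one_mul, tt]
  have e2 : uM κ * u * (u * uM κ) = 1 := by rw [mul_assoc, assoc_rw tt, one_mul, kk]
  obtain ⟨n, hn, e3⟩ := exists_pow_eq_one (IsUnit.of_mul_eq_one _ e1)
  have e4 := odd_of_tr (m2two h2) e1 e2 (c := dM κ κ)
    (by rw [hu', xM_conj h2]; simp [uM, dM, h2, ← add_assoc, add_comm κ 1, add_add_cancel h2]) hs.dM hn e3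
  have e5 : ∀ z, uM κ * (uM 1 * (uM κ * z)) = uM 1 * z := fun z => by
    rw [← mul_assoc, ← mul_assoc, uM_mul, uM_mul, add_add_cancel h2]
  have k1 : uM κ ∈ Δ := by
    have := mul_mem t1 (e4.mem_of_sq (Γ := Δ) (by
      convert mul_mem t1 (mul_mem (mul_mem y1 u1) (mul_mem y1 y1)) using 1
      rw [hu', ← xM_sq h2]
      simp only [mul_assoc, assoc_rw kk, one_mul, e5]))
    rwa [assoc_rw tt, one_mul] at this
  obtain ⟨T1, T2⟩ := tor h2 x1 u1 k1 hs
  obtain ⟨κ', hκ', a1, a2, s'⟩ := hs.inv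
  have b1 := sq _ (T2 κ (self_mem_Rg κ) κ' a1 a2)
  have b2 := sq _ (T2 κ' hκ' κ a2 a1)
  rw [dM_mul] at b1 b2
  have nm : ∀ σ ∈ Rg κ, ∀ γ ∈ Γ, uM σ * γ * uM σ ∈ Γ := fun σ hσ γ hγ => by
    rcases T1 σ hσ with h | h
    · exact mul_mem (mul_mem h hγ) h
    · have h3 := mul_mem (mul_mem h (hu γ hγ)) (show uM 1 * uM σ ∈ Γ by rwa [uM_mul, add_comm, ← uM_mul])
      simpa only [mul_assoc, assoc_rw uu, one_mul] using h3
  intro σ hσ
  have hτ := mul_mem (mul_mem hd hd) hσ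
  have := mul_mem b1 (nm _ hτ _ b2)
  rw [← mul_assoc, ← mul_assoc, dM_uM_dM _ _ _ _ _ (by rw [mul_assoc, assoc_rw a1, one_mul, a1])
    (by rw [mul_assoc, assoc_rw a2, one_mul, a2]), uM_mul] at this
  have hk := mul_mem (self_mem_Rg κ) (self_mem_Rg κ)
  convert this using 2
  calc σ = (κ * κ + 1) * ((κ * κ + 1) * d * d) * σ := by rw [hd1, one_mul, hd1, one_mul]
    _ = κ * κ * (κ * κ * (d * d * σ)) + (κ * κ * (d * d * σ) + κ * κ * (d * d * σ)) + d * d * σ := by noncomm_ring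
    _ = _ := by rw [h2, add_zero, mul_assoc (κ * κ) (d * d * σ), Rg_comm hτ hk]

theorem ss0C {R : Type*} [Ring R] [Finite R] (h2 : ∀ a : R, a + a = 0) {κ : R} (hs : SS κ)
    (hu : IsUnit (κ * κ + 1)) : ∀ σ ∈ Rg κ, uM σ ∈ Submonoid.closure {xM, uM κ * xM * uM κ} := by
  have hk := add_mem (mul_mem (self_mem_Rg κ) (self_mem_Rg κ)) (one_mem _)
  obtain ⟨d, hd, d1, -⟩ := (hs.of_unit h2 hk hu).inv
  have mX : xM ∈ Submonoid.closure {xM, uM κ * xM * uM κ} := Submonoid.subset_closure (by simp)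
  have mY : uM κ * xM * uM κ ∈ Submonoid.closure {xM, uM κ * xM * uM κ} := Submonoid.subset_closure (by simp)
  have uu := uM_sq h2 (1 : R)
  have e : uM (1 : R) * xM * uM 1 = xM * xM := by simp [xM, uM, h2]
  refine ss0M h2 mX mY (fun γ hγ => ?_) hs (Rg_le hk hd) d1
  induction hγ using Submonoid.closure_induction with
  | mem x hx =>
    rcases hx with rfl | rfl
    · exact e ▸ mul_mem mX mX
    · convert mul_mem mY mY using 1
      calc _ = uM 1 * uM κ * xM * (uM κ * uM 1) := by simp only [mul_assoc]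
        _ = uM κ * (uM 1 * xM * uM 1) * uM κ := by
          rw [uM_mul 1, uM_mul κ, add_comm 1 κ]
          nth_rewrite 2 [add_comm κ 1]
          rw [← uM_mul, ← uM_mul]; simp only [mul_assoc]
        _ = _ := by rw [e]; simp only [mul_assoc, assoc_rw (uM_sq h2 κ), one_mul]
  | one => rw [mul_one, uu]; exact one_mem _
  | mul x y _ _ ih ih' => simpa only [mul_assoc, assoc_rw uu, one_mul] using mul_mem ih ih'

theorem ss0 {V : Type*} [AddCommGroup V] [Module (ZMod 2) V] [Finite V] {X Y c : E2 V}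
    (hX : X * X + X + 1 = 0) (hY : Y * Y + Y + 1 = 0) (hc : c = (X + Y) * (X + Y)) (hs : SS c)
    (hu : IsUnit (c + 1)) :
    ∃ T r : E2 V, r ∈ Rg c ∧ IsUnit r ∧ r * r = c + c * c ∧ r * T = X + Y + c ∧ T * T = 1 ∧
      T * X = (X + 1) * T ∧ ∀ σ ∈ Rg c, 1 + σ * (T + 1) ∈ Submonoid.closure {X, Y} := by
  have hX' : X * X = X + 1 := eq_of_add two_eq (add_assoc _ X 1 ▸ hX)
  have hY' : Y * Y = Y + 1 := eq_of_add two_eq (add_assoc _ Y 1 ▸ hY)
  have cX : X * c = c * X := by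
    rw [hc]; apply z2
    simp only [mul_add, add_mul, mul_one, one_mul, mul_assoc, hX', assoc_rw hX', hY', assoc_rw hY']
    match_scalars <;> decide
  have cY : Y * c = c * Y := by
    rw [hc]; apply z2
    simp only [mul_add, add_mul, mul_one, one_mul, mul_assoc, hX', assoc_rw hX', hY', assoc_rw hY']
    match_scalars <;> decide
  have eX : (X + Y + c) * X = (X + 1) * (X + Y + c) := by
    rw [hc]; apply z2
    simp only [mul_add, add_mul, mul_one, one_mul, mul_assoc, hX', assoc_rw hX', hY', assoc_rw hY']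
    match_scalars <;> decide
  have eY : (X + Y + c) * Y = (Y + 1) * (X + Y + c) := by
    rw [hc]; apply z2
    simp only [mul_add, add_mul, mul_one, one_mul, mul_assoc, hX', assoc_rw hX', hY', assoc_rw hY']
    match_scalars <;> decide
  have cD : (X + Y) * c = c * (X + Y) := by rw [add_mul, mul_add, cX, cY]
  have cE : (X + Y + c) * c = c * (X + Y + c) := by rw [add_mul, cD, ← mul_add]
  have ee : (X + Y + c) * (X + Y + c) = c + c * c := by
    rw [add_mul, mul_add, ← hc, cD, mul_add c (X + Y), add_assoc, ← add_assoc (c * (X + Y)), two_eq, zero_add]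
  have hc1 := self_mem_Rg c
  have hcc : c + c * c ∈ Rg c := add_mem hc1 (mul_mem hc1 hc1)
  obtain ⟨r, hr, rr⟩ := hs.sqrt two_eq hcc
  replace hr := Rg_le hcc hr
  have ur : IsUnit r := isUnit_of_mul_isUnit_left (y := r)
    (by rw [rr]; simpa [mul_add, add_comm] using hs.isUnit.mul hu)
  obtain ⟨r', hr', r1, r2, -⟩ := (hs.of_unit two_eq hr ur).inv
  replace hr' := Rg_le hr hr'
  obtain ⟨d, hd, d1, -⟩ := (hs.of_unit two_eq (add_mem hc1 (one_mem _)) hu).inv
  replace hd := Rg_le (add_mem hc1 (one_mem _)) hd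
  have TT : r' * (X + Y + c) * (r' * (X + Y + c)) = 1 := by
    rw [mul_assoc, assoc_rw (comm_Rg cE hr'), mul_assoc r', ee, ← rr, assoc_rw r2, one_mul, r2]
  have TX : r' * (X + Y + c) * X = (X + 1) * (r' * (X + Y + c)) := by
    rw [mul_assoc, eX, ← mul_assoc, ← mul_assoc, mul_add r', add_mul X, comm_Rg cX hr', mul_one, one_mul]
  have TY : r' * (X + Y + c) * Y = (Y + 1) * (r' * (X + Y + c)) := by
    rw [mul_assoc, eY, ← mul_assoc, ← mul_assoc, mul_add r', add_mul Y, comm_Rg cY hr', mul_one, one_mul]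
  have Tc : r' * (X + Y + c) * c = c * (r' * (X + Y + c)) := by
    rw [mul_assoc, cE, ← mul_assoc, Rg_comm hr' hc1, mul_assoc]
  have rT : r * (r' * (X + Y + c)) = X + Y + c := by rw [assoc_rw r1, one_mul]
  refine ⟨_, r, hr, ur, rr, rT, TT, TX, fun σ hσ => ?_⟩
  generalize r' * (X + Y + c) = T at TT TX TY Tc rT
  have mX : X ∈ Submonoid.closure {X, Y} := Submonoid.subset_closure (by simp)
  have mY : Y ∈ Submonoid.closure {X, Y} := Submonoid.subset_closure (by simp)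
  have cj : ∀ γ ∈ Submonoid.closure {X, Y}, T * γ * T ∈ Submonoid.closure {X, Y} := fun γ hγ => by
    induction hγ using Submonoid.closure_induction with
    | mem x hx =>
      rcases hx with rfl | rfl
      · rw [TX, mul_assoc, TT, mul_one, ← hX']; exact mul_mem mX mX
      · rw [TY, mul_assoc, TT, mul_one, ← hY']; exact mul_mem mY mY
    | one => rw [mul_one, TT]; exact one_mem _
    | mul x y _ _ ih ih' => simpa only [mul_assoc, assoc_rw TT, one_mul] using mul_mem ih ih'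
  obtain ⟨W, _, _, _, -, Φ, -, hΦX, hΦT⟩ := exists_frame hX TT TX
  obtain ⟨c₀, hc₀⟩ := scalar_of_comm (M := Φ c) (by rw [← hΦX, ← map_mul, cX, map_mul])
    (by rw [← hΦT, ← map_mul, Tc, map_mul])
  have sc := (scalar_Rg Φ.toRingHom hc₀).1
  obtain ⟨r₀, hr₀, er⟩ := sc r hr
  obtain ⟨d₀, hd₀, ed⟩ := sc d hd
  obtain ⟨σ₀, hσ₀, eσ⟩ := sc σ hσ
  change Φ _ = _ at er ed eσ
  have s₀ : SS c₀ := by
    obtain ⟨k, hk, e⟩ := hs
    have := congrArg Φ e
    rw [map_pow, hc₀, dM_pow, map_one, m2one] at this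
    exact ⟨k, hk, (m2inj this).1⟩
  have rr₀ : r₀ * r₀ = c₀ + c₀ * c₀ := by
    have := congrArg Φ rr
    rw [map_mul, map_add, map_mul, er, hc₀, dM_mul, dM_mul, dM_add] at this
    exact (m2inj this).1
  have dd₀ : (c₀ + 1) * d₀ = 1 := by
    have := congrArg Φ d1
    rw [map_mul, map_add, map_one, ed, hc₀, ← dM_one, dM_add, dM_mul] at this
    exact (m2inj this).1
  have rc := Rg_comm hr₀ (self_mem_Rg c₀)
  have kk : (r₀ + c₀) * (r₀ + c₀) = c₀ := by
    apply z2
    simp only [mul_add, add_mul, rr₀, rc]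
    match_scalars <;> decide
  have le : Rg c₀ ≤ Rg (r₀ + c₀) := Rg_le (by
    have := mul_mem (self_mem_Rg (r₀ + c₀)) (self_mem_Rg (r₀ + c₀))
    rwa [kk] at this)
  obtain ⟨γ, hγ, e⟩ := ss0M two_eq (Γ := (Submonoid.closure {X, Y}).map Φ.toMonoidHom) (κ := r₀ + c₀) ⟨X, mX, hΦX⟩
    ⟨Y, mY, by
      have e : Y = X + r * T + c := by
        rw [rT]; apply z2; match_scalars <;> decide
      change Φ Y = _
      rw [e, map_add, map_add, map_mul, hΦX, hΦT, er, hc₀]
      simp only [xM, uM, dM, m2mul, m2add]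
      refine m2ext ?_ ?_ ?_ ?_ <;> apply z2 <;>
        simp only [mul_add, add_mul, mul_one, one_mul, mul_zero, zero_mul, rr₀, rc] <;> match_scalars <;> decide⟩
    (by
      rintro _ ⟨γ, hγ, rfl⟩
      exact ⟨_, cj γ hγ, by rw [← hΦT]; simp⟩)
    (s₀.of_unit two_eq (add_mem hr₀ (self_mem_Rg _)) (isUnit_of_mul_isUnit_left (kk.symm ▸ s₀.isUnit)))
    (le hd₀) (kk.symm ▸ dd₀) σ₀ (le hσ₀)
  refine (Φ.injective (Eq.trans ?_ e.symm) : 1 + σ * (T + 1) = γ) ▸ hγ
  rw [map_add, map_one, map_mul, map_add, map_one, eσ, hΦT]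
  simp [uM, dM, m2one, two_eq]

end CfsgLib.Gag
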