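import Cfsg.Agent.Lib.Gag.Lv
import Cfsg.Agent.Lib.Gag.SS0

/-!
# Gagola's theorem: the two-generator theorem (plans/GAG.md, package LEV)
-/

set_option autoImplicit false
set_option linter.unusedSectionVars false
set_option linter.unusedVariables false

namespace CfsgLib.Gag
open Cfsg Subgroup

theorem ss0M' {R : Type*} [Ring R] [Finite R] (h2 : ∀ a : R, a + a = 0) {κ : R} (hs : SS κ)
    (hu : IsUnit (κ * κ + 1)) :
    ∀ σ ∈ Rg κ, uM σ ∈ Submonoid.closure {xM, uM κ * xM * uM κ} := by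
  have hm : κ * κ + 1 ∈ Rg κ := add_mem (mul_mem (self_mem_Rg κ) (self_mem_Rg κ)) (one_mem _)
  obtain ⟨d, hd, h1, -⟩ := (hs.of_unit h2 hm hu).inv
  have uu := uM_sq h2 (1 : R)
  have kk := uM_sq h2 κ
  have e1 : uM (1 : R) * xM * uM 1 = xM * xM := by simp [xM, uM, m2mul, h2, add_add_cancel h2]
  have hx : xM ∈ Submonoid.closure {xM, uM κ * xM * uM κ} := Submonoid.subset_closure (Or.inl rfl)
  have hy : uM κ * xM * uM κ ∈ Submonoid.closure {xM, uM κ * xM * uM κ} :=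
    Submonoid.subset_closure (Or.inr rfl)
  refine ss0M h2 hx hy (fun γ hγ => ?_) hs (Rg_le hm hd) h1
  induction hγ using Submonoid.closure_induction with
  | mem g hg =>
    rcases hg with rfl | rfl
    · rw [e1]; exact mul_mem hx hx
    · have c : uM (1 : R) * uM κ = uM κ * uM 1 := by rw [uM_mul, uM_mul, add_comm]
      have : uM 1 * (uM κ * xM * uM κ) * uM 1 = (uM κ * xM * uM κ) * (uM κ * xM * uM κ) := by
        calc uM 1 * (uM κ * xM * uM κ) * uM 1 = (uM 1 * uM κ) * xM * (uM κ * uM 1) := by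
              simp only [mul_assoc]
          _ = uM κ * (uM 1 * xM * uM 1) * uM κ := by
              rw [← c]; nth_rewrite 1 [c]; simp only [mul_assoc]
          _ = _ := by rw [e1]; simp only [mul_assoc, assoc_rw kk, one_mul]
      rw [this]; exact mul_mem hy hy
  | one => rw [mul_one, uu]; exact one_mem _
  | mul a b _ _ ha hb =>
    have := mul_mem ha hb
    simpa only [mul_assoc, assoc_rw uu, one_mul] using this

theorem exists_red {A : Type*} [CommRing A] [Finite A] (h2 : ∀ a : A, a + a = 0) {c : A}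
    (hc : IsUnit c) (hc1 : IsUnit (c + 1)) (hgen : ∀ a, a ∈ Rg c) :
    ∃ (red : A →+* A) (π κ r₁ r₂ : A), (∃ J : ℕ, ∀ a, red a = a ^ 2 ^ J) ∧ (∀ a, π ∣ a + red a) ∧
      red π = 0 ∧ SS κ ∧ (∀ a, red a ∈ Rg κ) ∧ red κ = κ ∧ IsUnit (κ * κ + 1) ∧
      r₁ * r₁ + r₁ * r₂ + r₂ * r₂ = c + c * c ∧ red r₁ = κ + κ * κ ∧ red r₂ = 0 ∧
      red c = κ * κ := by
  have two : (2 : A) = 0 := by rw [← one_add_one_eq_two, h2]
  obtain ⟨N, hN0, hN⟩ := exists_pow_eq_one hc
  obtain ⟨a, k, hk, rfl⟩ := Nat.exists_eq_two_pow_mul_odd hN0.ne'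
  have h0 : SS (c ^ 2 ^ a) := ⟨k, hk, by rw [← pow_mul, hN]⟩
  obtain ⟨j, hj, hf⟩ := h0.frob h2
  have hf' : ∀ n : ℕ, ∀ b ∈ Rg (c ^ 2 ^ a), b ^ 2 ^ (j * n) = b := by
    intro n b hb
    induction n with
    | zero => simp
    | succ n ih => rw [mul_add, mul_one, pow_add, pow_mul, ih, hf b hb]
  let red : A →+* A :=
    { toFun := fun b => b ^ 2 ^ (j * a)
      map_one' := one_pow _
      map_mul' := fun _ _ => mul_pow _ _ _
      map_zero' := zero_pow (by positivity)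
      map_add' := fun _ _ => add_pow_two_pow h2 (mul_comm _ _) _ }
  have hred : ∀ b, red b = b ^ 2 ^ (j * a) := fun _ => rfl
  obtain ⟨s, hs⟩ : ∃ s, s = red c := ⟨_, rfl⟩
  have hse : s = (c ^ 2 ^ a) ^ 2 ^ (j * a - a) := by
    rw [hs, hred, ← pow_mul, ← pow_add, Nat.add_sub_cancel' (Nat.le_mul_of_pos_left a hj)]
  have hss : SS s := hse ▸ h0.pow _
  have hfix : ∀ b ∈ Rg s, red b = b := fun b hb =>
    hf' a b (Rg_le (hse ▸ pow_mem (self_mem_Rg _) _) hb)
  have hfld : ∀ b, red b ∈ Rg s := fun b => by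
    have : Rg c ≤ (Rg s).comap red := by
      rw [Subring.closure_le]; rintro _ rfl; exact hs ▸ self_mem_Rg s
    exact this (hgen b)
  have hsm := self_mem_Rg s
  have hm : s + s * s ∈ Rg s := add_mem hsm (mul_mem hsm hsm)
  obtain ⟨r₁, hr, hr1⟩ := hss.sqrt h2 hm
  have hr' := Rg_le hm hr
  have hsu : IsUnit (s + 1) := by rw [hs, ← map_one red, ← map_add]; exact hc1.map red
  have hru : IsUnit r₁ := isUnit_of_mul_isUnit_left (y := r₁) (by
    rw [hr1, show s + s * s = s * (s + 1) by ring]; exact hss.isUnit.mul hsu)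
  obtain ⟨r', hr2⟩ := hru.exists_right_inv
  have hπ : red (c + s) = 0 := by rw [map_add, ← hs, hfix s hsm, h2]
  obtain ⟨n, hn⟩ : ∃ n, n = (c + s) * ((1 + (c + s)) * (r' * r')) := ⟨_, rfl⟩
  have hn0 : red n = 0 := by rw [hn, map_mul, hπ, zero_mul]
  have hw : ∀ J : ℕ, ∃ w, w * w + w = n ^ 2 ^ J + n ∧ red w = 0 := by
    intro J
    induction J with
    | zero => exact ⟨0, by simp [h2], map_zero _⟩
    | succ J ih =>
      obtain ⟨w, h1, h3⟩ := ih
      refine ⟨w + n ^ 2 ^ J, ?_, by rw [map_add, h3, map_pow, hn0, zero_pow (by positivity), add_zero]⟩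
      rw [pow_succ, pow_mul]
      generalize n ^ 2 ^ J = m at *
      grind
  obtain ⟨w, hw1, hw2⟩ := hw (j * a)
  rw [← hred, hn0] at hw1
  have hκ : (r₁ + s) * (r₁ + s) = s := by grind
  have hκm : r₁ + s ∈ Rg s := add_mem hr' hsm
  refine ⟨red, c + s, r₁ + s, r₁, r₁ * w, ⟨_, hred⟩, fun b => ?_, hπ,
    hss.of_unit h2 hκm (isUnit_of_mul_isUnit_left (y := r₁ + s) (by rw [hκ]; exact hss.isUnit)),
    fun b => Rg_le (by
      have := mul_mem (self_mem_Rg (r₁ + s)) (self_mem_Rg (r₁ + s)); rwa [hκ] at this) (hfld b),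
    hfix _ hκm, by rwa [hκ], by grind, by rw [hfix _ hr']; grind, by rw [map_mul, hw2, mul_zero],
    by rw [hκ, hs]⟩
  have hb := hgen b
  induction hb using Subring.closure_induction with
  | mem b hb => rw [hb, ← hs]
  | zero => simp
  | one => simp [h2]
  | add a b _ _ ha hb => rw [map_add, add_add_add_comm]; exact dvd_add ha hb
  | neg a _ ha => rw [map_neg, ← neg_add]; exact ha.neg_right
  | mul a b _ _ ha hb =>
    rw [map_mul, show a * b + red a * red b = (a + red a) * b + red a * (b + red b) by grind]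
    exact dvd_add (ha.mul_right _) (hb.mul_left _)

variable {G V : Type*} [Group G] [Finite G] [AddCommGroup V] [Module (ZMod 2) V] [Finite V]
  {ρ : G →* E2 V} {x y : G}

theorem Hyp.unit_cc1 (h : Hyp ρ) (hx : orderOf x = 3) (hy : orderOf y = 3) (c1 : cc ρ x y ≠ 1) :
    IsUnit (cc ρ x y + 1) := by
  rw [← h.cc_inv hx hy]
  exact h.unit_cc hx (by rw [orderOf_inv, hy])
    (by rw [h.cc_inv hx hy]; exact fun e => c1 (eq_of_add two_eq e))

theorem exists_T {R : Type*} [Ring R] (h2 : ∀ a : R, a + a = 0) {X ε r₁ r₂ n : R}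
    (hX : X * X = X + 1) (a1 : ε * X = (X + 1) * ε) (x1 : X * r₁ = r₁ * X) (x2 : X * r₂ = r₂ * X)
    (x3 : X * n = n * X) (e1 : ε * r₁ = r₁ * ε) (e2 : ε * r₂ = r₂ * ε) (e3 : ε * n = n * ε)
    (c1 : r₂ * r₁ = r₁ * r₂) (c2 : r₁ * n = n * r₁) (c3 : r₂ * n = n * r₂)
    (h : r₁ * r₁ + r₁ * r₂ + r₂ * r₂ = ε * ε) (hn : n * (ε * ε) = 1) :
    ∃ T, T * T = 1 ∧ T * X = (X + 1) * T ∧ (r₁ + r₂ * X) * T = ε := by
  letI := mod2 h2
  refine ⟨n * ((r₁ + r₂ * (X + 1)) * ε), ?_, ?_, ?_⟩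
  · have : n * ((r₁ + r₂ * (X + 1)) * ε) * (n * ((r₁ + r₂ * (X + 1)) * ε)) =
        n * (n * (r₁ * r₁ + r₁ * r₂ + r₂ * r₂)) * (ε * ε) := by
      apply z2
      simp only [mul_add, add_mul, mul_one, one_mul, mul_assoc, hX, a1, x1, x2, x3, e1, e2, e3, c1,
        c2, c3, assoc_rw hX, assoc_rw a1, assoc_rw x1, assoc_rw x2, assoc_rw x3, assoc_rw e1,
        assoc_rw e2, assoc_rw e3, assoc_rw c1, assoc_rw c2, assoc_rw c3]
      match_scalars <;> decide
    rw [this, h, hn, mul_one, hn]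
  · apply z2
    simp only [mul_add, add_mul, mul_one, one_mul, mul_assoc, hX, a1, x1, x2, x3, e1, e2, e3, c1,
      c2, c3, assoc_rw hX, assoc_rw a1, assoc_rw x1, assoc_rw x2, assoc_rw x3, assoc_rw e1,
      assoc_rw e2, assoc_rw e3, assoc_rw c1, assoc_rw c2, assoc_rw c3]
  · have : (r₁ + r₂ * X) * (n * ((r₁ + r₂ * (X + 1)) * ε)) =
        n * (r₁ * r₁ + r₁ * r₂ + r₂ * r₂) * ε := by
      apply z2
      simp only [mul_add, add_mul, mul_one, one_mul, mul_assoc, hX, a1, x1, x2, x3, e1, e2, e3, c1,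
        c2, c3, assoc_rw hX, assoc_rw a1, assoc_rw x1, assoc_rw x2, assoc_rw x3, assoc_rw e1,
        assoc_rw e2, assoc_rw e3, assoc_rw c1, assoc_rw c2, assoc_rw c3]
      match_scalars <;> decide
    rw [this, h, hn, one_mul]

theorem exists_Psi {A : Type*} [CommRing A] (ι : A →+* E2 V) (hι : Function.Injective ι)
    {X T : E2 V} (hX : X * X + X + 1 = 0) (hT : T * T = 1) (hTX : T * X = (X + 1) * T)
    (c1 : ∀ a, X * ι a = ι a * X) (c2 : ∀ a, T * ι a = ι a * T) :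
    ∃ Ψ : M2 A →+* E2 V, Function.Injective Ψ ∧ (∀ a : A, Ψ (a • 1) = ι a) ∧ Ψ xM = X ∧
      Ψ (uM 1) = T := by
  obtain ⟨W, _, _, _, e, Φ, -, hΦX, hΦT⟩ := exists_frame hX hT hTX
  have hs : ∀ a : A, ∃ b, Φ (ι a) = dM b b := fun a => scalar_of_comm
    (by rw [← hΦX, ← map_mul, c1, map_mul]) (by rw [← hΦT, ← map_mul, c2, map_mul])
  choose f hf using hs
  have hf0 : ∀ a, f a = Φ (ι a) 0 0 := fun a => by rw [hf]; rfl
  let j : A →+* E2 W :=
    { toFun := f
      map_one' := by rw [hf0, map_one, map_one]; rfl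
      map_mul' := fun a b => by rw [hf0, map_mul, map_mul, hf, hf, dM_mul]; rfl
      map_zero' := by rw [hf0, map_zero, map_zero]; rfl
      map_add' := fun a b => by rw [hf0, map_add, map_add, hf, hf, dM_add]; rfl }
  have hj : Function.Injective j := fun a b hab => hι (Φ.injective (by
    rw [hf, hf, show f a = f b from hab]))
  refine ⟨Φ.symm.toRingHom.comp j.mapMatrix, Φ.symm.injective.comp (Matrix.map_injective hj),
    fun a => Φ.symm_apply_eq.2 ?_, Φ.symm_apply_eq.2 ?_, Φ.symm_apply_eq.2 ?_⟩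
  · rw [hf]; ext1 i k; fin_cases i <;> fin_cases k <;> simp [dM] <;> rfl
  · rw [hΦX]; ext1 i k; fin_cases i <;> fin_cases k <;> simp [xM]
  · rw [hΦT]; ext1 i k; fin_cases i <;> fin_cases k <;> simp [uM]

theorem Hyp.ss_cc (h : Hyp ρ) (hx : orderOf x = 3) (hy : orderOf y = 3) (c0 : cc ρ x y ≠ 0)
    (c1 : cc ρ x y ≠ 1) : SS (cc ρ x y) := by
  have hu0 := h.unit_cc hx hy c0
  have hu1 := h.unit_cc1 hx hy c1
  obtain ⟨k1, k2⟩ := h.cc_comm hx hy
  obtain ⟨-, a1⟩ := h.anti hx hy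
  have es := h.eps_sq hx hy
  have tr := h.tr_eq hx hy
  generalize cc ρ x y = c at *
  have hgi : ρ (x * y⁻¹) * ρ (y * x⁻¹) = 1 := by rw [← map_mul]; simp
  have hgi' : ρ (y * x⁻¹) * ρ (x * y⁻¹) = 1 := by rw [← map_mul]; simp
  rcases Nat.even_or_odd (orderOf (x * y⁻¹)) with ⟨k, hk⟩ | ho
  swap
  · obtain ⟨j, m, hj, hm⟩ := exists_two_pow ho
    have e1 : (x * y⁻¹) ^ 2 ^ j = x * y⁻¹ := by
      rw [hm, pow_succ, pow_mul, pow_orderOf_eq_one, one_pow, one_mul]
    have e2 : (y * x⁻¹) ^ 2 ^ j = y * x⁻¹ := by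
      rw [show y * x⁻¹ = (x * y⁻¹)⁻¹ by group, inv_pow, e1]
    have e3 : c ^ 2 ^ j = c := by
      rw [← tr, add_pow_two_pow two_eq (hgi.trans hgi'.symm), ← map_pow, ← map_pow, e1, e2]
    refine ⟨orderOf (x * y⁻¹) * m, ?_, hu0.mul_right_cancel (by rw [← pow_succ, ← hm, e3, one_mul])⟩
    rw [← Nat.not_even_iff_odd, ← Nat.even_add_one, ← hm]
    exact (Nat.even_pow' (by omega)).2 even_two
  exfalso
  letI : CommRing (Rg c) :=
    { (inferInstance : Ring (Rg c)) with mul_comm := fun a b => Subtype.ext (Rg_comm a.2 b.2) }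
  have h2 : ∀ a : Rg c, a + a = 0 := fun a => Subtype.ext (two_eq _)
  have two : (2 : Rg c) = 0 := one_add_one_eq_two.symm.trans (h2 1)
  have hun : ∀ a : Rg c, IsUnit (a : E2 V) → IsUnit a := fun a ha => by
    obtain ⟨n, hn0, hn⟩ := exists_pow_eq_one ha
    exact IsUnit.of_pow_eq_one (n := n) (Subtype.ext hn) hn0.ne'
  let c' : Rg c := ⟨c, self_mem_Rg c⟩
  obtain ⟨red, π, κ, r₁, r₂, hJ, hdvd, hr0, hss, hfld, hrκ, hun1, hN, hr1, hr2, hrc⟩ :=
    exists_red h2 (c := c') (hun _ hu0) (hun _ hu1) (fun ⟨a, ha⟩ => by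
      induction ha using Subring.closure_induction with
      | mem b hb => exact Subring.subset_closure (Subtype.ext hb)
      | zero => exact zero_mem _
      | one => exact one_mem _
      | add a b _ _ ha hb => exact add_mem ha hb
      | neg a _ ha => exact neg_mem ha
      | mul a b _ _ ha hb => exact mul_mem ha hb)
  have cX : ∀ a : Rg c, ρ x * a = a * ρ x := fun a => comm_Rg k1 a.2
  have cε : ∀ a : Rg c, (ρ x + ρ y + c) * a = a * (ρ x + ρ y + c) := fun a =>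
    comm_Rg (by rw [add_mul, add_mul, k1, k2, mul_add, mul_add]) a.2
  obtain ⟨n, hn⟩ := ((hun c' hu0).mul (hun (c' + 1) hu1)).exists_left_inv
  obtain ⟨T, hT, hTX, hTε⟩ := exists_T two_eq (h.xx hx) a1 (cX r₁) (cX r₂) (cX n) (cε r₁) (cε r₂)
    (cε n) (Rg_comm r₂.2 r₁.2) (Rg_comm r₁.2 n.2) (Rg_comm r₂.2 n.2)
    (by rw [es]; exact congrArg Subtype.val hN)
    (by rw [es, add_comm c, ← mul_add_one]; exact congrArg Subtype.val hn)
  have hB : IsUnit ((r₁ : E2 V) + r₂ * ρ x) := by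
    have : (↑r₁ + ↑r₂ * ρ x) * (T * (ρ x + ρ y + c)) = c * (c + 1) := by
      rw [← mul_assoc, hTε, es, add_comm c, mul_add_one]
    rw [Module.End.isUnit_iff, ← Finite.surjective_iff_bijective]
    have h3 := ((Module.End.isUnit_iff _).1 (hu0.mul hu1)).2
    rw [← this] at h3
    exact Function.Surjective.of_comp h3
  obtain ⟨Ψ, hΨ, hΨa, hΨx, hΨt⟩ := exists_Psi (Rg c).subtype Subtype.val_injective (h.x3 hx) hT hTX
    cX (fun a => hB.mul_left_cancel (by
      change _ * (T * a) = _ * (a * T)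
      rw [← mul_assoc, hTε, cε, ← mul_assoc, add_mul, mul_assoc _ (ρ x), cX, ← mul_assoc,
        Rg_comm r₁.2 a.2, Rg_comm r₂.2 a.2, mul_assoc, ← mul_add, mul_assoc, hTε]))
  let yM : M2 (Rg c) := !![r₁ + c', 1 + r₁ + r₂; 1 + r₂, 1 + r₁ + c']
  have hΨy : Ψ yM = ρ y := by
    have : yM = xM + (r₁ • 1 + (r₂ • 1) * xM) * uM 1 + c' • 1 := by
      ext1 i j; fin_cases i <;> fin_cases j <;> simp [yM, xM, uM, Matrix.mul_apply] <;> grind
    rw [this]
    simp only [map_add, map_mul, hΨa, hΨx, hΨt]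
    change ρ x + (↑r₁ + ↑r₂ * ρ x) * T + c = _
    rw [hTε]
    apply z2
    match_scalars <;> decide
  have hM : ∀ g : closure {x, y}, ∃ M, Ψ M = ρ g ∧ M.det = 1 := fun ⟨g, hg⟩ => by
    induction hg using closure_induction with
    | mem g hg =>
      rcases hg with rfl | rfl
      · exact ⟨xM, hΨx, by rw [xM, Matrix.det_fin_two_of]; grind⟩
      · exact ⟨yM, hΨy, by rw [Matrix.det_fin_two_of]; grind⟩
    | one => exact ⟨1, by simp, by simp⟩
    | mul a b _ _ ha hb =>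
      obtain ⟨M, h1, h3⟩ := ha
      obtain ⟨N, h2, h4⟩ := hb
      exact ⟨M * N, by rw [map_mul, h1, h2, map_mul], by rw [Matrix.det_mul, h3, h4, one_mul]⟩
    | inv a _ ha =>
      obtain ⟨M, h1, h3⟩ := ha
      refine ⟨M.adjugate, left_inv_eq_right_inv (a := ρ a) ?_ ?_, by simp [Matrix.det_adjugate, h3]⟩
      · rw [← show Ψ M = ρ a from h1, ← map_mul, Matrix.adjugate_mul, h3, one_smul, map_one]
      · rw [← map_mul, mul_inv_cancel, map_one]
  choose f hf hdet using hM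
  let φ : closure {x, y} →* M2 (Rg c) :=
    { toFun := f
      map_one' := hΨ (by rw [hf]; simp)
      map_mul' := fun a b => hΨ (by rw [map_mul, hf, hf, hf, ← map_mul]; rfl) }
  let x' : closure {x, y} := ⟨x, subset_closure (Or.inl rfl)⟩
  let y' : closure {x, y} := ⟨y, subset_closure (Or.inr rfl)⟩
  have L : Lv (ρ.comp (closure {x, y}).subtype) Ψ φ red π κ x' y' :=
    { hyp := h.comp _ Subtype.val_injective
      h2 := h2
      inj := hΨ
      hφ := hf
      det := hdet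
      frob := hJ
      dvd := hdvd
      r0 := hr0
      ss := hss
      fld := hfld
      rκ := hrκ
      un := hun1
      gen := by
        rw [← closure_closure_coe_preimage]
        congr 1
        ext g
        simp [x', y', Subtype.ext_iff]
      x3 := (orderOf_mk ..).trans hx
      y3 := (orderOf_mk ..).trans hy
      hx := hΨ ((hf _).trans hΨx.symm)
      hy := by
        rw [show φ y' = yM from hΨ ((hf _).trans hΨy.symm)]
        ext1 i j; fin_cases i <;> fin_cases j <;>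
          simp [yM, xM, uM, Matrix.mul_apply, hr1, hr2, hrc] <;> grind
      su := ss0M' h2 hss hun1 }
  have hz : (x * y⁻¹) ^ k * (x * y⁻¹) ^ k = 1 := by rw [← pow_add, ← hk, pow_orderOf_eq_one]
  have hk0 := orderOf_pos (x * y⁻¹)
  have ha := scalar_of_tr two_eq hgi hgi' tr hu0 (k := k) (by rw [← map_pow, ← map_mul, hz, map_one])
  refine L.false_of (z := (x' * y'⁻¹) ^ k) (a := ⟨_, ha⟩) (hΨ ?_) (Subtype.ext hz) fun e => ?_
  · rw [hΨa]; exact (hf _).trans (map_pow ρ _ _)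
  · exact pow_ne_one_of_lt_orderOf (x := x * y⁻¹) (n := k) (by omega) (by omega)
      (congrArg Subtype.val e)

theorem Hyp.twoGen (h : Hyp ρ) (hx : orderOf x = 3) (hy : orderOf y = 3) (c0 : cc ρ x y ≠ 0)
    (c1 : cc ρ x y ≠ 1) :
    ∃ (τ : G) (r : E2 V), r ∈ Rg (cc ρ x y) ∧ IsUnit r ∧ r * r = cc ρ x y + cc ρ x y * cc ρ x y ∧
      r * ρ τ = ρ x + ρ y + cc ρ x y ∧ τ * τ = 1 ∧ τ * x * τ⁻¹ = x⁻¹ ∧
      ∀ σ ∈ Rg (cc ρ x y), ∃ g, ρ g = 1 + σ * (ρ τ + 1) := by
  obtain ⟨T, r, h1, h2, h3, h4, h5, h6, h7⟩ :=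
    ss0 (h.x3 hx) (h.x3 hy) rfl (h.ss_cc hx hy c0 c1) (h.unit_cc1 hx hy c1)
  have hle : Submonoid.closure {ρ x, ρ y} ≤ MonoidHom.mrange ρ := by
    rw [Submonoid.closure_le]
    rintro _ (rfl | rfl) <;> exact ⟨_, rfl⟩
  obtain ⟨τ, hτ⟩ := hle (h7 1 (one_mem _))
  rw [one_mul, add_comm T, ← add_assoc, two_eq, zero_add] at hτ
  subst hτ
  refine ⟨τ, r, h1, h2, h3, h4, h.inj (by rw [map_mul, h5, map_one]), ?_,
    fun σ hσ => hle (h7 σ hσ)⟩
  rw [mul_inv_eq_iff_eq_mul]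
  exact h.inj (by rw [map_mul, map_mul, h6, h.rho_inv hx])

end CfsgLib.Gag
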