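import Cfsg.Agent.Lib.Gag.Alg
import Cfsg.Agent.Lib.Gag.Frm

/-!
# Gagola's theorem: two generators of order three over a chain ring (plans/GAG.md, package LEV)
-/

set_option autoImplicit false
set_option linter.unusedSectionVars false
set_option linter.unusedVariables false

namespace CfsgLib.Gag
open Cfsg Subgroup

abbrev M2 (A : Type*) := Matrix (Fin 2) (Fin 2) A

/-- `G = ⟨x, y⟩ ≤ SL₂(A)`, `A` commutative with "reduction" `red` modulo `π`. -/
structure Lv {A G V : Type*} [CommRing A] [Group G] [AddCommGroup V] [Module (ZMod 2) V]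
    (ρ : G →* E2 V) (Ψ : M2 A →+* E2 V) (φ : G →* M2 A) (red : A →+* A) (π κ : A) (x y : G) :
    Prop where
  hyp : Hyp ρ
  h2 : ∀ a : A, a + a = 0
  inj : Function.Injective Ψ
  hφ : ∀ g, Ψ (φ g) = ρ g
  det : ∀ g, (φ g).det = 1
  frob : ∃ J : ℕ, ∀ a, red a = a ^ 2 ^ J
  dvd : ∀ a, π ∣ a + red a
  r0 : red π = 0
  ss : SS κ
  fld : ∀ a, red a ∈ Rg κ
  rκ : red κ = κ
  un : IsUnit (κ * κ + 1)
  gen : closure {x, y} = ⊤
  x3 : orderOf x = 3
  y3 : orderOf y = 3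
  hx : φ x = xM
  hy : red.mapMatrix (φ y) = uM κ * xM * uM κ
  su : ∀ σ ∈ Rg κ, uM σ ∈ Submonoid.closure {xM, uM κ * xM * uM κ}

theorem ch2 {A : Type*} [CommRing A] (h2 : ∀ a : A, a + a = 0) {M : M2 A} (h : M.det = 1) :
    M * M + 1 = M.trace • M := by
  have two : (2 : A) = 0 := by rw [← one_add_one_eq_two, h2]
  obtain ⟨p, q, r, s, rfl⟩ := m2ex M
  rw [Matrix.det_fin_two_of] at h
  ext i j; fin_cases i <;> fin_cases j <;> simp [Matrix.trace_fin_two] <;> grind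

variable {A G V : Type*} [CommRing A] [Finite A] [Group G] [Finite G] [AddCommGroup V]
  [Module (ZMod 2) V] [Finite V] {ρ : G →* E2 V} {Ψ : M2 A →+* E2 V} {φ : G →* M2 A}
  {red : A →+* A} {π κ : A} {x y : G}

namespace Lv
variable (L : Lv ρ Ψ φ red π κ x y)
include L

theorem two : (2 : A) = 0 := by rw [← one_add_one_eq_two, L.h2]

theorem m2 (M : M2 A) : M + M = 0 := m2two L.h2 M

theorem φinj : Function.Injective φ := fun a b e => L.hyp.inj (by rw [← L.hφ, e, L.hφ])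

theorem fix {σ : A} (hσ : σ ∈ Rg κ) : red σ = σ :=
  RingHom.eqOn_set_closure (f := red) (g := RingHom.id A) (s := {κ})
    (by rintro _ rfl; exact L.rκ) hσ

theorem rr (a : A) : red (red a) = red a := L.fix (L.fld a)

theorem nil {a : A} (h : red a = 0) : IsNilpotent a :=
  let ⟨J, hJ⟩ := L.frob; ⟨2 ^ J, by rw [← hJ, h]⟩

theorem of_nil {a : A} (h : IsNilpotent a) : red a = 0 := L.ss.eq_zero L.h2 (L.fld a) (h.map red)

theorem unit_of {a : A} (h : IsUnit (red a)) : IsUnit a := by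
  obtain ⟨J, hJ⟩ := L.frob
  rw [hJ] at h
  exact (isUnit_pow_iff (by positivity)).1 h

theorem dvd0 {a : A} (h : red a = 0) : π ∣ a := by simpa [h] using L.dvd a

theorem dvdM (M : M2 A) : ∃ N : M2 A, M + red.mapMatrix M = π • N := by
  choose f hf using L.dvd
  exact ⟨M.map f, by ext i j; simpa using hf (M i j)⟩

theorem dvdM0 {M : M2 A} (h : red.mapMatrix M = 0) : ∃ N : M2 A, M = π • N := by
  simpa [h] using L.dvdM M

theorem red_smul (a : A) (M : M2 A) : red.mapMatrix (a • M) = red a • red.mapMatrix M := by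
  ext i j; simp

theorem sur {M : M2 A} (h : M ∈ Submonoid.closure {xM, uM κ * xM * uM κ}) :
    ∃ g, red.mapMatrix (φ g) = M := by
  have : Submonoid.closure {xM, uM κ * xM * uM κ} ≤
      MonoidHom.mrange (red.mapMatrix.toMonoidHom.comp φ) := by
    rw [Submonoid.closure_le]
    rintro _ (rfl | rfl)
    · refine ⟨x, ?_⟩
      change red.mapMatrix (φ x) = _
      rw [L.hx]; ext i j; fin_cases i <;> fin_cases j <;> simp [xM]
    · exact ⟨y, L.hy⟩
  exact this h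

theorem θx : red.mapMatrix (φ x) = xM := by
  rw [L.hx]; ext i j; fin_cases i <;> fin_cases j <;> simp [xM]

theorem sur_u {σ : A} (h : σ ∈ Rg κ) : ∃ g, red.mapMatrix (φ g) = uM σ := L.sur (L.su σ h)

theorem sur_d {μ μ' : A} (h : μ ∈ Rg κ) (h1 : μ * μ' = 1) :
    ∃ g, red.mapMatrix (φ g) = dM μ μ' :=
  L.sur ((tor L.h2 (Submonoid.subset_closure (Or.inl rfl)) (L.su 1 (one_mem _))
    (L.su κ (self_mem_Rg κ)) L.ss).2 μ h μ' h1 (by rw [mul_comm, h1]))

theorem φ_mul_inv (g : G) : φ g * φ g⁻¹ = 1 := by rw [← map_mul, mul_inv_cancel, map_one]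

theorem φ_inv_mul (g : G) : φ g⁻¹ * φ g = 1 := by rw [← map_mul, inv_mul_cancel, map_one]

theorem θ_inv {g : G} {M N : M2 A} (h : red.mapMatrix (φ g) = M) (h1 : M * N = 1) :
    red.mapMatrix (φ g⁻¹) = N :=
  left_inv_eq_right_inv (a := M) (by rw [← h, ← map_mul, L.φ_inv_mul, map_one]) h1

/-- A `2`-element has nilpotent trace. -/
theorem tr_two {g : G} {k : ℕ} (h : g ^ 2 ^ k = 1) : (red.mapMatrix (φ g)).trace = 0 := by
  have e := congrArg (· ^ 2 ^ k) (ch2 L.h2 (L.det g))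
  simp only
    [add_pow_two_pow L.m2 (show φ g * φ g * 1 = 1 * (φ g * φ g) by simp), smul_pow] at e
  rw [← map_mul, ← map_pow, ← map_pow, ← sq, ← pow_mul, mul_comm, pow_mul, h, one_pow, one_pow,
    map_one, L.m2] at e
  have e0 : (φ g).trace ^ 2 ^ k = 0 := by simpa using (congrFun (congrFun e 0) 0).symm
  have := L.of_nil ⟨_, e0⟩
  rw [Matrix.trace_fin_two, map_add] at this
  rw [Matrix.trace_fin_two]; exact this

omit L in
theorem sc_mul (a : A) (M : M2 A) : Ψ (a • M) = Ψ (a • 1) * Ψ M := by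
  rw [← map_mul, smul_mul_assoc, one_mul]

omit L in
theorem sc_mul' (a : A) (M : M2 A) : Ψ (a • M) = Ψ M * Ψ (a • 1) := by
  rw [← map_mul, mul_smul_comm, mul_one]

omit L in
theorem sc_pow (a : A) (n : ℕ) : Ψ (a ^ n • 1) = Ψ (a • 1) ^ n := by
  rw [← map_pow, smul_pow, one_pow]

theorem sc_eq {a : A} (h : Ψ (a • 1) = 0) : a = 0 := by
  have := L.inj (h.trans (map_zero Ψ).symm)
  simpa using congrFun (congrFun this 0) 0

theorem two_of_ann {g : G} {a : A} (ha : a ≠ 0) (h : a • (φ g + 1) = 0) : ∃ k : ℕ, g ^ 2 ^ k = 1 := by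
  have : Ψ (a • 1) ≠ 0 := fun e => ha (L.sc_eq e)
  obtain ⟨v, hv⟩ := DFunLike.ne_iff.1 this
  refine L.hyp.sr g _ hv ?_
  have e := congrArg (fun f : E2 V => f v) (sc_mul' (Ψ := Ψ) a (φ g + 1))
  simp only [h, map_zero, map_add, map_one, L.hφ, LinearMap.zero_apply, Module.End.mul_apply,
    LinearMap.add_apply, Module.End.one_apply] at e
  exact vadd_eq_zero.1 e.symm

theorem last {b : A} (hb : b ≠ 0) : ∃ i : ℕ, π ^ i * b ≠ 0 ∧ π ^ (i + 1) * b = 0 := by
  classical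
  obtain ⟨n, hn⟩ := L.nil L.r0
  have hex : ∃ i : ℕ, π ^ (i + 1) * b = 0 := ⟨n, by rw [pow_succ, hn, zero_mul, zero_mul]⟩
  refine ⟨Nat.find hex, ?_, Nat.find_spec hex⟩
  rcases hr : Nat.find hex with _ | r
  · simpa using hb
  · exact Nat.find_min hex (by omega)

/-- The residue ring is a field. -/
theorem unit_or (a : A) : IsUnit a ∨ red a = 0 := by
  obtain ⟨j, hj, hf⟩ := L.ss.frob L.h2
  have two := L.two
  set σ := red a with hσ
  obtain ⟨n, hn⟩ : ∃ n, 2 ^ j = n + 2 := ⟨2 ^ j - 2, by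
    have : 2 ^ 1 ≤ 2 ^ j := Nat.pow_le_pow_right (by norm_num) hj
    omega⟩
  have hσm : σ ∈ Rg κ := L.fld a
  have h1 := hf σ hσm
  rw [hn] at h1
  set e := σ ^ (n + 1) with he
  have hem : e ∈ Rg κ := pow_mem hσm _
  have heσ : e * σ = σ := by rw [he, ← pow_succ, h1]
  have hee : e * e = e := by
    rw [he]; nth_rewrite 2 [pow_succ']; rw [← mul_assoc, ← he, heσ, ← pow_succ']
  by_cases h0 : 1 + e = 0
  · left
    refine L.unit_of (IsUnit.of_mul_eq_one (σ ^ n) ?_)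
    rw [← pow_succ', ← he]; exact (eq_of_add L.h2 h0).symm
  right
  obtain ⟨i, hi0, hi⟩ := L.last h0
  obtain ⟨g, hg⟩ := L.sur_u hem
  have hθ : red.mapMatrix (φ (g * (x * g * x⁻¹))) = !![1 + e, e; e, 1] := by
    simp only [map_mul]
    rw [hg, L.θx, L.θ_inv L.θx (xM_mul_inv L.h2).1, xM_conj L.h2, uM, m2mul]
    refine m2ext ?_ ?_ ?_ ?_ <;> grind
  obtain ⟨N, hN⟩ := L.dvdM (φ (g * (x * g * x⁻¹)))
  obtain ⟨k, hk⟩ := L.two_of_ann (g := g * (x * g * x⁻¹)) hi0 (by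
    rw [← add_zero (φ _), ← L.m2 (red.mapMatrix (φ (g * (x * g * x⁻¹)))), ← add_assoc, hN,
      add_assoc, smul_add, smul_smul, hθ, m2one, m2add]
    rw [pow_succ] at hi
    ext i j; fin_cases i <;> fin_cases j <;> simp <;> grind)
  have := L.tr_two hk
  rw [hθ, Matrix.trace_fin_two_of] at this
  grind

theorem pow_unit {a : A} (ha : a ≠ 0) : ∃ (i : ℕ) (u : A), IsUnit u ∧ a = π ^ i * u := by
  classical
  obtain ⟨n, hn⟩ := L.nil L.r0
  have hex : ∃ i : ℕ, ¬ π ^ (i + 1) ∣ a := ⟨n, by rw [pow_succ, hn, zero_mul, zero_dvd_iff]; exact ha⟩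
  have h1 := Nat.find_spec hex
  have h2 : π ^ Nat.find hex ∣ a := by
    rcases hr : Nat.find hex with _ | r
    · simp
    · exact not_not.1 (Nat.find_min hex (by omega))
  obtain ⟨u, hu⟩ := h2
  refine ⟨_, u, (L.unit_or u).resolve_right fun h0 => h1 ?_, hu⟩
  rw [pow_succ]
  exact (mul_dvd_mul_left _ (L.dvd0 h0)).trans (dvd_of_eq hu.symm)

/-! ### levels of involutions -/

theorem stab {a : ℕ} (h : LinearMap.range (Ψ (π • 1) ^ a) ≤ LinearMap.range (Ψ (π • 1) ^ (a + 1))) :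
    π ^ a = 0 := by
  obtain ⟨n, hn⟩ := L.nil L.r0
  refine L.sc_eq ?_
  rw [sc_pow]
  exact range_pow_stab ⟨n, by rw [← sc_pow, hn, zero_smul, map_zero]⟩ le_rfl
    (le_antisymm (range_pow_le a 1) h)

theorem lvl_eq {e : G} {i : ℕ} {M : M2 A} (h : φ e + 1 = π ^ i • M) :
    ρ e + 1 = Ψ (π • 1) ^ i * Ψ M ∧ ρ e + 1 = Ψ M * Ψ (π • 1) ^ i := by
  rw [← sc_pow, ← sc_mul, ← sc_mul', ← h, map_add, map_one, L.hφ]
  exact ⟨rfl, rfl⟩

theorem lvl_le {e : G} (he : e * e = 1) (he1 : e ≠ 1) {i : ℕ} {M : M2 A}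
    (h : φ e + 1 = π ^ i • M) :
    LinearMap.ker (Ψ (π • 1) ^ i) ≤ LinearMap.ker (ρ e + 1) ∧
      LinearMap.ker (ρ e + 1) ≤ LinearMap.range (Ψ (π • 1) ^ i) := by
  obtain ⟨e1, e2⟩ := L.lvl_eq h
  constructor
  · rw [e2, Module.End.mul_eq_comp]; exact LinearMap.ker_le_ker_comp _ _
  · rw [(L.hyp.card_fix he he1).2, e1, Module.End.mul_eq_comp]; exact LinearMap.range_comp_le_range _ _

omit L in
/-- `π ^ (n + 1)` has equal kernel and range. -/
def Half (Ψ : M2 A →+* E2 V) (π : A) (n : ℕ) : Prop :=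
  LinearMap.ker (Ψ (π • 1) ^ (n + 1)) = LinearMap.range (Ψ (π • 1) ^ (n + 1)) ∧ π ^ (n + 1) ≠ 0

theorem exists_half {z : G} {a : A} (hz : φ z = a • 1) (h2 : z * z = 1) (h1 : z ≠ 1) :
    ∃ n, Half Ψ π n := by
  have h0 : a + 1 ≠ 0 := fun e => h1 (L.φinj (by rw [hz, eq_of_add L.h2 e, one_smul, map_one]))
  obtain ⟨i, u, hu, e⟩ := L.pow_unit h0
  have hl : φ z + 1 = π ^ i • (u • 1) := by rw [smul_smul, ← e, hz, add_smul, one_smul]
  obtain ⟨e1, e2⟩ := L.lvl_eq hl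
  have hU : IsUnit (Ψ (u • 1)) := by
    refine IsUnit.map Ψ ?_
    rw [← Algebra.algebraMap_eq_smul_one]; exact hu.map _
  have hb := (Module.End.isUnit_iff _).1 hU
  have hk := (L.hyp.card_fix h2 h1).2
  nth_rewrite 1 [e2] at hk
  rw [e1, Module.End.mul_eq_comp, Module.End.mul_eq_comp,
    LinearMap.ker_comp_of_ker_eq_bot _ (LinearMap.ker_eq_bot.2 hb.1),
    LinearMap.range_comp_of_range_eq_top _ (LinearMap.range_eq_top.2 hb.2)] at hk
  rcases i with _ | n
  · exfalso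
    obtain ⟨v, hv⟩ := L.hyp.nt
    have : v ∈ LinearMap.range (Ψ (π • 1) ^ 0) := ⟨v, by simp⟩
    rw [← hk] at this
    exact hv (by simpa using this)
  · exact ⟨n, hk, fun e0 => h0 (by rw [e, e0, zero_mul])⟩

variable {n : ℕ} (H : Half Ψ π n)
include H

theorem len2 : π ^ (n + 1 + (n + 1)) = 0 := by
  refine L.sc_eq ?_
  rw [sc_pow, pow_add, Module.End.mul_eq_comp, ← LinearMap.range_le_ker_iff, H.1]

theorem len1 : π ^ (n + 1 + n) ≠ 0 := fun e => H.2 (by
  rw [pow_succ, L.stab (a := n), zero_mul]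
  rw [← H.1, LinearMap.range_le_ker_iff, ← Module.End.mul_eq_comp, ← pow_add, ← sc_pow, e,
    zero_smul, map_zero])

theorem ann {M : M2 A} (h : π ^ (n + 1 + n) • M = 0) : red.mapMatrix M = 0 := by
  ext i j
  refine (L.unit_or (M i j)).resolve_left fun hu => L.len1 H (hu.mul_left_eq_zero.1 ?_)
  simpa using congrFun (congrFun h i) j

theorem lvl_succ {e : G} (he : e * e = 1) {M : M2 A} (h : φ e + 1 = π ^ (n + 1 + 1) • M) :
    e = 1 := by
  by_contra he1
  obtain ⟨l1, l2⟩ := L.lvl_le he he1 h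
  refine H.2 (L.stab ?_)
  rw [← H.1]
  refine le_trans ?_ (l1.trans l2)
  rw [pow_succ' _ (n + 1), Module.End.mul_eq_comp]; exact LinearMap.ker_le_ker_comp _ _

theorem lvl_top {e : G} (he : e * e = 1) {M : M2 A} (h : φ e + 1 = π ^ (n + 1) • M)
    (hd : red M.det = 0) : red.mapMatrix M = 0 := by
  by_cases he1 : e = 1
  · refine L.ann H ?_
    rw [he1, map_one, L.m2] at h
    rw [add_comm, pow_add, mul_smul, ← h, smul_zero]
  obtain ⟨-, l2⟩ := L.lvl_le he he1 h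
  rw [← H.1] at l2
  obtain ⟨d, hd⟩ := L.dvd0 hd
  have e1 : (ρ e + 1) * Ψ (π ^ n • M.adjugate) = 0 := by
    rw [← L.hφ, ← map_one Ψ, ← map_add, ← map_mul, h, smul_mul_smul_comm, Matrix.mul_adjugate, hd,
      smul_smul, ← pow_add, ← mul_assoc, ← pow_succ, add_assoc, L.len2 H, zero_mul, zero_smul,
      map_zero]
  have e2 : Ψ (π • 1) ^ (n + 1) * Ψ (π ^ n • M.adjugate) = 0 := by
    rw [Module.End.mul_eq_comp, ← LinearMap.range_le_ker_iff] at e1 ⊢
    exact e1.trans l2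
  rw [← sc_pow, ← sc_mul, smul_smul, ← pow_add] at e2
  have e3 := L.ann H (L.inj (e2.trans (map_zero Ψ).symm))
  obtain ⟨p, q, r, s, rfl⟩ := m2ex M
  rw [Matrix.adjugate_fin_two_of] at e3
  have := fun i j => congrFun (congrFun e3 i) j
  have a1 := this 0 0
  have a2 := this 0 1
  have a3 := this 1 0
  have a4 := this 1 1
  ext i j; fin_cases i <;> fin_cases j <;> simp_all

theorem lvl_low {e : G} (he : e * e = 1) {i : ℕ} (hi : i ≤ n) {M : M2 A}
    (h : φ e + 1 = π ^ i • M) : red M.det = 0 := by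
  refine (L.unit_or _).resolve_left fun hu => L.len1 H ?_
  have hM := (Matrix.isUnit_iff_isUnit_det M).2 hu
  have e1 : (π ^ i • M) * (π ^ i • M) = 0 := by
    rw [← h, add_mul, mul_add, ← map_mul, he, map_one, mul_one, one_mul, add_comm 1 (φ e), L.m2]
  rw [smul_mul_smul_comm, ← pow_add, ← one_mul (M * M), ← smul_mul_assoc,
    (hM.mul hM).mul_left_eq_zero] at e1
  exact pow_eq_zero_of_le (by omega : i + i ≤ _) (by simpa using congrFun (congrFun e1 0) 0)

end Lv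

theorem zero_of_det (h2 : ∀ a : A, a + a = 0) {𝓔 : AddSubgroup (M2 A)}
    (it : ∀ D ∈ 𝓔, uM 1 * D * uM 1 ∈ 𝓔) (iw : ∀ D ∈ 𝓔, wM * D * wM ∈ 𝓔)
    (hr : ∀ D ∈ 𝓔, ∀ i j, D i j * D i j = 0 → D i j = 0) (hd : ∀ D ∈ 𝓔, D.det = 0) :
    ∀ D ∈ 𝓔, D = 0 := by
  have two : (2 : A) = 0 := by rw [← one_add_one_eq_two, h2]
  have h1 : ∀ D ∈ 𝓔, D 1 0 = 0 := by
    intro D hD
    have := hd _ (add_mem hD (it D hD))
    refine hr D hD 1 0 ?_
    obtain ⟨p, q, r, s, rfl⟩ := m2ex D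
    simp only [uM, m2mul, m2add, Matrix.det_fin_two_of] at this
    change r * r = 0
    grind
  have h0 : ∀ D ∈ 𝓔, D 0 1 = 0 := by
    intro D hD
    have := h1 _ (iw D hD)
    obtain ⟨p, q, r, s, rfl⟩ := m2ex D
    simpa [wM, m2mul] using this
  intro D hD
  have a1 := h1 D hD
  have a2 := h0 D hD
  have a3 := h0 _ (add_mem hD (it D hD))
  have a4 := hd D hD
  have a5 := hr D hD 0 0
  obtain ⟨p, q, r, s, rfl⟩ := m2ex D
  simp only [uM, m2mul, m2add] at a3
  rw [Matrix.det_fin_two_of] at a4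
  change r = 0 at a1
  change q = 0 at a2
  change q + _ = 0 at a3
  change p * p = 0 → p = 0 at a5
  have : p = 0 := a5 (by grind)
  rw [m2zero]
  refine m2ext this a2 a1 (by grind)

namespace Lv
variable (L : Lv ρ Ψ φ red π κ x y)
include L

omit L in
/-- `e ∈ Ω₁ Z(Q)`, `Q` the kernel of the reduction. -/
def Zp (φ : G →* M2 A) (red : A →+* A) (e : G) : Prop :=
  red.mapMatrix (φ e) = 1 ∧ (∀ q, red.mapMatrix (φ q) = 1 → e * q = q * e) ∧ e * e = 1

theorem Q_conj (g : G) {q : G} (h : red.mapMatrix (φ q) = 1) :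
    red.mapMatrix (φ (g * q * g⁻¹)) = 1 := by
  rw [map_mul, map_mul, map_mul, map_mul, h, mul_one, ← map_mul, L.φ_mul_inv, map_one]

omit L in
theorem Zp.mul {a b : G} (ha : Zp φ red a) (hb : Zp φ red b) : Zp φ red (a * b) :=
  ⟨by rw [map_mul, map_mul, ha.1, hb.1, one_mul],
    fun q hq => by rw [mul_assoc, hb.2.1 q hq, ← mul_assoc, ha.2.1 q hq, mul_assoc],
    by rw [mul_assoc, ← mul_assoc b, ← ha.2.1 b hb.1, mul_assoc, hb.2.2, mul_one, ha.2.2]⟩

theorem Zp_conj (g : G) {e : G} (h : Zp φ red e) : Zp φ red (g * e * g⁻¹) :=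
  ⟨L.Q_conj g h.1, fun q hq => by
    have := h.2.1 _ (L.Q_conj g⁻¹ hq)
    calc g * e * g⁻¹ * q = g * (e * (g⁻¹ * q * g⁻¹⁻¹)) * g⁻¹ := by group
      _ = _ := by rw [this]; group,
    by calc g * e * g⁻¹ * (g * e * g⁻¹) = g * (e * e) * g⁻¹ := by group
      _ = 1 := by rw [h.2.2]; group⟩

theorem lvl_mul {a b : G} {i : ℕ} {M N : M2 A} (ha : φ a + 1 = π ^ (i + 1) • M)
    (hb : φ b + 1 = π ^ (i + 1) • N) : ∃ K, φ (a * b) + 1 = π ^ (i + 1) • K ∧
      red.mapMatrix K = red.mapMatrix M + red.mapMatrix N := by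
  refine ⟨M + N + π ^ (i + 1) • (M * N), ?_, ?_⟩
  · rw [smul_add, smul_add, smul_smul, ← smul_mul_smul_comm, ← ha, ← hb, map_mul]
    letI := mod2 L.m2
    apply z2
    simp only [mul_add, add_mul, mul_one, one_mul]
    match_scalars <;> decide
  · rw [map_add, map_add, L.red_smul, map_pow, L.r0, zero_pow (by omega), zero_smul, add_zero]

theorem lvl_conj (g : G) {e : G} {i : ℕ} {M : M2 A} (h : φ e + 1 = π ^ i • M) :
    φ (g * e * g⁻¹) + 1 = π ^ i • (φ g * M * φ g⁻¹) := by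
  rw [← smul_mul_assoc, ← mul_smul_comm, ← h, mul_add, add_mul, mul_one, L.φ_mul_inv, map_mul,
    map_mul]

/-- The leading terms of level `i + 1` of `Ω₁ Z(Q)`. -/
def lead (i : ℕ) : AddSubgroup (M2 A) where
  carrier := {D | ∃ e M, Zp φ red e ∧ φ e + 1 = π ^ (i + 1) • M ∧ red.mapMatrix M = D}
  zero_mem' := ⟨1, 0, ⟨by simp, by simp, by simp⟩, by rw [map_one, L.m2, smul_zero], map_zero _⟩
  add_mem' := by
    rintro _ _ ⟨a, M, ha, hM, rfl⟩ ⟨b, N, hb, hN, rfl⟩
    obtain ⟨K, h1, h2⟩ := L.lvl_mul hM hN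
    exact ⟨_, K, ha.mul hb, h1, h2⟩
  neg_mem' := fun {D} hD => by rwa [neg_eq_of_add_eq_zero_right (L.m2 D)]

theorem lead_conj {i : ℕ} {g : G} {M N : M2 A} (h : red.mapMatrix (φ g) = M) (h1 : M * N = 1) :
    ∀ D ∈ L.lead i, M * D * N ∈ L.lead i := by
  rintro _ ⟨e, K, he, hK, rfl⟩
  exact ⟨_, _, L.Zp_conj g he, L.lvl_conj g hK, by rw [map_mul, map_mul, h, L.θ_inv h h1]⟩

theorem lvl_up {e : G} {i : ℕ} {M : M2 A} (h : φ e + 1 = π ^ i • M) (h0 : red.mapMatrix M = 0) :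
    ∃ N, φ e + 1 = π ^ (i + 1) • N := by
  obtain ⟨N, rfl⟩ := L.dvdM0 h0
  exact ⟨N, by rw [h, smul_smul, pow_succ]⟩

variable {n : ℕ} (H : Half Ψ π n)
include H

theorem Z_lvl {i : ℕ} (hi : i ≤ n) : ∀ e, Zp φ red e → ∃ M, φ e + 1 = π ^ (i + 1) • M := by
  induction i with
  | zero =>
    intro e he
    exact L.lvl_up (M := φ e + 1) (by rw [pow_zero, one_smul])
      (by rw [map_add, he.1, map_one, L.m2])
  | succ i ih =>
    intro e he
    obtain ⟨M, hM⟩ := ih (by omega) e he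
    obtain ⟨t, ht⟩ := L.sur_u (one_mem (Rg κ))
    refine L.lvl_up hM (zero_of_det L.h2 (𝓔 := L.lead i) (L.lead_conj ht (uM_sq L.h2 1))
      (L.lead_conj (g := x * t) (by rw [map_mul, map_mul, L.θx, ht, xM_uM L.h2])
        (by simp [wM, m2mul, m2one])) ?_ ?_ _ ⟨e, M, he, hM, rfl⟩)
    · rintro _ ⟨e, M, he, hM, rfl⟩ i j h
      change red (M i j) * red (M i j) = 0 at h
      change red (M i j) = 0
      rw [← L.rr]; exact L.of_nil ⟨2, by rw [sq, h]⟩
    · rintro _ ⟨e, M, he, hM, rfl⟩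
      rw [← RingHom.map_det]
      exact L.lvl_low H he.2.2 hi hM

theorem x_Z {e : G} (he : Zp φ red e) : x * e = e * x := by
  obtain ⟨M, hM⟩ := L.Z_lvl H le_rfl e he
  obtain ⟨t, ht⟩ := L.sur_u (one_mem (Rg κ))
  obtain ⟨u, hu⟩ := L.sur_u (self_mem_Rg κ)
  obtain ⟨μ, -, h1, h1', -⟩ := L.ss.inv
  obtain ⟨d, hd⟩ := L.sur_d (self_mem_Rg κ) h1
  have hc := bc L.h2 (𝓔 := L.lead n) h1 h1' (by rw [add_comm]; exact L.un)
    (L.lead_conj ht (uM_sq L.h2 1)) (L.lead_conj L.θx (xM_mul_inv L.h2).1)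
    (L.lead_conj hu (uM_sq L.h2 κ)) (L.lead_conj hd (by rw [dM_mul, h1, h1', dM_one]))
    (by
      rintro θ ⟨e, M, he, hM, h⟩
      have := L.lvl_top H he.2.2 hM (by rw [RingHom.map_det, h]; simp)
      rw [h] at this
      exact congrFun (congrFun this 0) 1) _ ⟨e, M, he, hM, rfl⟩
  obtain ⟨K, k1, k2⟩ := L.lvl_mul hM (L.lvl_conj x hM)
  rw [map_mul, map_mul, L.θx, L.θ_inv L.θx (xM_mul_inv L.h2).1, hc, mul_assoc,
    (xM_mul_inv L.h2).1, mul_one, L.m2] at k2
  obtain ⟨N, hN⟩ := L.lvl_up k1 k2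
  have := L.lvl_succ H (he.mul (L.Zp_conj x he)).2.2 hN
  calc x * e = e * (e * (x * e * x⁻¹)) * x := by rw [← mul_assoc e e, he.2.2]; group
    _ = e * x := by rw [this, mul_one]

omit H in
theorem Q_two {q : G} (h : red.mapMatrix (φ q) = 1) : ∃ k : ℕ, q ^ 2 ^ k = 1 := by
  obtain ⟨N, hN⟩ := L.dvdM0 (M := φ q + 1) (by rw [map_add, h, map_one, L.m2])
  obtain ⟨J, hJ⟩ := L.frob
  refine ⟨J, L.φinj (eq_of_add L.m2 ?_)⟩
  have := add_pow_two_pow L.m2 (show φ q * 1 = 1 * φ q by simp) J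
  rw [hN, smul_pow, ← hJ, L.r0, zero_smul, one_pow] at this
  rw [map_pow, map_one, ← this]

theorem Q_cent {q : G} (h : red.mapMatrix (φ q) = 1) (g : G) : g * q = q * g := by
  let Q : Subgroup G := (red.mapMatrix.toMonoidHom.comp φ).ker
  have hx : ∀ q, red.mapMatrix (φ q) = 1 → x * q = q * x := by
    by_contra hn
    push Not at hn
    obtain ⟨e, he, h1, h2, h3⟩ := L.hyp.z1 L.x3 (D := Q)
      (fun q => let ⟨k, hk⟩ := L.Q_two (q := q) q.2; ⟨k, Subtype.ext hk⟩)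
      (fun d hd => L.Q_conj x hd) hn
    exact h3 (L.x_Z H ⟨he, h1, h2⟩)
  obtain ⟨u, hu⟩ := L.sur_u (self_mem_Rg κ)
  have hy' : ∀ q, red.mapMatrix (φ q) = 1 → u * x * u⁻¹ * q = q * (u * x * u⁻¹) := fun q hq => by
    have := hx _ (L.Q_conj u⁻¹ hq)
    calc u * x * u⁻¹ * q = u * (x * (u⁻¹ * q * u⁻¹⁻¹)) * u⁻¹ := by group
      _ = _ := by rw [this]; group
  have hq : red.mapMatrix (φ ((u * x * u⁻¹)⁻¹ * y)) = 1 := by
    rw [map_mul, map_mul, L.hy, ← L.θx, ← hu, ← map_mul, ← map_mul, ← map_mul, ← map_mul,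
      ← map_mul, ← map_mul, show (u * x * u⁻¹)⁻¹ * (u * x * u) = u * x⁻¹ * (u⁻¹ * u) * x * u by group,
      inv_mul_cancel, mul_one, inv_mul_cancel_right, map_mul, map_mul, hu, uM_sq L.h2]
  have hy : y = u * x * u⁻¹ := by
    obtain ⟨k, hk⟩ := L.Q_two hq
    have c : Commute (u * x * u⁻¹) ((u * x * u⁻¹)⁻¹ * y) := hy' _ hq
    have := c.mul_pow 3
    rw [mul_inv_cancel_left, ← L.y3, pow_orderOf_eq_one, L.y3, conj_pow, ← L.x3,
      pow_orderOf_eq_one, L.x3, mul_one, mul_inv_cancel, one_mul] at this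
    exact (inv_mul_eq_one.1 (eq_one_of_odd hk (by decide : Odd 3) this.symm)).symm
  have : closure {x, y} ≤ centralizer {q} := by
    rw [closure_le]
    rintro _ (rfl | rfl)
    · exact mem_centralizer_singleton_iff.2 (hx q h)
    · exact mem_centralizer_singleton_iff.2 (by rw [hy]; exact hy' q h)
  exact mem_centralizer_singleton_iff.1 (this (L.gen ▸ mem_top g))

theorem U_sq {g : G} {σ : A} (h : red.mapMatrix (φ g) = uM σ) : g * g = 1 := by
  have key : ∀ {g : G} {σ : A}, red.mapMatrix (φ g) = uM σ → σ ≠ 0 → g * g = 1 := by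
    intro g σ h h0
    have hσ : red (φ g 0 1) = σ := congrFun (congrFun h 0) 1
    have hu : IsUnit σ := (L.unit_or σ).resolve_right (by rwa [← hσ, L.rr, hσ])
    have c := congrArg φ (L.Q_cent H (q := g * g) (by rw [map_mul, map_mul, h, uM_sq L.h2]) x)
    have e := ch2 L.h2 (L.det g)
    have e1 : (φ g).trace • (φ g * xM + xM * φ g) = 0 := by
      rw [smul_add, ← smul_mul_assoc, ← mul_smul_comm, ← e, add_mul, mul_add, ← L.hx, ← map_mul,
        ← map_mul, ← map_mul, c, one_mul, mul_one, L.m2]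
    have hU : IsUnit (φ g * xM + xM * φ g) := by
      rw [Matrix.isUnit_iff_isUnit_det]
      refine L.unit_of ?_
      rw [RingHom.map_det, map_add, map_mul, map_mul, h, ← L.hx, L.θx]
      convert hu.mul hu using 1
      have two := L.two
      simp only [uM, xM, m2mul, m2add, Matrix.det_fin_two_of]
      grind
    rw [← one_mul (_ + _), ← smul_mul_assoc, hU.mul_left_eq_zero] at e1
    rw [← one_mul (φ g), ← smul_mul_assoc] at e
    nth_rewrite 3 [one_mul] at e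
    rw [e1, zero_mul, one_mul] at e
    exact L.φinj (by rw [map_mul, eq_of_add L.m2 e, map_one])
  by_cases h0 : σ = 0
  · obtain ⟨t, ht⟩ := L.sur_u (one_mem (Rg κ))
    have h1 : (1 : A) ≠ 0 := fun e => H.2 (by rw [← mul_one (π ^ _), e, mul_zero])
    rw [h0, uM_zero] at h
    have := key (g := g * t) (by rw [map_mul, map_mul, h, ht, one_mul]) h1
    rwa [mul_assoc, ← mul_assoc t, L.Q_cent H h t, mul_assoc, key ht h1, mul_one] at this
  · exact key h h0

omit H in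
theorem false_of {z : G} {a : A} (hz : φ z = a • 1) (h2 : z * z = 1) (h1 : z ≠ 1) : False := by
  obtain ⟨n, H⟩ := L.exists_half hz h2 h1
  haveI : Fact (Nat.Prime 2) := ⟨Nat.prime_two⟩
  have two := L.two
  obtain ⟨t, ht⟩ := L.sur_u (one_mem (Rg κ))
  have hzc : ∀ g, g * z = z * g := fun g => L.φinj (by simp [hz])
  obtain ⟨P, hP⟩ := (show IsPGroup 2 (closure {t, z}) from by
    intro g
    refine ⟨1, Subtype.ext ?_⟩
    obtain ⟨g, hg⟩ := g
    change g ^ 2 ^ 1 = 1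
    rw [pow_one, sq]
    have : ∃ σ, red.mapMatrix (φ g) = uM σ := by
      induction hg using closure_induction with
      | mem g hg =>
        rcases hg with rfl | rfl
        · exact ⟨1, ht⟩
        · refine ⟨0, ?_⟩
          have e := congrArg φ h2
          rw [map_mul, hz, map_one, smul_mul_smul_comm, mul_one] at e
          have e0 : a * a = 1 := by simpa using congrFun (congrFun e 0) 0
          have := L.of_nil (a := a + 1) ⟨2, by grind⟩
          rw [map_add, map_one] at this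
          rw [hz, L.red_smul, eq_of_add L.h2 this, map_one, one_smul, uM_zero]
      | one => exact ⟨0, by simp [uM_zero]⟩
      | mul a b _ _ ha hb =>
        obtain ⟨σ, ha⟩ := ha
        obtain ⟨τ, hb⟩ := hb
        exact ⟨_, by rw [map_mul, map_mul, ha, hb, uM_mul]⟩
      | inv a _ ha =>
        obtain ⟨σ, ha⟩ := ha
        exact ⟨σ, L.θ_inv ha (uM_sq L.h2 σ)⟩
    obtain ⟨σ, h⟩ := this
    exact L.U_sq H h).exists_le_sylow
  have htP : t ∈ (P : Subgroup G) := hP (subset_closure (Or.inl rfl))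
  have hzP : z ∈ (P : Subgroup G) := hP (subset_closure (Or.inr rfl))
  have htr : ∀ g ∈ (P : Subgroup G), (red.mapMatrix (φ g)).trace = 0 := fun g hg => by
    obtain ⟨k, hk⟩ := P.2 ⟨g, hg⟩
    exact L.tr_two (k := k) (congrArg Subtype.val hk)
  have hsq : ∀ g ∈ (P : Subgroup G), g * g = 1 := by
    intro g hg
    have a1 := htr g hg
    have a2 := htr _ (mul_mem htP hg)
    have a3 : (red.mapMatrix (φ g)).det = 1 := by rw [← RingHom.map_det, L.det, map_one]
    have a4 : red (red.mapMatrix (φ g) 0 0) = red.mapMatrix (φ g) 0 0 := L.rr _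
    rw [map_mul, map_mul, ht] at a2
    obtain ⟨p, q, r, s, e⟩ := m2ex (red.mapMatrix (φ g))
    rw [e] at a1 a2 a3 a4
    simp only [uM, m2mul, Matrix.trace_fin_two_of, Matrix.det_fin_two_of] at a1 a2 a3
    change red p = p at a4
    have := L.of_nil (a := p + 1) ⟨2, by grind⟩
    rw [map_add, map_one, a4] at this
    exact L.U_sq H (σ := q) (e.trans (m2ext (by grind) rfl (by grind) (by grind)))
  letI : CommGroup P := { (inferInstance : Group P) with
    mul_comm := fun a b => by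
      have e : ∀ c : P, c⁻¹ = c := fun c => inv_eq_of_mul_eq_one_right (Subtype.ext (hsq c c.2))
      rw [← e (a * b), mul_inv_rev, e, e] }
  have h3 : ∀ g : G, orderOf g = 3 → (MonoidHom.id P).transfer g = 1 := fun g hg => by
    refine eq_one_of_odd (k := 1) (Subtype.ext ?_) (by decide : Odd 3)
      (by rw [← map_pow, ← hg, pow_orderOf_eq_one, map_one])
    rw [pow_one, sq]; exact hsq _ (Subtype.property _)
  have hk : closure {x, y} ≤ (MonoidHom.id P).transfer.ker := by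
    rw [closure_le]
    rintro _ (rfl | rfl)
    · exact h3 _ L.x3
    · exact h3 _ L.y3
  have hz1 : (MonoidHom.id P).transfer z = 1 := hk (L.gen ▸ mem_top z)
  rw [MonoidHom.transfer_eq_pow _ z (fun k g _ => by
    rw [mul_assoc, ← ((show Commute g z from hzc g).pow_right k).eq, inv_mul_cancel_left])] at hz1
  exact h1 (eq_one_of_odd (k := 1) (by rw [pow_one, sq, h2])
    (Nat.not_even_iff_odd.1 fun h => P.not_dvd_index (even_iff_two_dvd.1 h))
    (congrArg Subtype.val hz1))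

end Lv

end CfsgLib.Gag
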