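import Cfsg.Agent.Lib.Gag.C13
import Cfsg.Agent.Lib.Gag.Lev

/-!
# Gagola's theorem: all elements of the spread set are semisimple (plans/GAG.md, package SSP)
-/

set_option autoImplicit false
set_option linter.unusedSectionVars false
set_option linter.unusedVariables false

namespace CfsgLib.Gag
open Cfsg Subgroup

variable {G W : Type*} [Group G] [Finite G] [AddCommGroup W] [Module (ZMod 2) W] [Finite W]
  {φ : G →* Mx W} {x t : G}

theorem Fr.tg (hF : Fr φ x t) {α : E2 W} (hα : InA φ α) (h0 : α ≠ 0) (h1 : α ≠ 1) :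
    ∃ s η, TG φ α s η := by
  obtain ⟨a, ha⟩ := hα
  have uα := hF.unit ⟨a, ha⟩ h0
  have uα' := hF.unit (InA.add ⟨a, ha⟩ hF.inA_one) fun e => h1 (eq_of_add two_eq e)
  have hy : orderOf (a * x * a⁻¹) = 3 := by
    rw [← hF.ord]; exact (MulAut.conj a).orderOf_eq x
  have ai : φ a⁻¹ = uM α :=
    left_inv_eq_right_inv (by rw [← ha, ← map_mul, inv_mul_cancel, map_one]) (uM_sq two_eq α)
  have e1 : rep φ x + rep φ (a * x * a⁻¹) = toE !![α, α + α * α; 0, α] := by
    rw [rep_apply, rep_apply, ← map_add, map_mul, map_mul, ha, ai, hF.hx]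
    congr 1
    simp only [xM, uM, m2mul, m2add]
    refine m2ext ?_ ?_ ?_ ?_ <;> apply z2 <;>
      simp only [mul_add, add_mul, mul_one, one_mul, mul_zero, zero_mul] <;> match_scalars <;> decide
  have e2 : cc (rep φ) x (a * x * a⁻¹) = toE (dM (α * α) (α * α)) := by
    rw [cc, e1, ← map_mul, m2mul, dM]
    congr 1
    refine m2ext ?_ ?_ ?_ ?_ <;> apply z2 <;>
      simp only [mul_add, add_mul, mul_one, one_mul, mul_zero, zero_mul, mul_assoc] <;> match_scalars <;> decide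
  have c0 : cc (rep φ) x (a * x * a⁻¹) ≠ 0 := fun e => by
    have := toE.injective (e2.symm.trans (e.trans (map_zero _).symm))
    rw [m2zero] at this
    exact h0 (uα.mul_right_eq_zero.1 (m2inj this).1)
  have c1 : cc (rep φ) x (a * x * a⁻¹) ≠ 1 := fun e => by
    have := toE.injective (e2.symm.trans (e.trans (map_one _).symm))
    rw [m2one] at this
    refine h1 (eq_of_add two_eq (uα'.mul_right_eq_zero.1 ?_))
    apply z2
    simp only [mul_add, add_mul, mul_one, one_mul, (m2inj this).1]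
    match_scalars <;> decide
  have ss : SS (α * α) := by
    obtain ⟨k, hk, e⟩ := hF.hyp.ss_cc hF.ord hy c0 c1
    rw [e2, ← map_pow, dM_pow] at e
    have := toE.injective (e.trans (map_one _).symm)
    rw [m2one] at this
    exact ⟨k, hk, (m2inj this).1⟩
  obtain ⟨τ, r, hr, ur, rr, rτ, -, -, hσ⟩ := hF.hyp.twoGen hF.ord hy c0 c1
  have sc := scalar_Rg (toE (W := W)).symm.toRingHom (c := cc (rep φ) x (a * x * a⁻¹)) (c₀ := α * α)
    (toE.symm_apply_eq.2 e2)
  obtain ⟨r₀, hr₀, er⟩ := sc.1 r hr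
  obtain rfl : r = toE (dM r₀ r₀) := toE.symm_apply_eq.1 er
  rw [e2, ← map_mul, ← map_mul, ← map_add, dM_mul, dM_mul, dM_add] at rr
  rw [e1, e2, rep_apply, ← map_mul, ← map_add] at rτ
  have rr₀ := (m2inj (toE.injective rr)).1
  have rτ₀ := toE.injective rτ
  have hαα := self_mem_Rg (α * α)
  have le : Rg (α * α) ≤ Rg α := Rg_le (mul_mem (self_mem_Rg α) (self_mem_Rg α))
  have u₀ : IsUnit r₀ := isUnit_of_mul_isUnit_left (y := r₀) (by
    have : α * α + α * α * (α * α) = α * α * ((α + 1) * (α + 1)) := by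
      apply z2
      simp only [mul_add, add_mul, mul_one, one_mul, mul_assoc]
      match_scalars <;> decide
    rw [rr₀, this]
    exact ss.isUnit.mul (uα'.mul uα'))
  obtain ⟨r', hr', r1, r2, -⟩ := (ss.of_unit two_eq hr₀ u₀).inv
  replace hr' := le (Rg_le hr₀ hr')
  have hs := add_mem hr₀ hαα
  have kk : (r₀ + α * α) * (r₀ + α * α) = α * α := by
    apply z2
    simp only [mul_add, add_mul, rr₀, Rg_comm hr₀ hαα]
    match_scalars <;> decide
  have sr : r₀ + α * α + (r₀ + α * α) * (r₀ + α * α) = r₀ := by rw [kk, add_assoc, two_eq, add_zero]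
  have hd := add_mem (self_mem_Rg α) (le hs)
  have hη := mul_mem hr' hd
  have ηη : r' * (α + (r₀ + α * α)) * (r' * (α + (r₀ + α * α))) = 0 := by
    rw [mul_assoc, assoc_rw (Rg_comm hd hr'), mul_assoc, add_mul α, mul_add α, mul_add (r₀ + α * α) α, kk,
      Rg_comm (le hs) (self_mem_Rg α), add_assoc, ← add_assoc (α * (r₀ + _)), two_eq, zero_add, two_eq,
      mul_zero, mul_zero]
  have eτ : φ τ = dM (1 + r' * (α + (r₀ + α * α))) (1 + r' * (α + (r₀ + α * α))) * uM 1 := by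
    have e : 1 + r' * (α + (r₀ + α * α)) = r' * (α + α * α) := by
      apply z2
      simp only [mul_add, r2]
      match_scalars <;> decide
    rw [← one_mul (φ τ), ← dM_one, ← r2, ← dM_mul, mul_assoc, rτ₀, r2, e]
    simp [dM, uM]
  obtain ⟨σ, hσ', eσ⟩ := sc.2 _ hs
  obtain ⟨g, hg⟩ := hσ σ hσ'
  obtain rfl : σ = toE (dM _ _) := toE.symm_apply_eq.1 eσ
  refine ⟨r₀ + α * α, r' * (α + (r₀ + α * α)), le hs, hη,
    ss.of_unit two_eq hs (isUnit_of_mul_isUnit_left (kk.symm ▸ ss.isUnit)), sr.symm ▸ u₀, ηη, ?_,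
    ⟨τ * t, by rw [map_mul, eτ, hF.ht, mul_assoc, uM_sq two_eq, mul_one]⟩, g, ?_⟩
  · rw [sr, assoc_rw r1, one_mul, add_comm α, ← add_assoc, two_eq, zero_add]
  · have c := Rg_comm (le hs) hη
    rw [pM_uM two_eq ηη c]
    refine toE.injective (hg.trans ?_)
    rw [rep_apply, ← map_one toE, ← map_add, ← map_mul, ← map_add, eτ]
    congr 1
    generalize r' * (α + (r₀ + α * α)) = η at c
    generalize r₀ + α * α = s at c
    simp only [dM, uM, m2one, m2mul, m2add]
    refine m2ext ?_ ?_ ?_ ?_ <;> apply z2 <;>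
      simp only [mul_add, add_mul, mul_one, one_mul, mul_zero, zero_mul, c] <;> match_scalars <;> decide

theorem Fr.not_cent (hF : Fr φ x t) (hg : Good φ) {g z : G} (he : g * z * g⁻¹ ∈ Aq (rep φ) t) (z1 : z ≠ 1) :
    ¬ ∀ a ∈ Aq (rep φ) z, x * a = a * x := fun h => hF.c3 hg hF.ord g⁻¹ fun a ha => h a (by
  rw [← Aq_conj g, hF.hyp.Aq_eq hF.tt hF.t_ne he (by simpa using z1)]
  simpa [mul_assoc] using (Aq_conj g _ a).2 ha)

theorem dM_uM {R : Type*} [Ring R] {n θ : R} (h : n * θ = θ * n) : dM n n * uM θ = uM θ * dM n n := by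
  simp [dM, uM, h]

theorem Fr.conj_dM (hF : Fr φ x t) {β μ n θ : E2 W} (hβ : InA φ β) (hs : SS β) (hμ : μ ∈ Rg β) (hu : IsUnit μ)
    (hn : n * μ = μ * n) {a : G} (ha : φ a = dM n n * uM θ) : ∃ h, φ (h * a * h⁻¹) = dM n n * uM (μ * θ * μ) := by
  obtain ⟨μ', hμ', e1, e2, -⟩ := (hs.of_unit two_eq hμ hu).inv
  obtain ⟨h, hh⟩ := (hF.torA hβ hs).2 μ hμ μ' e1 e2
  have hi : φ h⁻¹ = dM μ' μ := left_inv_eq_right_inv (a := φ h) (by rw [← map_mul, inv_mul_cancel, map_one])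
    (by rw [hh, dM_mul, e1, e2, dM_one])
  refine ⟨h, ?_⟩
  rw [map_mul, map_mul, hh, hi, ha, ← dM_uM_dM _ _ _ _ _ e1 e2, ← mul_assoc, ← mul_assoc, ← mul_assoc, dM_mul,
    dM_mul, hn, comm_Rg hn hμ']

theorem Fr.ss (hF : Fr φ x t) (hg : Good φ) : ∀ α, InA φ α → α ≠ 0 → SS α := by
  intro α hα h0
  by_cases h1 : α = 1
  · exact ⟨1, odd_one, by rw [h1, pow_one]⟩
  obtain ⟨s, η, hT⟩ := hF.tg hα h0 h1
  by_cases η0 : η = 0
  · rw [hT.eq, η0, mul_zero, add_zero]; exact hT.ss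
  exfalso
  obtain ⟨β, ⟨b, hb⟩, β1, βs⟩ := id hg
  have nc : β * η ≠ η * β := fun e => η0 (hF.c1 ⟨b, hb⟩ β1 βs hα hT e)
  have ηη := hT.sq
  have sη : s * η = η * s := Rg_comm hT.s_mem hT.η_mem
  obtain ⟨z, hz⟩ := hT.z
  obtain ⟨g, hgs⟩ := hT.u
  have hF' := hF.frP ηη hz
  have hs' : InA (conjP φ ηη) s := ⟨g, by
    rw [conjP_apply, hgs, ← mul_assoc, ← mul_assoc, pM_sq two_eq ηη, one_mul, mul_assoc, pM_sq two_eq ηη, mul_one]⟩
  have s1 : s ≠ 1 := fun e => hF.one_ne (hT.un.mul_right_eq_zero.1 (by rw [e, mul_one, mul_one, two_eq]))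
  have us1 : IsUnit (1 + s) := isUnit_of_mul_isUnit_right (x := s) (by rw [mul_add, mul_one]; exact hT.un)
  have mm : (1 + η) * (1 + η) = 1 := by
    apply z2
    simp only [mul_add, add_mul, mul_one, one_mul, ηη]
    match_scalars <;> decide
  have zz : z * z = 1 := hF.inj (by rw [map_mul, hz, dM_mul, mm, dM_one, map_one])
  have z1 : z ≠ 1 := fun e => η0 (by
    rw [e, map_one, m2one] at hz
    simpa using (m2inj hz).1)
  have hz' : conjP φ ηη z = dM (1 + η) (1 + η) := by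
    rw [conjP_apply, hz, pM_dM (by rw [add_mul, mul_add, one_mul, mul_one]), mul_assoc, pM_sq two_eq ηη, mul_one]
  have cz := hF'.cent_Aq hs' s1 hT.ss zz z1 hz' (by rw [add_mul, mul_add, one_mul, mul_one, sη])
  obtain ⟨γ, hγ⟩ : ∃ γ, γ = β * η + η * β + η * β * η := ⟨_, rfl⟩
  have bi : φ b⁻¹ = uM β := left_inv_eq_right_inv (by rw [← hb, ← map_mul, inv_mul_cancel, map_one]) (uM_sq two_eq β)
  have ha : φ (z * (b * z * b⁻¹)) = uM γ := by
    rw [map_mul, map_mul, map_mul, hz, hb, bi, ← mul_assoc, ← mul_assoc, dM_uM_dM _ _ _ _ _ mm mm, uM_mul, hγ]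
    congr 1
    apply z2
    simp only [mul_add, add_mul, mul_one, one_mul]
    match_scalars <;> decide
  have γη : γ * η = η * γ := by
    simp only [hγ, mul_add, add_mul, mul_assoc, ηη, assoc_rw ηη, mul_zero, zero_mul, add_zero, zero_add]
  have γ0 : γ ≠ 0 := fun e => by
    have e1 : η * β * η = 0 := by
      have := congrArg (η * ·) (hγ.symm.trans e)
      simpa only [mul_add, mul_assoc, assoc_rw ηη, zero_mul, add_zero, mul_zero] using this
    rw [e, e1, add_zero] at hγ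
    exact nc (eq_of_add two_eq hγ.symm)
  have sγ : η * (s * γ) = η * (γ * s) := by
    have sq : (1 + η * s) * (1 + η * s) = 1 := by
      apply z2
      simp only [mul_add, add_mul, mul_one, one_mul, mul_assoc, assoc_rw sη, assoc_rw ηη, zero_mul]
      match_scalars <;> decide
    have h2 := (hF.conjA (hgs.trans (pM_uM two_eq ηη sη)) sq sq ⟨_, ha⟩).add ⟨_, ha⟩
    have e : (1 + η * s) * γ * (1 + η * s) + γ = η * (s * γ) + η * (γ * s) := by
      apply z2
      simp only [mul_add, add_mul, mul_one, one_mul, mul_assoc, assoc_rw sη, assoc_rw γη, assoc_rw ηη, zero_mul]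
      match_scalars <;> decide
    rw [e] at h2
    by_contra h3
    exact η0 ((hF.unit h2 fun e => h3 (eq_of_add two_eq e)).mul_left_eq_zero.1
      (by simp only [mul_add, assoc_rw ηη, zero_mul, add_zero]))
  obtain ⟨n, hn⟩ : ∃ n, n = 1 + η * γ := ⟨_, rfl⟩
  obtain ⟨γ', hγ'⟩ : ∃ γ', γ' = γ + η * γ + η * (γ * γ) := ⟨_, rfl⟩
  have nn : n * n = 1 := by
    apply z2
    simp only [hn, mul_add, add_mul, mul_one, one_mul, mul_assoc, assoc_rw γη, assoc_rw ηη, zero_mul]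
    match_scalars <;> decide
  have nγ : n * γ' = γ + η * γ := by
    apply z2
    simp only [hn, hγ', mul_add, add_mul, mul_one, one_mul, mul_assoc, assoc_rw γη, assoc_rw ηη, zero_mul]
    match_scalars <;> decide
  have γn : n * γ' = γ' * n := by
    apply z2
    simp only [hn, hγ', mul_add, add_mul, mul_one, one_mul, mul_assoc, assoc_rw γη, assoc_rw ηη, zero_mul]
    match_scalars <;> decide
  have ns : n * s = s * n := by
    simp only [hn, mul_add, add_mul, mul_one, one_mul, mul_assoc, assoc_rw sη, sγ]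
  have γη' : γ' * η = η * γ := by
    simp only [hγ', add_mul, mul_assoc, γη, assoc_rw γη, assoc_rw ηη, zero_mul, add_zero]
  have ηγ' : η * γ' = η * γ := by simp only [hγ', mul_add, assoc_rw ηη, zero_mul, add_zero]
  have ha' : conjP φ ηη (z * (b * z * b⁻¹)) = dM n n * uM γ' := by
    rw [conjP_apply, ha, pM_uM two_eq ηη γη, ← hn, ← nγ]
    simp [dM, uM]
  obtain ⟨h₁, e₁⟩ := hF'.conj_dM hs' hT.ss (self_mem_Rg s) hT.ss.isUnit ns ha'
  obtain ⟨h₂, e₂⟩ := hF'.conj_dM hs' hT.ss (add_mem (one_mem _) (self_mem_Rg s)) us1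
    (by rw [add_mul, mul_add, one_mul, mul_one, ns]) ha'
  have hb' : conjP φ ηη (b * z * b⁻¹) = dM (1 + η * (γ' + 1)) (1 + η * (γ' + 1)) * uM γ' := by
    rw [← one_mul (b * z * b⁻¹), ← zz, mul_assoc, map_mul, ha', hz', ← mul_assoc, dM_mul]
    congr 2 <;> apply z2 <;>
      simp only [hn, mul_add, add_mul, mul_one, one_mul, assoc_rw ηη, zero_mul, ηγ'] <;> match_scalars <;> decide
  generalize z * (b * z * b⁻¹) = a at e₁ e₂ ha'
  have c1 : n * (s * γ' * s) = s * γ' * s * n := by simp only [mul_assoc, assoc_rw ns, assoc_rw γn, ns]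
  have ed : conjP φ ηη (a * (h₁ * a * h₁⁻¹) * (h₂ * a * h₂⁻¹)) = dM n n * uM (s * γ' + γ' * s) := by
    rw [map_mul, map_mul, ha', e₁, e₂, dM_uM γn, mul_assoc (uM γ'), ← mul_assoc (dM n n), dM_mul, nn, dM_one,
      one_mul, uM_mul, ← mul_assoc, ← dM_uM (by rw [mul_add, add_mul, c1, γn]), mul_assoc, uM_mul]
    congr 2
    apply z2
    simp only [mul_add, add_mul, mul_one, one_mul, mul_assoc]
    match_scalars <;> decide
  have hd := cz _ (hF'.hyp.mem_Aq_of_quad zz z1 (b := a * (h₁ * a * h₁⁻¹) * (h₂ * a * h₂⁻¹)) (by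
    rw [rep_apply, rep_apply, ← map_one toE, ← map_add, ← map_add, ← map_mul, ← map_zero toE, ed, hz']
    congr 1
    simp only [dM, uM, m2one, m2mul, m2add, m2zero]
    refine m2ext ?_ ?_ ?_ ?_ <;> apply z2 <;>
      simp only [hn, mul_add, add_mul, mul_one, one_mul, mul_zero, zero_mul, mul_assoc, γη, γη', sη, assoc_rw sη,
        assoc_rw γη, assoc_rw γη', assoc_rw ηη, ηη, sγ] <;> match_scalars <;> decide))
  have Y0 : s * γ' = γ' * s := by
    have := congrArg (conjP φ ηη) hd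
    rw [map_mul _ x, map_mul _ _ x, ed, hF'.hx] at this
    simp only [dM, uM, xM, m2mul, mul_one, one_mul, mul_zero, zero_mul, add_zero, zero_add] at this
    exact eq_of_add two_eq ((IsUnit.of_mul_eq_one _ nn).mul_right_eq_zero.1 (m2inj this).1.symm)
  rw [Y0, two_eq, uM_zero, mul_one] at ed
  have iγ : InA (conjP φ ηη) γ' := ⟨_ * a, by rw [map_mul, ed, ha', ← mul_assoc, dM_mul, nn, dM_one, one_mul]⟩
  by_cases γ1 : γ' = 1
  · rw [γ1, two_eq, mul_zero, add_zero, dM_one, one_mul] at hb'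
    exact hF'.not_cent ⟨s, hs', s1, hT.ss⟩ (hF'.memA.2 ⟨1, hb'⟩) z1 cz
  have γ0' : γ' ≠ 0 := fun e => γ0 (by
    rw [e, mul_zero] at nγ ηγ'
    rw [← ηγ', add_zero] at nγ
    exact nγ.symm)
  obtain ⟨s₂, η₂, hT₂⟩ := hF'.tg iγ γ0' γ1
  have ss : SS γ' := by
    rw [hT₂.eq, hF'.c1 hs' s1 hT.ss iγ hT₂ (comm_Rg Y0 hT₂.η_mem), mul_zero, add_zero]
    exact hT₂.ss
  obtain ⟨δ, hδ, d1, d2, -⟩ := ss.inv
  have g1 := add_mem (self_mem_Rg γ') (one_mem _)
  obtain ⟨ν, hν, νν⟩ := ss.sqrt two_eq (mul_mem hδ g1)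
  replace hν := Rg_le (mul_mem hδ g1) hν
  have cη : η * γ' = γ' * η := ηγ'.trans γη'.symm
  have uν : IsUnit ν := isUnit_of_mul_isUnit_left (νν.symm ▸ (IsUnit.of_mul_eq_one _ d2).mul
    (hF'.unit (iγ.add hF'.inA_one) fun e => γ1 (eq_of_add two_eq e)))
  obtain ⟨h₃, e₃⟩ := hF'.conj_dM iγ ss hν uν (by
    rw [add_mul, mul_add ν, one_mul, mul_one, mul_assoc, Rg_comm g1 hν, ← mul_assoc, comm_Rg cη hν, mul_assoc]) hb'
  rw [Rg_comm hν (self_mem_Rg γ'), mul_assoc γ', νν, assoc_rw d1, one_mul, conjP_apply] at e₃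
  have c2 := (comm_Rg cη g1).symm
  generalize γ' + 1 = κ at e₃ c2
  have e₄ : φ (h₃ * b * z * (h₃ * b)⁻¹) = uM ((1 + η * κ) * (κ + η * κ)) := by
    have kk : (1 + η * κ) * (1 + η * κ) = 1 := by
      apply z2
      simp only [mul_add, add_mul, mul_one, one_mul, mul_assoc, assoc_rw c2, assoc_rw ηη, zero_mul]
      match_scalars <;> decide
    calc _ = pM η * (pM η * φ (h₃ * (b * z * b⁻¹) * h₃⁻¹) * pM η) * pM η := by
          simp only [mul_assoc, pM_sq two_eq ηη, assoc_rw (pM_sq two_eq ηη), one_mul, mul_one, mul_inv_rev]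
      _ = _ := by
          rw [e₃, ← mul_assoc, pM_dM (by rw [add_mul, mul_add, one_mul, mul_one, mul_assoc, c2]), mul_assoc,
            mul_assoc, ← mul_assoc (pM η), pM_uM two_eq ηη c2]
          simp [dM, uM, kk]
  exact hF.not_cent hg (hF.memA.2 ⟨_, e₄⟩) z1 (Aq_conjP ηη z ▸ cz)

end CfsgLib.Gag
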