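import Cfsg.Agent.Lib.Gag.Defs
import Cfsg.Agent.Lib.ChDeg.Gagola
import Cfsg.Agent.Lib.Frob.Nilpotent
import Cfsg.Agent.Lib.Core.Cores

/-!
# Gagola's theorem: from the character to the linear group (plans/GAG.md, package TOP)
-/

set_option autoImplicit false
set_option linter.unusedSectionVars false
set_option linter.unusedVariables false

namespace CfsgLib.Gag
open Cfsg Subgroup

universe u

/-- A group acting on an elementary abelian group: the linear representation. -/
theorem top_rep {G : Type*} [Group G] {A : Type u} [CommGroup A] {p : ℕ} [Fact p.Prime]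
    [Module (ZMod p) (Additive A)] (φ : G →* MulAut A) :
    ∃ ρ : G →* Module.End (ZMod p) (Additive A),
      ∀ (g : G) (a : A), ρ g (Additive.ofMul a) = Additive.ofMul (φ g a) := by
  refine ⟨⟨⟨fun g => (MonoidHom.toAdditive (φ g).toMonoidHom).toZModLinearMap p, ?_⟩,
    fun a b => ?_⟩, fun g a => rfl⟩
  · ext v
    simp
  · ext v
    simp

theorem top_tr {H : Type*} [Group H] {A : Type u} [CommGroup A] [Finite A] {p : ℕ} [Fact p.Prime]
    (hA : ∀ a : A, a ^ p = 1) (φ : H →* MulAut A) (hi : ∀ g, φ g = 1 → g = 1) (hnt : ∃ a : A, a ≠ 1)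
    (htr : ∀ a b : A, a ≠ 1 → b ≠ 1 → ∃ g, φ g a = b)
    (hst : ∀ (g : H) (a : A), a ≠ 1 → φ g a = a → ∃ k : ℕ, g ^ p ^ k = 1) :
    ∃ (V : Type u) (_ : AddCommGroup V) (_ : Module (ZMod p) V) (_ : Finite V)
      (ρ : H →* Module.End (ZMod p) V), Tr p ρ := by
  let _ : Module (ZMod p) (Additive A) := AddCommGroup.zmodModule (fun v => hA v.toMul)
  obtain ⟨ρ, hρ⟩ := top_rep (p := p) φ
  refine ⟨Additive A, inferInstance, inferInstance, inferInstance, ρ, ?_, ?_, ?_, ?_⟩
  · intro a b hab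
    have : φ a = φ b := by
      ext n
      have h1 := hρ a n
      rw [hab, hρ] at h1
      exact (Additive.ofMul.injective h1).symm
    rw [← mul_inv_eq_one]
    exact hi _ (by rw [map_mul, map_inv, this, mul_inv_cancel])
  · obtain ⟨a, ha⟩ := hnt
    exact ⟨Additive.ofMul a, ha⟩
  · intro v w hv hw
    obtain ⟨g, hg⟩ := htr v.toMul w.toMul hv hw
    exact ⟨g, (hρ g v.toMul).trans (congrArg Additive.ofMul hg)⟩
  · intro g v hv hg
    exact hst g v.toMul hv (Additive.ofMul.injective ((hρ g v.toMul).symm.trans hg))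

theorem exists_tr {G : Type u} [Group G] [Finite G] (hns : ¬ Group.IsSolvable G)
    (χ : IrrCharacter G)
    (hχ : Nat.card {C : ConjClasses G // ∃ g ∈ C.carrier, (χ : G → ℂ) g ≠ 0} = 2) :
    ∃ (p : ℕ) (_ : Fact p.Prime), (∀ q : ℕ, q.Prime → (pCore q G ≠ ⊥ ↔ q = p)) ∧
      ∃ (V : Type u) (_ : AddCommGroup V) (_ : Module (ZMod p) V) (_ : Finite V)
        (ρ : (G ⧸ pCore p G) →* Module.End (ZMod p) V), Tr p ρ := by
  have hG : 2 < Nat.card G := by
    by_contra hle
    apply hns
    have hpos : 0 < Nat.card G := Nat.card_pos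
    have : Nat.card G = 1 ∨ Nat.card G = 2 := by omega
    rcases this with h1 | h2
    · have : Subsingleton G := (Nat.card_eq_one_iff_unique.1 h1).1
      infer_instance
    · have : Fact (Nat.Prime 2) := ⟨Nat.prime_two⟩
      have := isCyclic_of_prime_card h2
      exact Group.isSolvable_of_comm fun a b => (IsCyclic.commGroup (α := G)).mul_comm a b
  obtain ⟨N, h⟩ := CfsgLib.ChDeg.exists_isGagola hG χ.2 hχ
  obtain ⟨p, hp, hE⟩ := h.exists_elementary
  have := h.normal
  have : Fact p.Prime := ⟨hp⟩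
  have hNp : IsPGroup p N := CfsgLib.Core.isElementaryAbelian_isPGroup hE
  have hC := fun x hx hx1 => CfsgLib.ChDeg.camina_isPGroup_centralizer hp hNp
    (fun g hg n hn => h.isConj_mul hg hn) (x := x) hx hx1
  obtain ⟨⟨x, hx⟩, hx1'⟩ := ne_bot_iff_exists_ne_one.mp h.ne_bot
  have hx1 : x ≠ 1 := fun e => hx1' (Subtype.ext e)
  have hcore : centralizer (N : Set G) = pCore p G := by
    apply le_antisymm
    · exact CfsgLib.Core.le_pCore ((hC x hx hx1).to_le
        (centralizer_le (Set.singleton_subset_iff.mpr hx)))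
    · obtain ⟨z, hz, hz1, hzc⟩ := CfsgLib.Frob.exists_ne_one_mem_centralizer_of_isPGroup
        (CfsgLib.Core.isPGroup_pCore p G) hNp h.ne_bot (by rw [normalizer_eq_top]; exact le_top)
      have hle : N ≤ centralizer (pCore p G : Set G) :=
        h.le_of_ne_bot (fun e => hz1 (by rwa [e, mem_bot] at hzc))
      exact le_centralizer_iff.1 hle
  refine ⟨p, inferInstance, fun q hq => ⟨fun hq1 => ?_, ?_⟩, ?_⟩
  · have h1 : IsPGroup q N := (CfsgLib.Core.isPGroup_pCore q G).to_le (h.le_of_ne_bot hq1)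
    obtain ⟨k, hk⟩ := CfsgLib.Core.isPGroup_subgroup_iff.mp h1 x hx
    have h2 : orderOf x = p := orderOf_eq_prime (hE.2 x hx) hx1
    exact ((Nat.prime_dvd_prime_iff_eq hp hq).mp
      (hp.dvd_of_dvd_pow (h2 ▸ orderOf_dvd_of_pow_eq_one hk))).symm
  · rintro rfl e
    have := CfsgLib.Core.le_pCore hNp
    rw [e, le_bot_iff] at this
    exact h.ne_bot this
  · have := hE.1
    let : CommGroup N := { (inferInstance : Group N) with mul_comm := mul_comm' }
    let φ0 : G →* MulAut N := MulAut.conjNormal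
    have hφ0 : ∀ (g : G) (n : N), ((φ0 g n : N) : G) = g * n * g⁻¹ := fun g n => rfl
    have hker : ∀ g : G, φ0 g = 1 ↔ g ∈ pCore p G := fun g => by
      rw [← hcore, mem_centralizer_iff]
      constructor
      · intro e n hn
        have := hφ0 g ⟨n, hn⟩
        rw [e] at this
        change n = g * n * g⁻¹ at this
        rw [eq_mul_inv_iff_mul_eq] at this
        exact this
      · intro e
        ext n
        rw [hφ0, ← e n n.2, mul_inv_cancel_right]
        rfl
    let φ : (G ⧸ pCore p G) →* MulAut N := QuotientGroup.lift _ φ0 fun g hg => (hker g).2 hg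
    have hφ : ∀ (g : G) (n : N), ((φ (g : G ⧸ pCore p G) n : N) : G) = g * n * g⁻¹ :=
      fun g n => rfl
    refine top_tr (A := N) (fun v => Subtype.ext (hE.2 _ v.2)) φ (fun g hg => ?_)
      ⟨⟨x, hx⟩, hx1'⟩ (fun v w hv hw => ?_) (fun g v hv hg => ?_)
    · obtain ⟨g, rfl⟩ := QuotientGroup.mk_surjective g
      rw [QuotientGroup.eq_one_iff, ← hker]
      exact hg
    · obtain ⟨c, hc⟩ := isConj_iff.mp (h.isConj _ v.2 _ w.2
        (fun e => hv (Subtype.ext e)) (fun e => hw (Subtype.ext e)))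
      exact ⟨c, Subtype.ext hc⟩
    · obtain ⟨g, rfl⟩ := QuotientGroup.mk_surjective g
      have h2 : g * (v : G) * g⁻¹ = v := congrArg Subtype.val hg
      obtain ⟨k, hk⟩ := CfsgLib.Core.isPGroup_subgroup_iff.mp
        (hC _ v.2 (fun e => hv (Subtype.ext e))) g
        (mem_centralizer_singleton_iff.mpr (mul_inv_eq_iff_eq_mul.1 h2))
      exact ⟨k, by rw [← QuotientGroup.mk_pow, hk, QuotientGroup.mk_one]⟩

end CfsgLib.Gag
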