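import Cfsg.Agent.Lib.Gag.C13

/-!
# Gagola's theorem: weak closure, large spread set (plans/GAG.md, package WC1)
-/

set_option autoImplicit false
set_option linter.unusedSectionVars false
set_option linter.unusedVariables false

namespace CfsgLib.Gag
open Cfsg Subgroup

variable {G W : Type*} [Group G] [Finite G] [AddCommGroup W] [Module (ZMod 2) W] [Finite W]
  {φ : G →* Mx W} {x t : G}

theorem SS.conj {R : Type*} [Monoid R] {a l l' : R} (h : SS a) (h1 : l * l' = 1) (h2 : l' * l = 1) :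
    SS (l' * a * l) := by
  obtain ⟨k, hk, e⟩ := h
  refine ⟨k, hk, ?_⟩
  have : ∀ n, (l' * a * l) ^ n = l' * a ^ n * l := fun n => by
    induction n with
    | zero => simp [h2]
    | succ n ih => rw [pow_succ, ih, pow_succ]; simp only [mul_assoc, assoc_rw h1, one_mul]
  rw [this, e, mul_one, h2]

theorem Fr.ratio (hF : Fr φ x t) (hss : ∀ α, InA φ α → α ≠ 0 → SS α) {α α' β : E2 W} (hα : InA φ α) (hβ : InA φ β)
    (h1 : α * α' = 1) (h0 : β ≠ 0) : SS (α' * β) := by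
  have a0 : α ≠ 0 := fun e => hF.one_ne (by rw [← h1, e, zero_mul])
  have hs := hss α hα a0
  obtain ⟨l, hl, e⟩ := hs.sqrt two_eq (self_mem_Rg α)
  obtain ⟨l', hl', e1, e2, -⟩ := (hs.of_unit two_eq hl (isUnit_of_mul_isUnit_left (e.symm ▸ hs.isUnit))).inv
  obtain ⟨h, hh⟩ := (hF.torA hα hs).2 l' (Rg_le hl hl') l e2 e1
  obtain ⟨h', hh'⟩ := (hF.torA hα hs).2 l hl l' e1 e2
  obtain ⟨b, hb⟩ := hβ
  have e3 : InA φ (l' * β * l') := ⟨h * b * h', by rw [map_mul, map_mul, hh, hh', hb, dM_uM_dM _ _ _ _ _ e2 e1]⟩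
  have e4 : α' = l' * l' := (left_inv_eq_right_inv (by rw [← e, mul_assoc, assoc_rw e2, one_mul, e2]) h1).symm
  have := (hss _ e3 fun e5 => h0 (by
    have : l * (l' * β * l') * l = β := by simp only [mul_assoc, e2, assoc_rw e1, one_mul, mul_one]
    rw [← this, e5, mul_zero, zero_mul])).conj e1 e2
  rwa [mul_assoc, mul_assoc, e2, mul_one, ← mul_assoc, ← e4] at this

theorem Fr.wc_str (hF : Fr φ x t) (hss : ∀ α, InA φ α → α ≠ 0 → SS α) {μ ν : E2 W}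
    (hμ : InA φ μ) (hν : InA φ ν) (m0 : μ ≠ 0) (m1 : μ ≠ 1) (n0 : ν ≠ 0) (n1 : ν ≠ 1)
    (s0 : μ + ν ≠ 0) (s1 : μ + ν ≠ 1) {b : G} (bb : b * b = 1) (hc : ∀ a ∈ Aq (rep φ) t, a * b = b * a) :
    ∃ m θ, InA φ θ ∧ φ b = !![m, θ * m; 0, m] ∧ m * m = 1 ∧ ∀ α, InA φ α → m * α = α * m := by
  obtain ⟨m, θ₀, -, e⟩ := hF.cent (hc t (self_mem_Aq t)).symm
  have e1 := congrArg φ bb
  rw [map_mul, e, map_one, m2mul, m2one] at e1
  have mm : m * m = 1 := by simpa using (m2inj e1).1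
  have cm : ∀ α, InA φ α → m * α = α * m := fun α ⟨a, ha⟩ => by
    have e2 := congrArg φ (hc a (hF.memA.2 ⟨α, ha⟩))
    rw [map_mul, map_mul, e, ha, uM, m2mul, m2mul] at e2
    simpa [add_comm] using (m2inj e2).2.1.symm
  have e2 : φ b = uM (θ₀ * m) * dM m m := by simp [e, uM, dM, mul_assoc, mm]
  refine ⟨m, θ₀ * m, ?_, by rw [e, mul_assoc, mm, mul_one], mm, cm⟩
  generalize θ₀ * m = θ at e2
  have k1 : ∀ l, InA φ l → l ≠ 0 → InA φ (l * θ * l + θ) := fun l hl l0 => by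
    obtain ⟨l', hl', a1, a2, -⟩ := (hss l hl l0).inv
    obtain ⟨h, hh⟩ := (hF.torA hl (hss l hl l0)).2 l (self_mem_Rg l) l' a1 a2
    obtain ⟨h', hh'⟩ := (hF.torA hl (hss l hl l0)).2 l' hl' l a2 a1
    have e3 : φ b⁻¹ = dM m m * uM θ := left_inv_eq_right_inv (by rw [← map_mul, inv_mul_cancel, map_one]) (by
      rw [e2, mul_assoc, ← mul_assoc (dM m m), dM_mul, mm, dM_one, one_mul, uM_sq two_eq])
    refine ⟨h * b * h' * b⁻¹, ?_⟩
    rw [map_mul, map_mul, map_mul, hh, hh', e2, e3, ← uM_mul, ← dM_uM_dM _ _ _ _ _ a1 a2]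
    simp only [mul_assoc]
    congr 2
    rw [← mul_assoc, ← mul_assoc, dM_mul, dM_mul, comm_Rg (cm l hl) hl', cm l hl, mul_assoc, mul_assoc, mm, mul_one,
      mul_one]
  have k2 : ∀ l, InA φ l → l ≠ 0 → l ≠ 1 → InA φ (θ + l * θ + θ * l) := fun l hl l0 l1 => by
    convert (k1 l hl l0).add (k1 _ (hF.inA_one.add hl) fun e => l1 (eq_of_add two_eq e).symm) using 1
    apply z2
    simp only [mul_add, add_mul, mul_one, one_mul, mul_assoc]
    match_scalars <;> decide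
  convert ((k2 μ hμ m0 m1).add (k2 ν hν n0 n1)).add (k2 _ (hμ.add hν) s0 s1) using 1
  apply z2
  simp only [mul_add, add_mul]
  match_scalars <;> decide

theorem Fr.wc_big (hF : Fr φ x t) (hss : ∀ α, InA φ α → α ≠ 0 → SS α) {μ ν : E2 W}
    (hμ : InA φ μ) (hν : InA φ ν) (m0 : μ ≠ 0) (m1 : μ ≠ 1) (n0 : ν ≠ 0) (n1 : ν ≠ 1)
    (s0 : μ + ν ≠ 0) (s1 : μ + ν ≠ 1) (g : G)
    (hc : ∀ a ∈ Aq (rep φ) t, ∀ b ∈ Aq (rep φ) (g * t * g⁻¹), a * b = b * a) :
    Aq (rep φ) (g * t * g⁻¹) = Aq (rep φ) t := by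
  by_contra hne
  have tt : g * t * g⁻¹ * (g * t * g⁻¹) = 1 := by rw [conj_mul, hF.tt, mul_one, mul_inv_cancel]
  have t1 : g * t * g⁻¹ ≠ 1 := by simpa using hF.t_ne
  have str : ∀ b ∈ Aq (rep φ) (g * t * g⁻¹), b ≠ 1 → ∃ m θ, InA φ θ ∧ φ b = !![m, θ * m; 0, m] ∧ m * m = 1 ∧
      (∀ α, InA φ α → m * α = α * m) ∧ θ ≠ 0 ∧ m ≠ 1 := fun b hb b1 => by
    have bb := hF.hyp.Aq_sq tt t1 hb
    have e1 := hF.hyp.Aq_eq tt t1 hb b1
    obtain ⟨m, θ, h1, h2, h3, h4⟩ := hF.wc_str hss hμ hν m0 m1 n0 n1 s0 s1 bb fun a ha => hc a ha b hb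
    refine ⟨m, θ, h1, h2, h3, h4, fun e => ?_, fun e => hne ?_⟩
    · rw [e, zero_mul] at h2
      exact hF.c3 ⟨μ, hμ, m1, hss μ hμ m0⟩ hF.ord g (e1 ▸ hF.cent_Aq hμ m1 (hss μ hμ m0) bb b1 h2 (h4 μ hμ))
    · rw [e, mul_one] at h2
      exact e1.symm.trans (hF.hyp.Aq_eq hF.tt hF.t_ne (hF.memA.2 ⟨θ, h2⟩) b1)
  obtain ⟨a, ha⟩ := hμ
  have a1 : a ≠ 1 := fun e => m0 (uM_inj (by rw [← ha, e, map_one, uM_zero]))
  have hb1 := self_mem_Aq (ρ := rep φ) (g * t * g⁻¹)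
  have hb2 := (Aq_conj g t a).2 (hF.memA.2 ⟨μ, ha⟩)
  obtain ⟨m, θ, hθ, e, mm, cm, θ0, mne⟩ := str _ hb1 t1
  obtain ⟨n, ϑ, hϑ, e', nn, cn, ϑ0, -⟩ := str _ hb2 (by simpa using a1)
  have q1 := quadM hF.hyp tt t1 hb1 hb2
  have q2 := quadM hF.hyp tt t1 hb2 hb1
  rw [e, e', m2one, m2add, m2add, m2mul, m2zero] at q1 q2
  simp only [add_zero, mul_zero, zero_mul] at q1 q2
  have z1 := (m2inj q1).1
  have z2' := (m2inj q2).1
  have mn : m * n = m + n + 1 := by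
    rw [← add_zero (m + n + 1), ← z1]; apply z2
    simp only [mul_add, add_mul, mul_one, one_mul]
    match_scalars <;> decide
  have nm : n * m = m + n + 1 := by
    rw [← add_zero (m + n + 1), ← z2']; apply z2
    simp only [mul_add, add_mul, mul_one, one_mul]
    match_scalars <;> decide
  have key : ϑ * (m + 1) = θ * (n + 1) := by
    rw [← add_zero (θ * (n + 1)), ← (m2inj q1).2.1]; apply z2
    simp only [mul_add, add_mul, mul_one, one_mul, mul_assoc, assoc_rw (cm ϑ hϑ), mn]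
    match_scalars <;> decide
  obtain ⟨θ', hθ', i1, i2, -⟩ := (hss θ hθ θ0).inv
  have sα := hF.ratio hss hθ hϑ i1 ϑ0
  have c1 : m * θ' = θ' * m := comm_Rg (cm θ hθ) hθ'
  have c2 : n * θ' = θ' * n := comm_Rg (cn θ hθ) hθ'
  obtain ⟨k, hk, ek⟩ := hss μ ⟨a, ha⟩ m0
  have gg : φ g⁻¹ * φ g = 1 := by rw [← map_mul, inv_mul_cancel, map_one]
  have gg' : φ g * φ g⁻¹ = 1 := by rw [← map_mul, mul_inv_cancel, map_one]
  have f1 : φ g * dM μ 1 * φ g⁻¹ * (φ (g * t * g⁻¹) + 1) = φ (g * a * g⁻¹) + 1 := by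
    have : dM μ 1 * (uM 1 + 1) = uM μ + 1 := by simp [dM, uM, m2one, two_eq]
    rw [map_mul, map_mul, map_mul, map_mul, hF.ht, ha]
    calc _ = φ g * (dM μ 1 * (uM 1 + 1)) * φ g⁻¹ := by
          simp only [mul_add, add_mul, mul_assoc, assoc_rw gg, one_mul, mul_one]
      _ = _ := by rw [this, mul_add, add_mul, mul_one, gg']
  have f2 : (φ (g * a * g⁻¹) + 1) * dM 0 1 =
      (φ (g * t * g⁻¹) + 1) * dM 0 1 * dM (θ' * ϑ * (m * n)) (θ' * ϑ * (m * n)) := by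
    rw [e, e', m2one, m2add, m2add]
    simp only [dM, m2mul, mul_zero, zero_mul, add_zero, zero_add, mul_one]
    refine m2ext rfl ?_ rfl ?_
    · simp only [mul_assoc, assoc_rw c1, assoc_rw (cm ϑ hϑ), assoc_rw i1, assoc_rw mm, one_mul]
    · calc n + 1 = θ' * (θ * (n + 1)) * (m * n) := by
            rw [assoc_rw i2, one_mul, ← mul_assoc, add_mul, nm, one_mul, add_right_comm, add_right_comm m, two_eq,
              zero_add, add_mul, nn, one_mul, add_comm]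
        _ = _ := by
            rw [← key]
            simp only [mul_add, add_mul, mul_assoc, assoc_rw c1, assoc_rw (cm ϑ hϑ), one_mul, mul_one]
  have f3 : ∀ j, (φ g * dM μ 1 * φ g⁻¹) ^ j * ((φ (g * t * g⁻¹) + 1) * dM 0 1) =
      (φ (g * t * g⁻¹) + 1) * dM 0 1 * dM (θ' * ϑ * (m * n)) (θ' * ϑ * (m * n)) ^ j := fun j => by
    induction j with
    | zero => simp
    | succ j ih => rw [pow_succ, mul_assoc, ← mul_assoc _ (φ _ + 1), f1, f2, ← mul_assoc, ih, pow_succ, mul_assoc]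
  obtain ⟨k, hk, ek⟩ := (show SS (dM μ 1) from ⟨k, hk, by rw [dM_pow, ek, one_pow, dM_one]⟩).conj gg gg'
  have f4 := f3 k
  rw [ek, one_mul, dM_pow, e, m2one, m2add] at f4
  simp only [dM, m2mul, mul_zero, zero_mul, add_zero, zero_add, mul_one] at f4
  have u1 : IsUnit (θ * m) := (hss θ hθ θ0).isUnit.mul (IsUnit.of_mul_eq_one _ mm)
  have f5 : (θ' * ϑ * (m * n)) ^ k = 1 := u1.mul_left_cancel (by rw [mul_one]; exact (m2inj f4).2.1.symm)
  have cc : Commute (θ' * ϑ) (m * n) := by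
    change _ * _ = _ * _
    simp only [mul_assoc, assoc_rw c1, assoc_rw c2, cn ϑ hϑ, assoc_rw (cm ϑ hϑ)]
  have sq : m * n * (m * n) = 1 := by rw [mul_assoc, assoc_rw (nm.trans mn.symm), mul_assoc, nn, mul_one, mm]
  obtain ⟨j, rfl⟩ := hk
  rw [cc.mul_pow, pow_succ (m * n), pow_mul (m * n), pow_two, sq, one_pow, one_mul] at f5
  have f6 : (θ' * ϑ) ^ (2 * j + 1) = m * n := left_inv_eq_right_inv f5 sq
  have f7 := sα.eq_one two_eq (pow_mem (self_mem_Rg _) (2 * j + 1)) (by rw [f6, sq])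
  obtain rfl : m = n := left_inv_eq_right_inv (f6.symm.trans f7) nn
  by_cases h : θ + ϑ = 0
  · obtain rfl := eq_of_add two_eq h
    have := hF.inj (e.trans e'.symm)
    rw [mul_left_inj, mul_right_inj] at this
    exact m1 (uM_inj (by rw [← ha, ← this, hF.ht]))
  · exact mne (eq_of_add two_eq ((hF.unit (hθ.add hϑ) h).mul_right_eq_zero.1 (by rw [add_mul, key, two_eq])))

end CfsgLib.Gag
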