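import Cfsg.Agent.Lib.Gag.C13
import Cfsg.Agent.Lib.Gag.Lev

/-!
# Gagola's theorem: weak closure, spread set of order four (plans/GAG.md, package WC2)
-/

set_option autoImplicit false
set_option linter.unusedSectionVars false
set_option linter.unusedVariables false

namespace CfsgLib.Gag
open Cfsg Subgroup

namespace WC2

variable {G : Type*} [Group G]

/-- No element of order three centralises `e`, unless `e = 1`. -/
def Bad (e : G) : Prop := ∀ y : G, orderOf y = 3 → Commute y e → e = 1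

theorem ord_conj (g y : G) : orderOf (g * y * g⁻¹) = orderOf y := (MulAut.conj g).orderOf_eq y

theorem Bad.conj {e : G} (h : Bad e) (g : G) : Bad (g * e * g⁻¹) := fun y hy hc => by
  rw [h (g⁻¹ * y * g⁻¹⁻¹) ((ord_conj ..).trans hy) (by simpa [mul_assoc] using hc.conj g⁻¹)]
  simp

theorem sq_conj {x : G} (hx : orderOf x = 3) (a : G) : x * (x * a * x⁻¹) * x⁻¹ = x⁻¹ * a * x := by
  have h : x * x = x⁻¹ := eq_inv_of_mul_eq_one_left (by rw [← pow_three', ← hx, pow_orderOf_eq_one])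
  calc _ = x * x * a * (x * x)⁻¹ := by group
    _ = _ := by rw [h, inv_inv]

theorem comm_of_conj {x a : G} (h : x * a * x⁻¹ = a) : Commute x a := mul_inv_eq_iff_eq_mul.1 h

/-- A four-group with a fixed-point-free element of order three. -/
structure Q (A : Subgroup G) (x : G) : Prop where
  ord : orderOf x = 3
  sq : ∀ a ∈ A, a * a = 1
  four : ∀ a ∈ A, ∀ b ∈ A, ∀ c ∈ A, a ≠ 1 → b ≠ 1 → c ≠ 1 → a ≠ b → a ≠ c → b ≠ c → a * b * c = 1
  bad : ∀ a ∈ A, Bad a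
  cm : ∀ b, (∀ a ∈ A, Commute a b) → x * b * x⁻¹ * b⁻¹ ∈ A

variable {A B : Subgroup G} {x y : G}

theorem Q.conj (h : Q A x) {g : G} (hB : ∀ a, g * a * g⁻¹ ∈ B ↔ a ∈ A) : Q B (g * x * g⁻¹) := by
  have k := (MulAut.conj g).surjective
  have i := (MulAut.conj g).injective
  refine ⟨(ord_conj ..).trans h.ord, k.forall.2 fun a ha => ?_, k.forall.2 fun a ha =>
    k.forall.2 fun b hb => k.forall.2 fun c hc h1 h2 h3 h4 h5 h6 => ?_,
    k.forall.2 fun a ha => (h.bad a ((hB a).1 ha)).conj g, k.forall.2 fun b hb => ?_⟩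
  · rw [← map_mul, h.sq a ((hB a).1 ha), map_one]
  · rw [← map_mul, ← map_mul, h.four a ((hB a).1 ha) b ((hB b).1 hb) c ((hB c).1 hc)
      (by simpa using h1) (by simpa using h2) (by simpa using h3) (by simpa using h4)
      (by simpa using h5) (by simpa using h6), map_one]
  · have := (hB _).2 (h.cm b fun a ha => i (by
      rw [map_mul, map_mul]; exact hb _ ((hB a).2 ha)))
    convert this using 1
    rw [MulAut.conj_apply]; group

namespace Q
variable (h : Q A x)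
include h

theorem inv {a : G} (ha : a ∈ A) : a⁻¹ = a := inv_eq_of_mul_eq_one_left (h.sq a ha)

theorem comm {a b : G} (ha : a ∈ A) (hb : b ∈ A) : Commute a b := by
  have := h.inv (mul_mem ha hb)
  rw [mul_inv_rev, h.inv ha, h.inv hb] at this
  exact this.symm

theorem up {a : G} (ha : a ∈ A) : x * a * x⁻¹ ∈ A :=
  (mul_mem_cancel_right (inv_mem ha)).1 (h.cm a fun _ hb => h.comm hb ha)

theorem down {a : G} (ha : a ∈ A) : x⁻¹ * a * x ∈ A := sq_conj h.ord a ▸ h.up (h.up ha)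

theorem up_ne {a : G} (ha : a ∈ A) (h1 : a ≠ 1) : a ≠ x * a * x⁻¹ := fun e =>
  h1 (h.bad a ha x h.ord (comm_of_conj e.symm))

theorem down_ne {a : G} (ha : a ∈ A) (h1 : a ≠ 1) : a ≠ x⁻¹ * a * x := fun e =>
  h.up_ne ha h1 (by nth_rewrite 2 [e]; group)

theorem down_ne_one {a : G} (ha : a ∈ A) (h1 : a ≠ 1) : x⁻¹ * a * x ≠ 1 := fun e =>
  h1 (conj_eq_one_iff.1 (by rwa [inv_inv] : x⁻¹ * a * x⁻¹⁻¹ = 1))

theorem up_down {a : G} (ha : a ∈ A) (h1 : a ≠ 1) : x * a * x⁻¹ ≠ x⁻¹ * a * x :=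
  sq_conj h.ord a ▸ h.up_ne (h.up ha) (by simpa using h1)

theorem norm {a : G} (ha : a ∈ A) : x⁻¹ * a * x * a = x * a * x⁻¹ := by
  by_cases h1 : a = 1
  · simp [h1]
  rw [← h.inv (h.up ha)]
  exact eq_inv_of_mul_eq_one_left (h.four _ (h.down ha) a ha _ (h.up ha)
    (h.down_ne_one ha h1) h1 (by simpa using h1)
    (h.down_ne ha h1).symm (h.up_down ha h1).symm (h.up_ne ha h1))

theorem cases {a c : G} (ha : a ∈ A) (h1 : a ≠ 1) (hc : c ∈ A) :
    c = 1 ∨ c = a ∨ c = x * a * x⁻¹ ∨ c = x⁻¹ * a * x := by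
  by_contra h2
  push Not at h2
  have h3 := h.four a ha _ (h.up ha) c hc h1 (by simpa using h1) h2.1 (h.up_ne ha h1) h2.2.1.symm
    h2.2.2.1.symm
  rw [← h.norm ha, ← mul_assoc, (h.comm ha (h.down ha)).eq, mul_assoc _ a a, h.sq a ha, mul_one] at h3
  exact h2.2.2.2 ((eq_inv_of_mul_eq_one_right h3).trans (h.inv (h.down ha)))

theorem fix {a b : G} (ha : a ∈ A) (hb : x * b * x⁻¹ = a * b) : Commute x (x * a * x⁻¹ * b) := by
  refine comm_of_conj ?_
  rw [← conj_mul, sq_conj h.ord, hb, ← mul_assoc, h.norm ha]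

theorem tri (k : Q B y) (hc : ∀ a ∈ A, ∀ b ∈ B, Commute a b) {a b : G} (ha : a ∈ A) (hb : b ∈ B) :
    Bad (a * b) ∨ Commute x (a * b) := by
  by_cases h1 : b = 1
  · exact .inl (by rw [h1, mul_one]; exact h.bad a ha)
  have h2 := h.cm b fun a ha => hc a ha b hb
  set a₁ := x * b * x⁻¹ * b⁻¹
  have h3 : x * b * x⁻¹ = a₁ * b := (inv_mul_cancel_right _ _).symm
  rcases h.cases h2 (fun e => h1 (k.bad b hb x h.ord (comm_of_conj (mul_inv_eq_one.1 e)))) ha with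
    e | e | e | e <;> rw [e]
  · exact .inl (by rw [one_mul]; exact k.bad b hb)
  · exact .inl (h3 ▸ (k.bad b hb).conj x)
  · exact .inr (h.fix h2 h3)
  · refine .inl ?_
    have := ((k.bad b hb).conj x).conj x
    rwa [h3, ← conj_mul, h3, ← h.norm h2, ← mul_assoc, mul_assoc _ a₁ a₁, h.sq _ h2, mul_one] at this

end Q

/-- `y` acts on `A` like `x`, modulo elements centralised by everything. -/
def S (A : Subgroup G) (x y : G) : Prop := ∀ a ∈ A, ∃ d, d * d = 1 ∧ Commute x d ∧ Commute y d ∧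
  (∀ a ∈ A, Commute a d) ∧ y * a * y⁻¹ = x * a * x⁻¹ * d

theorem S_or (h : Q A x) (k : Q B y) (hc : ∀ a ∈ A, ∀ b ∈ B, Commute a b) : S A x y ∨ S A x y⁻¹ := by
  let D : G → Prop := fun d => (∃ a ∈ A, ∃ b ∈ B, d = a * b) ∧ Commute x d ∧ Commute y d
  have D1 : ∀ d, D d → ∀ a ∈ A, Commute a d := by
    rintro _ ⟨⟨a, ha, b, hb, rfl⟩, -⟩ c h1
    exact (h.comm h1 ha).mul_right (hc c h1 b hb)
  have D2 : ∀ d, D d → d * d = 1 := by
    rintro _ ⟨⟨a, ha, b, hb, rfl⟩, -⟩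
    rw [(hc a ha b hb).symm.mul_mul_mul_comm, h.sq a ha, k.sq b hb, mul_one]
  have D3 : ∀ d d', D d → D d' → D (d * d') := by
    rintro _ _ ⟨⟨a, ha, b, hb, rfl⟩, h1, h2⟩ ⟨⟨a', ha', b', hb', rfl⟩, h3, h4⟩
    exact ⟨⟨_, mul_mem ha ha', _, mul_mem hb hb', (hc a' ha' b hb).symm.mul_mul_mul_comm ..⟩,
      h1.mul_right h3, h2.mul_right h4⟩
  let R : G → G → Prop := fun a a' => ∃ d, D d ∧ y * a * y⁻¹ = a' * d
  have R1 : ∀ a a' b b', b' ∈ A → R a a' → R b b' → R (a * b) (a' * b') := by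
    rintro a a' b b' hb ⟨d, h1, h2⟩ ⟨d', h3, h4⟩
    exact ⟨_, D3 d d' h1 h3, by rw [← conj_mul, h2, h4, (D1 d h1 b' hb).symm.mul_mul_mul_comm]⟩
  have R2 : ∀ a ∈ A, R a a → a = 1 := by
    rintro a ha ⟨d, h1, h2⟩
    refine h.bad a ha y⁻¹ ((orderOf_inv y).trans k.ord) (comm_of_conj ?_)
    rw [inv_inv, ← sq_conj k.ord, h2, ← conj_mul, h2, h1.2.2.mul_inv_cancel, mul_assoc, D2 d h1,
      mul_one]
  have R3 : ∀ a ∈ A, a ≠ 1 → R a (x * a * x⁻¹) ∨ R a (x⁻¹ * a * x) := fun a ha h1 => by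
    have h2 := k.cm a fun b hb => (hc a ha b hb).symm
    set b := y * a * y⁻¹ * a⁻¹
    have h3 := h.cm b fun a ha => hc a ha b h2
    have h4 := h.fix h3 (inv_mul_cancel_right _ _).symm
    have h5 := h.up h3
    set c := x * (x * b * x⁻¹ * b⁻¹) * x⁻¹
    have h6 : D (c * b) := ⟨⟨c, h5, b, h2, rfl⟩, h4, by
      rcases k.tri h (fun b hb a ha => (hc a ha b hb).symm) h2 h5 with e | e <;>
        rw [← (hc c h5 b h2).eq] at e
      exacts [e x h.ord h4 ▸ Commute.one_right y, e]⟩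
    have h7 : y * a * y⁻¹ = a * c * (c * b) := by
      rw [← mul_assoc, mul_assoc a, h.sq c h5, mul_one, (hc a ha b h2).eq, inv_mul_cancel_right]
    rcases h.cases ha h1 (mul_mem ha h5) with e | e | e | e <;> rw [e] at h7
    · refine absurd (h.bad a ha x h.ord ?_) h1
      rw [one_mul, ← h6.2.2.mul_inv_cancel, mul_left_inj, mul_right_inj] at h7
      exact h7 ▸ h4
    · exact absurd (R2 a ha ⟨_, h6, h7⟩) h1
    · exact .inl ⟨_, h6, h7⟩
    · exact .inr ⟨_, h6, h7⟩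
  have R0 : R 1 1 := ⟨1, ⟨⟨1, one_mem _, 1, one_mem _, (mul_one 1).symm⟩, Commute.one_right _,
    Commute.one_right _⟩, by simp⟩
  by_cases h1 : ∀ a ∈ A, R a (x * a * x⁻¹)
  · refine .inl fun a ha => ?_
    obtain ⟨d, h2, h3⟩ := h1 a ha
    exact ⟨d, D2 d h2, h2.2.1, h2.2.2, D1 d h2, h3⟩
  push Not at h1
  obtain ⟨a, ha, h1⟩ := h1
  have a1 : a ≠ 1 := fun e => h1 (by simpa [e] using R0)
  have h2 := (R3 a ha a1).resolve_left h1
  have h3 : R (x⁻¹ * a * x) (x * a * x⁻¹) := by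
    rcases R3 _ (h.down ha) (h.down_ne_one ha a1) with e | e
    · have h3 := R1 _ _ _ _ (h.down ha) e h2
      rw [show x * (x⁻¹ * a * x) * x⁻¹ = a by group, (h.comm ha (h.down ha)).eq, h.norm ha] at h3
      exact absurd (R2 _ (h.up ha) h3) (by simpa using a1)
    · rwa [← sq_conj h.ord (x⁻¹ * a * x),
        show x * (x * (x⁻¹ * a * x) * x⁻¹) * x⁻¹ = x * a * x⁻¹ by group] at e
  have h4 : ∀ c ∈ A, R (x * c * x⁻¹) c := fun c hc => by
    rcases h.cases ha a1 hc with e | e | e | e <;> rw [e]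
    · simpa using R0
    · have h4 := R1 _ _ _ _ (h.down ha) h3 h2
      rwa [h.norm ha, ← h.norm ha, (h.comm (h.down ha) ha).eq, mul_assoc a, h.sq _ (h.down ha),
        mul_one, ← (h.comm (h.down ha) ha).eq, h.norm ha] at h4
    · rwa [sq_conj h.ord]
    · rwa [show x * (x⁻¹ * a * x) * x⁻¹ = a by group]
  refine .inr fun c hc => ?_
  obtain ⟨d, h5, h6⟩ := h4 c hc
  refine ⟨d, D2 d h5, h5.2.1, h5.2.2.inv_left, D1 d h5, ?_⟩
  rw [← mul_left_inj d, mul_assoc _ d, D2 d h5, mul_one, ← h5.2.2.inv_left.mul_inv_cancel, conj_mul,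
    ← h6]
  group

theorem pow_four {g a d : G} (gg : g * g = 1) (aa : a * a = 1) (dd : d * d = 1) (hc : Commute a d)
    (h : g⁻¹ * a * g = a * d) : (g * a) ^ 2 ^ 2 = 1 ∧ (a * g) ^ 2 ^ 2 = 1 := by
  rw [inv_eq_of_mul_eq_one_left gg] at h
  have h1 : g * a * (g * a) = d := by
    rw [← mul_assoc, h, mul_assoc, ← hc.eq, ← mul_assoc, aa, one_mul]
  have h2 : a * g * (a * g) = d := by
    rw [mul_assoc, ← mul_assoc g, h, ← mul_assoc, aa, one_mul]
  rw [sq 2, pow_mul, pow_mul, sq (g * a), sq (a * g), h1, h2, sq, dd]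
  exact ⟨rfl, rfl⟩

theorem S.eq [Finite G] {V : Type*} [AddCommGroup V] [Module (ZMod 2) V] [Finite V] {ρ : G →* E2 V}
    (hρ : Hyp ρ) (h : Q A x) (hy : orderOf y = 3) (hS : S A x y) {a : G} (ha : a ∈ A) :
    y * a * y⁻¹ = x * a * x⁻¹ := by
  have hx := h.ord
  have h1 : ∀ a ∈ A, ∃ d, d * d = 1 ∧ Commute x d ∧ Commute (x * y⁻¹) d ∧ (∀ a ∈ A, Commute a d) ∧
      (x * y⁻¹)⁻¹ * a * (x * y⁻¹) = a * d := fun a ha => by
    obtain ⟨d, h1, h2, h3, h4, h5⟩ := hS _ (h.down ha)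
    refine ⟨d, h1, h2, h2.mul_left h3.inv_left, h4, ?_⟩
    calc _ = y * (x⁻¹ * a * x) * y⁻¹ := by group
      _ = _ := by rw [h5]; group
  suffices ∀ a ∈ A, Commute (x * y⁻¹) a by
    rw [← (this _ (h.up ha)).inv_left.mul_inv_cancel]; group
  clear a ha
  intro a ha
  by_cases c0 : cc ρ x y = 0
  swap
  · obtain ⟨k, h2, h3⟩ := odd_of_tr two_eq (g := ρ (x * y⁻¹)) (g' := ρ (y * x⁻¹))
      (by rw [← map_mul, ← map_one ρ]; congr 1; group) (by rw [← map_mul, ← map_one ρ]; congr 1; group)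
      (hρ.tr_eq hx hy) ((em _).elim (fun c1 => ⟨1, odd_one, by rw [c1, one_pow]⟩) (hρ.ss_cc hx hy c0))
      (orderOf_pos (x * y⁻¹)) (by rw [← map_pow, pow_orderOf_eq_one, map_one])
    obtain ⟨d, h4, -, h5, -, h6⟩ := h1 a ha
    refine mem_centralizer_singleton_iff.1 (SS.mem_of_sq (Γ := (centralizer {a}).toSubmonoid)
      ⟨k, h2, hρ.inj (by rw [map_pow, h3, map_one])⟩ (mem_centralizer_singleton_iff.2 ?_))
    generalize x * y⁻¹ = g at *
    have h7 : a * g = g * a * d := by rw [mul_assoc, ← h6]; group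
    rw [← mul_assoc a, h7, mul_assoc _ d, ← h5.eq, ← mul_assoc (g * a), mul_assoc g a g, h7,
      mul_assoc _ _ d, mul_assoc _ d, h4, mul_one, mul_assoc]
  have gg := hρ.sq_of_cc hx hy c0
  set z := x * a * x⁻¹ * x * (x * a * x⁻¹)⁻¹ with hz
  have z3 : orderOf z = 3 := (ord_conj ..).trans hx
  have h2 : x * z⁻¹ = a := by
    rw [show x * z⁻¹ = x * (x * a * x⁻¹) * x⁻¹ * (x * a * x⁻¹)⁻¹ by rw [hz]; group, sq_conj hx,
      ← h.norm ha, mul_inv_rev, h.inv ha, ← mul_assoc, (h.comm (h.down ha) ha).eq,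
      mul_inv_cancel_right]
  have gi := inv_eq_of_mul_eq_one_left gg
  have c2 := hρ.l1a hx z3 (k := 1) (by rw [h2, pow_one, sq, h.sq a ha])
  have c3 : cc ρ y z = 0 := by
    obtain ⟨d, h4, -, -, h5, h6⟩ := h1 a ha
    refine hρ.l1a hy z3 (k := 2) ?_
    rw [show y * z⁻¹ = (x * y⁻¹)⁻¹ * (x * z⁻¹) by group, gi, h2]
    exact (pow_four gg (h.sq a ha) h4 (h5 a ha) h6).1
  have c4 : cc ρ (x * y * x⁻¹) z = 0 := by
    obtain ⟨d, h4, h3, -, h5, h6⟩ := h1 _ (h.down ha)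
    refine hρ.l1a ((ord_conj ..).trans hy) z3 (k := 2) ?_
    rw [show x * y * x⁻¹ * z⁻¹ = x * ((x * y⁻¹)⁻¹ * (x⁻¹ * (x * z⁻¹) * x)) * x⁻¹ by group, gi, h2,
      conj_pow, (pow_four gg (h.sq _ (h.down ha)) h4 (h5 _ (h.down ha)) h6).1]
    simp
  have c5 : cc ρ (x * z * x⁻¹) y = 0 := by
    obtain ⟨d, h4, h3, -, h5, h6⟩ := h1 _ (h.up ha)
    refine hρ.l1a ((ord_conj ..).trans z3) hy (k := 2) ?_
    rw [show x * z * x⁻¹ * y⁻¹ = (x * (x * z⁻¹) * x⁻¹)⁻¹ * (x * y⁻¹) by group, h2, h.inv (h.up ha)]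
    exact (pow_four gg (h.sq _ (h.up ha)) h4 (h5 _ (h.up ha)) h6).2
  have t1 := hρ.tri hx hy z3 c0 c2 c3 c4
  have t2 := hρ.tri hx z3 hy c2 c0 ((cc_symm ..).trans c3) c5
  have a1 := (hρ.anti hx hy).2
  have a2 := (hρ.anti hx z3).2
  rw [c0, add_zero] at a1
  rw [c2, add_zero] at a2
  refine hρ.inj ?_
  rw [map_mul ρ _ a, map_mul ρ a, ← h2, hρ.rho_mul_inv hx hy, hρ.rho_mul_inv hx z3]
  generalize ρ x + ρ y = δ at *
  generalize ρ x + ρ z = ε at *
  calc _ = 1 + ρ x * δ + ρ x * ε + ρ x * (δ * ρ x) * ε := by noncomm_ring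
    _ = 1 + ρ x * δ + ρ x * ε + ρ x * (ε * ρ x) * δ := by
      rw [a1, a2, mul_assoc, mul_assoc, t1, mul_assoc, mul_assoc, t2]
    _ = _ := by noncomm_ring

theorem main [Finite G] {V : Type*} [AddCommGroup V] [Module (ZMod 2) V] [Finite V] {ρ : G →* E2 V}
    (hρ : Hyp ρ) (h : Q A x) (k : Q B y) (hc : ∀ a ∈ A, ∀ b ∈ B, Commute a b)
    (hd : ∀ a ∈ A, a ∈ B → a = 1) {a : G} (ha : a ∈ A) : a = 1 := by
  have key : ∀ a ∈ A, y * a * y⁻¹ ∈ A → a = 1 := fun a ha h1 =>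
    h.bad a ha y k.ord (comm_of_conj (mul_inv_eq_one.1 (hd _ (mul_mem h1 (inv_mem ha))
      (k.cm a fun b hb => (hc a ha b hb).symm))))
  rcases S_or h k hc with h1 | h1
  · exact key a ha (h1.eq hρ h k.ord ha ▸ h.up ha)
  · have h2 := h1.eq hρ h ((orderOf_inv y).trans k.ord) ha
    refine conj_eq_one_iff.1 (key _ (h.up ha) ?_)
    rwa [← h2, show y * (y⁻¹ * a * y⁻¹⁻¹) * y⁻¹ = a by group]

end WC2

open WC2

variable {G W : Type*} [Group G] [Finite G] [AddCommGroup W] [Module (ZMod 2) W] [Finite W]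
  {φ : G →* Mx W} {x t : G}

theorem Fr.wc_small (hF : Fr φ x t) {β : E2 W} (hβ : InA φ β) (h1 : β ≠ 1) (hs : SS β)
    (hall : ∀ α, InA φ α → α = 0 ∨ α = 1 ∨ α = β ∨ α = β + 1) (g : G)
    (hc : ∀ a ∈ Aq (rep φ) t, ∀ b ∈ Aq (rep φ) (g * t * g⁻¹), a * b = b * a) :
    Aq (rep φ) (g * t * g⁻¹) = Aq (rep φ) t := by
  obtain ⟨h2, h3⟩ := hF.torA hβ hs
  have bb : β * β = β + 1 := by
    rcases hall _ (h2 _ (mul_mem (self_mem_Rg β) (self_mem_Rg β))) with e | e | e | e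
    · exact absurd ((hs.isUnit.mul hs.isUnit).mul_right_cancel (by rw [e, mul_zero, mul_zero]))
        hF.one_ne
    · exact absurd (hs.eq_one two_eq (self_mem_Rg β) e) h1
    · exact absurd (hs.isUnit.mul_right_cancel (by rw [e, one_mul])) h1
    · exact e
  have b1 : β * (β + 1) = 1 := by rw [mul_add, bb, mul_one, add_right_comm, two_eq, zero_add]
  have b2 : (β + 1) * β = 1 := by rw [add_mul, bb, one_mul, add_right_comm, two_eq, zero_add]
  obtain ⟨y, hy⟩ := h3 β (self_mem_Rg β) _ b1 b2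
  have hy' : φ y⁻¹ = dM (β + 1) β := by
    have : φ y * dM (β + 1) β = 1 := by rw [hy, dM_mul, b1, b2, dM_one]
    rw [← mul_one (φ y⁻¹), ← this, ← mul_assoc, ← map_mul, inv_mul_cancel, map_one, one_mul]
  have four : ∀ a ∈ Aq (rep φ) t, ∀ b ∈ Aq (rep φ) t, ∀ c ∈ Aq (rep φ) t, a ≠ 1 → b ≠ 1 → c ≠ 1 →
      a ≠ b → a ≠ c → b ≠ c → a * b * c = 1 := fun a ha b hb c hc a1 b1 c1 ab ac bc => by
    obtain ⟨α₁, e₁⟩ := hF.memA.1 ha
    obtain ⟨α₂, e₂⟩ := hF.memA.1 hb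
    obtain ⟨α₃, e₃⟩ := hF.memA.1 hc
    have z : ∀ {a α}, φ a = uM α → a ≠ 1 → α = 1 ∨ α = β ∨ α = β + 1 := fun e a1 =>
      (hall _ ⟨_, e⟩).resolve_left fun e' => a1 (hF.inj (by rw [e, e', uM_zero, map_one]))
    have n : ∀ {a b α α'}, φ a = uM α → φ b = uM α' → a ≠ b → α ≠ α' := fun e e' ab e'' =>
      ab (hF.inj (by rw [e, e', e'']))
    have n1 := n e₁ e₂ ab
    have n2 := n e₁ e₃ ac
    have n3 := n e₂ e₃ bc
    refine hF.inj ?_
    rw [map_mul, map_mul, e₁, e₂, e₃, uM_mul, uM_mul, map_one, ← uM_zero, ← two_eq (β + 1)]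
    congr 1
    rcases z e₁ a1 with e | e | e <;> rcases z e₂ b1 with e' | e' | e' <;>
      rcases z e₃ c1 with e'' | e'' | e'' <;>
      first
        | exact absurd (e.trans e'.symm) n1
        | exact absurd (e.trans e''.symm) n2
        | exact absurd (e'.trans e''.symm) n3
        | (rw [e, e', e''] <;> abel)
  have tt := hF.tt
  have t1 := hF.t_ne
  have hQ : Q (Aq (rep φ) t) y := by
    refine ⟨orderOf_eq_prime (hF.inj ?_) fun e => h1 ?_, fun a ha => hF.hyp.Aq_sq tt t1 ha, four,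
      fun a ha z hz hc => ?_, fun b hb => ?_⟩
    · rw [map_pow, hy, pow_three', dM_mul, dM_mul, bb, b2, map_one, ← dM_one, mul_assoc]
      congr 1
      nth_rewrite 2 [← bb]
      rw [mul_assoc, b1, mul_one, b2]
    · rw [e, map_one] at hy
      exact (congrFun (congrFun hy 0) 0).symm
    · by_contra a1
      refine hF.c3 ⟨β, hβ, h1, hs⟩ hz 1 fun c hc' => ?_
      rw [one_mul, inv_one, mul_one] at hc'
      have h4 : z * c * z⁻¹ ∈ Aq (rep φ) t :=
        hF.hyp.Aq_eq tt t1 ha a1 ▸ conj_mem_Aq hc (hF.hyp.Aq_eq tt t1 ha a1 ▸ hc')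
      by_contra h5
      have c1 : c ≠ 1 := fun e => h5 (by rw [e, mul_one, one_mul])
      have ac : a ≠ c := fun e => h5 (e ▸ hc)
      have h6 := four a ha c hc' _ h4 a1 c1 (by simpa using c1) ac
        (fun e => ac (by rw [← hc.mul_inv_cancel, mul_left_inj, mul_right_inj] at e; exact e))
        fun e => h5 (comm_of_conj e.symm)
      have h7 : z * c * z⁻¹ = a * c := (eq_inv_of_mul_eq_one_right h6).trans
        (inv_eq_of_mul_eq_one_left (hF.hyp.Aq_sq tt t1 (mul_mem ha hc')))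
      have h8 := sq_conj hz c
      rw [h7, ← conj_mul, h7, hc.mul_inv_cancel, ← mul_assoc, hF.hyp.Aq_sq tt t1 ha, one_mul] at h8
      exact h5 (by nth_rewrite 1 [h8]; group)
    · obtain ⟨m, θ, -, h4⟩ := hF.cent (hb t (self_mem_Aq t)).symm
      obtain ⟨m', θ', -, h5⟩ := hF.cent (hb t (self_mem_Aq t)).symm.inv_left
      obtain ⟨u, hu⟩ := hβ
      have h6 : β * m = m * β := by
        have := congrArg (fun g => φ g 0 1) (hb u (hF.memA.2 ⟨β, hu⟩))
        simpa [hu, h4, uM, Matrix.mul_apply, add_comm] using this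
      have h7 : m * m' = 1 := by
        have := congrArg (fun g => φ g 0 0) (mul_inv_cancel b)
        simp only [map_mul, h4, h5, map_one] at this
        simpa [Matrix.mul_apply] using this
      refine hF.memA.2 ⟨(φ (y * b * y⁻¹ * b⁻¹)) 0 1, ?_⟩
      rw [map_mul, map_mul, map_mul, hy, hy', h4, h5]
      ext1 i j
      fin_cases i <;> fin_cases j <;> simp [uM, dM, Matrix.mul_apply, Fin.sum_univ_two]
      · rw [h6, mul_assoc m, b1, mul_one, h7]
      · rw [mul_assoc _ m, ← h6, ← mul_assoc, b2, one_mul, h7]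
  by_contra hne
  have gt : g * t * g⁻¹ * (g * t * g⁻¹) = 1 := by rw [conj_mul, tt]; simp
  refine t1 (main hF.hyp hQ (hQ.conj (Aq_conj g t)) hc (fun a ha hb => ?_) (self_mem_Aq t))
  by_contra a1
  exact hne ((hF.hyp.Aq_eq gt (by simpa using t1) hb a1).symm.trans (hF.hyp.Aq_eq tt t1 ha a1))

end CfsgLib.Gag
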