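import Cfsg.Agent.Lib.Gag.Red1
import Cfsg.Agent.Lib.SL2.SylowTwo
import Cfsg.Agent.Lib.Tech.Invol

/-!
# Gagola's theorem: cross characteristic, p dividing the order (plans/GAG.md, package XCH)
-/

set_option autoImplicit false
set_option linter.unusedSectionVars false
set_option linter.unusedVariables false

namespace CfsgLib.Gag
open Cfsg Subgroup

section num
open Finset

/-- `1 + Q + ⋯ + Q ^ (t - 1)` -/
def gs (Q t : ℕ) : ℕ := ∑ i ∈ range t, Q ^ i

theorem gs_succ (Q t : ℕ) : gs Q (t + 1) = Q * gs Q t + 1 := geom_sum_succ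

theorem gs_mul (x t : ℕ) : gs (x + 1) t * x + 1 = (x + 1) ^ t := geom_sum_mul_add x t

theorem gs_mod (M w t : ℕ) : gs (M * w + 1) t ≡ t [MOD M] := by
  induction t with
  | zero => rfl
  | succ t ih =>
    rw [gs_succ]
    simpa using ((((Nat.modEq_zero_iff_dvd.2 (dvd_mul_right M w)).add_right 1).mul ih)).add_right 1

theorem gs_two {w t a : ℕ} (hw : w ≠ 0) (h : 2 ^ a ∣ gs (4 * w + 1) t) : 2 ^ a ∣ t := by
  have h1 := Int.two_pow_sub_pow' (x := 4 * w + 1) (y := 1) t ⟨w, by ring⟩ (by omega)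
  have h2 : ((4 * w + 1 : ℤ)) ^ t - 1 ^ t = gs (4 * w + 1) t * (4 * w + 1 - 1) := by
    have := congrArg (Nat.cast : ℕ → ℤ) (gs_mul (4 * w) t)
    push_cast at this
    rw [← this]; ring
  rw [h2, emultiplicity_mul Int.prime_two, add_comm] at h1
  replace h1 := WithTop.add_left_cancel (finiteMultiplicity_iff_emultiplicity_ne_top.1
    (Int.finiteMultiplicity_iff.2 ⟨by decide, by omega⟩)) h1
  have h3 : (2 : ℤ) ^ a ∣ gs (4 * w + 1) t := by exact_mod_cast h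
  rw [pow_dvd_iff_le_emultiplicity, h1, ← pow_dvd_iff_le_emultiplicity] at h3
  exact_mod_cast h3

theorem exists_gs {p c n N : ℕ} (hp : 2 ≤ p) (hc : 1 ≤ c) (h : p ^ n - 1 = N * (p ^ c - 1)) :
    ∃ t, p ^ n = (p ^ c) ^ t ∧ N = gs (p ^ c) t := by
  have h1 := Nat.pow_sub_one_gcd_pow_sub_one p c n
  have h2 : 1 < p ^ c := Nat.one_lt_pow (by omega) hp
  rw [Nat.gcd_eq_left (h ▸ dvd_mul_left _ _)] at h1
  have h3 : 0 < p ^ c.gcd n := by positivity
  obtain ⟨t, rfl⟩ : c ∣ n := Nat.pow_right_injective hp (show p ^ c = p ^ c.gcd n by omega) ▸ Nat.gcd_dvd_right c n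
  refine ⟨t, pow_mul _ _ _, Nat.eq_of_mul_eq_mul_right (Nat.sub_pos_of_lt h2) ?_⟩
  have h4 := gs_mul (p ^ c - 1) t
  rw [Nat.sub_add_cancel h2.le, ← pow_mul] at h4
  omega

theorem pow_le_gs (Q t : ℕ) : Q ^ t ≤ gs Q (t + 1) := by
  rw [gs, geom_sum_succ']; omega

theorem five_pow (x : ℕ) : (2 * (x + 4) + 1) * (x + 4) < 5 ^ (x + 3) := by
  induction x with
  | zero => norm_num
  | succ x ih => rw [show x + 1 + 3 = x + 3 + 1 from rfl, pow_succ]; nlinarith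

theorem num_plus {p c a t : ℕ} (hp : p.Prime) (h2 : p ≠ 2) (ha : 1 ≤ a) (hc : 1 ≤ c) (h1 : p ∣ 2 * 2 ^ a + 1 + 1)
    (h3 : 4 ∣ p ^ c - 1) (h4 : (2 * 2 ^ a + 1) * 2 ^ a = gs (p ^ c) t) :
    p = 3 ∧ 2 * 2 ^ a + 1 = 5 ∧ (p ^ c) ^ t = 81 := by
  have h5 : 1 < p ^ c := Nat.one_lt_pow (by omega) hp.two_le
  obtain ⟨w, hw⟩ := h3
  have h6 : p ^ c = 4 * w + 1 := by omega
  have h7 := gs_two (w := w) (t := t) (a := a) (by omega) (by rw [← h6, ← h4]; exact dvd_mul_left _ _)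
  obtain _ | t := t
  · simp [gs] at h4
  have h8 := pow_le_gs (p ^ c) t
  obtain rfl : a = 1 := by
    by_contra h
    obtain ⟨x, hx⟩ := Nat.exists_eq_add_of_le' (Nat.pow_le_pow_right two_pos (show 2 ≤ a by omega))
    have h9 := Nat.le_of_dvd (by omega) h7
    have h10 := five_pow x
    have h11 : 5 ^ (x + 3) ≤ (p ^ c) ^ t :=
      (Nat.pow_le_pow_right (by norm_num) (by omega)).trans (Nat.pow_le_pow_left (by omega) t)
    rw [hx] at h4
    norm_num at h4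
    omega
  obtain rfl : p = 3 := (Nat.prime_dvd_prime_iff_eq hp Nat.prime_three).1 (((Nat.Prime.dvd_mul hp).1
    (show p ∣ 2 * 3 from h1)).resolve_left fun h => h2 ((Nat.prime_dvd_prime_iff_eq hp Nat.prime_two).1 h))
  have h9 := gs_mul (4 * w) (t + 1)
  have h10 : 3 ∣ 4 * w + 1 := h6 ▸ dvd_pow_self 3 (by omega)
  rw [h6] at h4 ⊢
  rw [← h9, ← h4]
  rw [gs_succ] at h4
  have h11 : 4 * w + 1 ≤ 9 := Nat.le_of_dvd (by norm_num) ⟨gs (4 * w + 1) t, by omega⟩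
  omega

theorem num_minus {p b c a t : ℕ} (hp : p.Prime) (h2 : p ≠ 2) (hc : 1 ≤ c) (h3 : 4 * 2 ^ a ∣ p ^ c - 1)
    (h4 : (2 * 2 ^ a * p ^ (b + 1) + 1) * (2 ^ a * p ^ (b + 1) + 1) = gs (p ^ c) t) :
    p = 3 ∧ 2 * 2 ^ a * p ^ (b + 1) + 1 = 13 ∧ (p ^ c) ^ t = 729 := by
  have h5 : 1 < p ^ c := Nat.one_lt_pow (by omega) hp.two_le
  obtain ⟨w, hw⟩ := h3
  have h6 : p ^ c = 4 * 2 ^ a * w + 1 := by omega
  have hf : p.Coprime (2 ^ a) := ((Nat.coprime_primes hp Nat.prime_two).2 h2).pow_right a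
  have hf0 : 0 < 2 ^ a := by positivity
  have hw0 : 0 < w := Nat.pos_of_ne_zero (by rintro rfl; omega)
  have hu0 : 0 < p ^ b := pow_pos hp.pos b
  obtain _ | t := t
  · simp [gs] at h4
  have h7 : p ^ c * gs (p ^ c) t = 2 ^ a * p ^ (b + 1) * (2 * 2 ^ a * p ^ (b + 1) + 3) := by
    rw [gs_succ] at h4; linarith
  obtain _ | s := t
  · have : 0 < 2 ^ a * p ^ (b + 1) * (2 * 2 ^ a * p ^ (b + 1) + 3) := by have := hp.pos; positivity
    simp only [gs, range_zero, sum_empty, mul_zero] at h7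
    omega
  have hR : p.Coprime (gs (p ^ c) (s + 1)) := by
    rw [gs_succ, show p ^ c = p * p ^ (c - 1) by rw [← pow_succ', Nat.sub_add_cancel hc], mul_assoc]
    simp
  by_cases h8 : p = 3
  · subst h8
    obtain ⟨v, hv⟩ : 3 ^ (b + 2) ∣ 3 ^ c := (hR.pow_left _).dvd_of_dvd_mul_right
      ⟨2 ^ a * (2 * 2 ^ a * 3 ^ b + 1), by rw [h7]; ring⟩
    have h9 : v * gs (3 ^ c) (s + 1) = 2 ^ a * (2 * 2 ^ a * 3 ^ b + 1) :=
      Nat.eq_of_mul_eq_mul_left (show 0 < 3 ^ (b + 2) by positivity) (by rw [← mul_assoc, ← hv, h7]; ring)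
    have hv3 : v ∣ 3 ^ c := ⟨_, hv.trans (mul_comm _ _)⟩
    have h10 : 2 ^ a ∣ s + 1 := (((gs_mod (4 * 2 ^ a) w (s + 1)).of_mul_left 4).dvd_iff dvd_rfl).1
      (h6 ▸ ((hf.pow_left c).coprime_dvd_left hv3).symm.dvd_of_dvd_mul_left ⟨_, h9⟩)
    have hv0 : 0 < v := Nat.pos_of_dvd_of_pos hv3 (by omega)
    have h11 := pow_le_gs (3 ^ c) s
    have h12 : gs (3 ^ c) (s + 1) ≤ 2 ^ a * (2 * 2 ^ a * 3 ^ b + 1) := h9 ▸ Nat.le_mul_of_pos_left _ hv0
    rw [pow_add] at hv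
    rw [pow_succ 3 b]
    have h13 : s ≤ 2 := by
      by_contra h
      have h14 := Nat.pow_le_pow_right (n := 3 ^ c) (by omega) (show 3 ≤ s by omega)
      have h15 : 4 * 2 ^ a ≤ 3 ^ c := by nlinarith
      have h16 : 9 * 3 ^ b ≤ 3 ^ c := by nlinarith
      have h17 := Nat.mul_le_mul (Nat.mul_le_mul h15 h15) h16
      nlinarith
    have h14 : a ≤ 1 := by
      by_contra h
      have := (Nat.pow_le_pow_right two_pos (show 2 ≤ a by omega)).trans (Nat.le_of_dvd (by omega) h10)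
      omega
    obtain _ | s := s
    · have e1 : 2 ^ a = 1 := Nat.dvd_one.1 h10
      have e2 : v = 2 * 3 ^ b + 1 := by simpa [gs, e1] using h9
      obtain _ | b := b
      · simp only [e1, e2] at hv h6; omega
      · obtain ⟨j, -, hj⟩ := (Nat.dvd_prime_pow Nat.prime_three).1 hv3
        obtain _ | j := j <;> simp only [pow_succ] at e2 hj hu0 <;> omega
    · have e1 : 3 ^ c + 1 ≤ gs (3 ^ c) (s + 1 + 1) := by
        rw [gs_succ, gs_succ]; nlinarith [Nat.zero_le (3 ^ c * gs (3 ^ c) s)]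
      interval_cases a
      · nlinarith
      · obtain rfl : s = 0 := by omega
        have e2 : gs (3 ^ c) (0 + 1 + 1) = 3 ^ c + 1 := by simp [gs_succ, gs]
        rw [e2, hv] at h9
        obtain rfl : v = 1 := by nlinarith
        have e3 : 3 ^ b = 1 := by omega
        rw [hv, e3]
        norm_num
  · have h9 : p.Coprime (2 * 2 ^ a * p ^ (b + 1) + 3) := by
      rw [pow_succ p, ← mul_assoc, Nat.coprime_mul_right_add_right]
      exact (Nat.coprime_primes hp Nat.prime_three).2 h8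
    have h10 : p ^ c = p ^ (b + 1) := Nat.dvd_antisymm ((hf.pow_left c).dvd_of_dvd_mul_left
      ((h9.pow_left c).dvd_of_dvd_mul_right ⟨_, h7.symm⟩)) ((hR.pow_left _).dvd_of_dvd_mul_right
      ⟨2 ^ a * (2 * 2 ^ a * p ^ (b + 1) + 3), by rw [h7]; ring⟩)
    rw [← h10, gs_succ] at h7
    generalize p ^ c = Q at *
    have h11 : Q * gs Q s + 1 = Q * (2 * 2 ^ a * 2 ^ a) + 3 * 2 ^ a :=
      Nat.eq_of_mul_eq_mul_left (show 0 < Q by omega) (by rw [h7]; ring)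
    have h12 : Q ∣ 3 * 2 ^ a - 1 := (Nat.dvd_add_right (dvd_mul_right Q (2 * 2 ^ a * 2 ^ a))).1 ⟨gs Q s, by omega⟩
    have h13 := Nat.le_of_dvd (by omega) h12
    have h14 := Nat.le_mul_of_pos_right (4 * 2 ^ a) hw0
    omega

theorem num_xch {p q m N c n : ℕ} (hp : p.Prime) (h2 : p ≠ 2) (hq : 3 < q) (ho : Odd q)
    (hl : ∀ l : ℕ, l.Prime → l ≠ 2 → l ∣ q - 1 → l = p) (hm : m = q - 1 ∨ m = q + 1) (hpm : p ∣ m)
    (hN : 2 * m * N = q * (q - 1) * (q + 1)) (hc : 1 ≤ c) (h : p ^ n - 1 = N * (p ^ c - 1))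
    (hk : ∀ k, 2 ^ k ∣ 2 * m → 2 ^ k ∣ p ^ c - 1) : p = 3 ∧ (q = 5 ∧ p ^ n = 81 ∨ q = 13 ∧ p ^ n = 729) := by
  obtain ⟨t, h3, rfl⟩ := exists_gs hp.two_le hc h
  obtain ⟨a, o, h4, h5⟩ := Nat.exists_eq_two_pow_mul_odd (n := q - 1) (by omega)
  obtain ⟨b, rfl⟩ : ∃ b, o = p ^ b := ⟨_, Nat.eq_prime_pow_of_unique_prime_dvd h4.pos.ne' fun hd h =>
    hl _ hd (by rintro rfl; exact h4.not_two_dvd_nat h) (h5 ▸ h.mul_left _)⟩
  obtain _ | a := a
  · obtain ⟨x, hx⟩ := ho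
    obtain ⟨y, hy⟩ := h4
    omega
  obtain rfl : q = 2 * 2 ^ a * p ^ b + 1 := by rw [← pow_succ', ← h5]; omega
  have h6 : ¬ p ∣ 2 := fun h => h2 ((Nat.prime_dvd_prime_iff_eq hp Nat.prime_two).1 h)
  have h7 : 0 < 2 ^ a * p ^ b := by have := hp.pos; positivity
  rw [Nat.add_sub_cancel] at hm hN
  rw [h3]
  rcases hm with rfl | rfl <;> obtain _ | b := b
  · rw [pow_zero, mul_one, ← pow_succ'] at hpm
    exact (h6 (hp.dvd_of_dvd_pow hpm)).elim
  · exact (num_minus hp h2 hc (by simpa [pow_add, mul_comm] using hk (a + 2) ⟨p ^ (b + 1), by ring⟩)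
      (Nat.eq_of_mul_eq_mul_left (show 0 < 4 * (2 ^ a * p ^ (b + 1)) by omega) (by linarith))).imp_right Or.inr
  · simp only [pow_zero, mul_one] at *
    exact (num_plus hp h2 (Nat.pos_of_ne_zero (by rintro rfl; omega)) hc hpm (hk 2 ⟨2 ^ a + 1, by ring⟩)
      (Nat.eq_of_mul_eq_mul_left (show 0 < 4 * (2 ^ a + 1) by omega) (by linarith))).imp_right Or.inl
  · exact (h6 ((Nat.dvd_add_right (Dvd.intro (2 * 2 ^ a * p ^ b) (by ring))).1 hpm)).elim

end num

universe u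
variable {p : ℕ} [hp : Fact p.Prime] {H : Type u} [Group H] [Finite H] {V : Type*} [AddCommGroup V]
  [Module (ZMod p) V] [Finite V] {ρ : H →* Module.End (ZMod p) V}

open SL2 in
theorem Tr.prime_card (h : Tr p ρ) (S : Subgroup H) {F : Type} [Field F] [Fintype F]
    (e : S ≃* Matrix.SpecialLinearGroup (Fin 2) F) (ho : Odd (Fintype.card F))
    (hc : ¬ p ∣ Fintype.card F) :
    (Fintype.card F).Prime ∧ ∀ l : ℕ, l.Prime → l ≠ 2 → l ∣ Fintype.card F - 1 → l = p := by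
  set f := S.subtype.comp e.symm.toMonoidHom
  have hf : Function.Injective f := S.subtype_injective.comp e.symm.injective
  let g : Multiplicative F →* H := f.comp (MonoidHom.mk' (fun x => uu x.toAdd) fun _ _ => uu_add _ _)
  have hg : Function.Injective g := hf.comp fun x y e => uu_injective (F := F) e
  have h1 : Nat.card g.range = Fintype.card F := by
    rw [← Nat.card_congr (MonoidHom.ofInjective hg).toEquiv, Nat.card_eq_fintype_card, Fintype.card_multiplicative]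
  have h2 := h.cyc g.range (by rintro _ ⟨x, rfl⟩ _ ⟨y, rfl⟩; rw [← map_mul, ← map_mul, mul_comm]) (h1 ▸ hc)
  obtain ⟨s, _, n, hs, hn⟩ := FiniteField.card' F
  have h3 : (Fintype.card F).Prime := by
    have : Fintype.card F ∣ s := by
      rw [← h1, ← IsCyclic.exponent_eq_card]
      refine Monoid.exponent_dvd_of_forall_pow_eq_one ?_
      rintro ⟨_, x, rfl⟩
      refine Subtype.ext ((map_pow g x s).symm.trans ((congrArg g ?_).trans (map_one g)))
      simp [← ofAdd_nsmul, ← toAdd_eq_zero]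
    rwa [(Nat.dvd_prime hs).1 this |>.resolve_left Fintype.one_lt_card.ne']
  refine ⟨h3, fun l hl h4 h5 => by_contra fun h6 => ?_⟩
  have := Fact.mk hl
  have := Fact.mk h3
  classical
  obtain ⟨a, ha⟩ := exists_prime_orderOf_dvd_card' (G := Fˣ) l (by
    rwa [Nat.card_eq_fintype_card, Fintype.card_units])
  have h7 : g (.ofAdd 1) ≠ 1 := fun e => by simpa using hg (e.trans (map_one g).symm)
  have h7' : zpowers (g (.ofAdd 1)) ≤ g.range := zpowers_le.2 ⟨_, rfl⟩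
  have h8 := eq_of_le_of_card_ge h7' (h1.trans (((Nat.dvd_prime h3).1 (h1 ▸ card_dvd_of_le h7')).resolve_left
    fun e => h7 (zpowers_eq_bot.1 (card_eq_one.1 e))).symm).le
  have h9 : orderOf (g (.ofAdd 1)) = Fintype.card F := by rw [← Nat.card_zpowers, h8, h1]
  have h10 : orderOf (f (dg a)) = l := (orderOf_injective (f.comp dgHom) (hf.comp dg_injective) a).trans ha
  have h11 := h.pq (a := g (.ofAdd 1)) (b := f (dg a)) (h9 ▸ h3) (h10 ▸ hl) (h9 ▸ fun e => hc (e ▸ dvd_rfl))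
    (h10 ▸ h6) (h8 ▸ ⟨.ofAdd ((a : F) ^ 2), by
      rw [← map_inv]
      refine (congrArg f ?_).trans ((map_mul f _ _).trans (congrArg (· * _) (map_mul f _ (uu 1))))
      rw [← dg_inv]
      refine ext2 ?_ ?_ ?_ ?_ <;> simp [mul_ap, sq]⟩)
  have h12 := congrArg (· 0 1) (hf ((map_mul f (uu 1) _).trans (h11.trans (map_mul f _ (uu 1)).symm)))
  have h13 : a ^ 2 = 1 := by
    rw [sq, mul_eq_one_iff_inv_eq]
    exact Units.ext (by simpa [mul_ap] using h12)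
  exact h4 ((Nat.prime_dvd_prime_iff_eq hl Nat.prime_two).1 (ha ▸ orderOf_dvd_of_pow_eq_one h13))

open SL2 in
theorem card_norm_sl2 {F : Type} [Field F] [Fintype F] (h2 : p ≠ 2) (hc : ¬ p ∣ Fintype.card F)
    {P : Subgroup (Matrix.SpecialLinearGroup (Fin 2) F)} (hP : IsPGroup p P) (h1 : P ≠ ⊥) :
    ∃ m, (m = Fintype.card F - 1 ∨ m = Fintype.card F + 1) ∧ p ∣ m ∧
      Nat.card (normalizer (P : Set (Matrix.SpecialLinearGroup (Fin 2) F))) = 2 * m := by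
  obtain ⟨y, h3, h4, h5⟩ := Tech.exists_mem_center_of_normalized hP le_rfl le_normalizer h1
  have h6 : ¬ IsScal y := fun h => h2 ((Nat.prime_dvd_prime_iff_eq hp.out Nat.prime_two).1
    (h4 ▸ orderOf_dvd_of_pow_eq_one (by rcases (isScal_iff y).1 h with rfl | rfl <;> simp)))
  have h7 := tr_sq_ne_of_coprime h6 (h4 ▸ (Nat.coprime_primes hp.out (CharP.char_is_prime F _)).2 fun e =>
    hc ((prime_dvd_char_iff_dvd_card p).1 (e ▸ dvd_rfl)))
  refine ⟨_, card_centralizer_regular h7, ?_, ?_⟩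
  · exact h4 ▸ orderOf_dvd_natCard _ (mem_centralizer_singleton_iff.2 rfl)
  · rw [normalizer_eq_of_le h7 (fun g hg => mem_centralizer_singleton_iff.2 (h5 g hg)) h3 h6, card_normalizer_torus h7]

theorem Tr.xch (h : Tr p ρ) (h2 : p ≠ 2) (S : Subgroup H) [S.Normal] {F : Type} [Field F]
    [Fintype F] (e : S ≃* Matrix.SpecialLinearGroup (Fin 2) F) (ho : Odd (Fintype.card F))
    (h3 : 3 < Fintype.card F) (hc : ¬ p ∣ Fintype.card F) (hd : p ∣ Nat.card S) :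
    p = 3 ∧ ((Fintype.card F = 5 ∧ Nat.card V = 81) ∨ (Fintype.card F = 13 ∧ Nat.card V = 729)) := by
  obtain ⟨P⟩ : Nonempty (Sylow p S) := inferInstance
  obtain ⟨m, h4, h5, h6⟩ := card_norm_sl2 h2 hc (P.2.map e.toMonoidHom) fun k =>
    P.ne_bot_of_dvd_card hd ((map_eq_bot_iff_of_injective _ e.injective).1 k)
  rw [← map_equiv_normalizer_eq, card_map_of_injective e.injective] at h6
  obtain ⟨n, -, hn⟩ := h.card_V
  obtain ⟨c, h7, h8, h9⟩ := h.count S P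
  rw [hn] at h9 ⊢
  refine num_xch hp.out h2 h3 ho (h.prime_card S e ho hc).2 h4 h5 ?_ h7 h9 fun k hk => ?_
  · rw [← h6, P.card_eq_index_normalizer, ← SL2.card_SL2', ← Nat.card_congr e.toEquiv]
    exact card_mul_index _
  · obtain ⟨K, hK⟩ := Sylow.exists_subgroup_card_pow_prime 2 (h6 ▸ hk)
    have h10 : Nat.card ((K.map (Subgroup.subtype _)).map S.subtype) = 2 ^ k := by
      rw [card_map_of_injective S.subtype_injective, card_map_of_injective (subtype_injective _), hK]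
    rw [← h8, ← h10]
    refine h.dvd _ (fun k => h2 ((Nat.prime_dvd_prime_iff_eq hp.out Nat.prime_two).1
      (hp.out.dvd_of_dvd_pow (h10 ▸ k)))) ⟨⟨⟨_, (fixS _ _).add_mem⟩, (fixS _ _).zero_mem⟩, (fixS _ _).smul_mem'⟩ ?_
    rintro _ ⟨_, ⟨x, -, rfl⟩, rfl⟩ u hu g hg
    have h11 := congrArg (ρ.comp S.subtype x) (hu _ ((mem_normalizer_iff''.1 x.2 g).1 hg))
    rwa [← Module.End.mul_apply, ← map_mul, mul_assoc, mul_inv_cancel_left, map_mul] at h11

end CfsgLib.Gag
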